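import Mathlib

/-!
# Extraspecial Sylow `p`-subgroups of order `p³` and exponent `p`: foundation (helper59)

Shared definition for the pieces of `S3054` / `S3055`.
-/

set_option autoImplicit false

namespace Cfsg.Agent.Lib.Helper59.XS

open scoped commutatorElement

variable {G : Type*} [Group G]

/-- `P` is extraspecial of order `p³` and exponent `p` with centre `Z`, in elementwise form. -/
structure Setup (p : ℕ) (P Z : Subgroup G) : Prop where
  hZP : Z ≤ P
  hZc : ∀ z ∈ Z, ∀ a ∈ P, a * z = z * a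
  hZcard : Nat.card Z = p
  hcomm : ∀ a ∈ P, ∀ b ∈ P, ⁅a, b⁆ ∈ Z
  hZmem : ∀ z ∈ P, (∀ a ∈ P, a * z = z * a) → z ∈ Z
  hexp : ∀ u ∈ P, u ^ p = 1
  hcard : Nat.card P = p ^ 3

end Cfsg.Agent.Lib.Helper59.XS
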