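import Mathlib
import Cfsg.Prelude.Def_Classical
import Cfsg.Agent.Lib.Helper18.UEDefs

/-!
# Project UE (helper18), S2335: piece COMEIGP

A family of commuting operators `T a` (`a` in an abelian group `A` of exponent dividing
`N`) on a finite-dimensional complex vector space, with `T a₀ ≠ 1`, has a common
eigenvector whose character is non-trivial at `a₀`.
-/

set_option autoImplicit false

namespace Cfsg.Agent.Lib.Helper18.UE

open Matrix

universe u

variable {F : Type u} [Field F] {m : ℕ}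

-- piece COMEIGP
theorem common_eigenvector_exp {V : Type*} [AddCommGroup V] [Module ℂ V]
    [FiniteDimensional ℂ V] {A : Type*} [AddCommGroup A] (T : A → V →ₗ[ℂ] V) (hT0 : T 0 = 1)
    (hTadd : ∀ a b : A, T (a + b) = T a * T b) (N : ℕ) (hN : 0 < N)
    (hexp : ∀ a : A, N • a = 0) (a₀ : A) (hne : T a₀ ≠ 1) :
    ∃ (v : V) (χ : A → ℂ), v ≠ 0 ∧ χ a₀ ≠ 1 ∧ χ 0 = 1 ∧
      (∀ a b : A, χ (a + b) = χ a * χ b) ∧ ∀ a : A, T a v = χ a • v := by
  classical
  have hcommE : ∀ a b, T a * T b = T b * T a := by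
    intro a b
    rw [← hTadd, ← hTadd, add_comm]
  have hcomm : ∀ a b (w : V), T a (T b w) = T b (T a w) := by
    intro a b w
    have h' := congrArg (fun f : V →ₗ[ℂ] V => f w) (hcommE a b)
    simpa using h'
  have hpow : ∀ (a : A) (k : ℕ), T (k • a) = T a ^ k := by
    intro a k
    induction k with
    | zero => simp [hT0]
    | succ k ih => rw [succ_nsmul, hTadd, ih, pow_succ]
  have hTN : T a₀ ^ N = 1 := by
    rw [← hpow, hexp, hT0]
  -- the "norm" element
  obtain ⟨e, he⟩ : ∃ e : V →ₗ[ℂ] V, e = ∑ i ∈ Finset.range N, T a₀ ^ i := ⟨_, rfl⟩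
  have hTe : T a₀ * e = e := by
    rw [he, Finset.mul_sum]
    have h1 : ∑ i ∈ Finset.range N, T a₀ * T a₀ ^ i
        = ∑ i ∈ Finset.range N, T a₀ ^ (i + 1) := by
      refine Finset.sum_congr rfl ?_
      intro i _
      rw [pow_succ']
    rw [h1]
    have h2 := Finset.sum_range_succ (fun i => T a₀ ^ i) N
    have h3 := Finset.sum_range_succ' (fun i => T a₀ ^ i) N
    rw [h2] at h3
    simp only [pow_zero] at h3
    rw [hTN] at h3
    exact (add_right_cancel h3).symm
  have heT : ∀ a, e * T a = T a * e := by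
    intro a
    rw [he, Finset.sum_mul, Finset.mul_sum]
    refine Finset.sum_congr rfl ?_
    intro i _
    exact ((Commute.pow_right (show Commute (T a) (T a₀) from hcommE a a₀) i)).symm.eq
  have hefix : ∀ v : V, T a₀ v = v → e v = (N : ℂ) • v := by
    intro v hv
    have hp : ∀ i : ℕ, (T a₀ ^ i) v = v := by
      intro i
      induction i with
      | zero => simp
      | succ i ih => rw [pow_succ, Module.End.mul_apply, hv, ih]
    rw [he, LinearMap.sum_apply]
    simp only [hp, Finset.sum_const, Finset.card_range]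
    rw [← Nat.cast_smul_eq_nsmul ℂ]
  set K₀ : Submodule ℂ V := LinearMap.ker e with hK₀
  have hK₀ne : K₀ ≠ ⊥ := by
    obtain ⟨w, hw⟩ : ∃ w, T a₀ w ≠ w := by
      by_contra h
      push_neg at h
      exact hne (LinearMap.ext h)
    intro hbot
    have hmem : T a₀ w - w ∈ K₀ := by
      rw [hK₀, LinearMap.mem_ker, map_sub]
      have h1 : e (T a₀ w) = (e * T a₀) w := rfl
      rw [h1, heT, hTe, sub_self]
    rw [hbot, Submodule.mem_bot] at hmem
    exact hw (sub_eq_zero.mp hmem)
  let S : Set (Submodule ℂ V) := {W | W ≠ ⊥ ∧ W ≤ K₀ ∧ ∀ a, ∀ w ∈ W, T a w ∈ W}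
  have hK₀S : K₀ ∈ S := by
    refine ⟨hK₀ne, le_refl _, ?_⟩
    intro a w hw
    rw [hK₀, LinearMap.mem_ker] at hw ⊢
    have h1 : e (T a w) = (e * T a) w := rfl
    rw [h1, heT, Module.End.mul_apply, hw, map_zero]
  obtain ⟨W, hWS, hWmin⟩ := (wellFounded_lt (α := Submodule ℂ V)).has_min S ⟨K₀, hK₀S⟩
  obtain ⟨hWne, hWK, hWinv⟩ := hWS
  have hscal : ∀ a, ∃ μ : ℂ, ∀ w ∈ W, T a w = μ • w := by
    intro a
    haveI : Nontrivial W := (Submodule.nontrivial_iff_ne_bot).mpr hWne
    obtain ⟨μ, hμ⟩ := Module.End.exists_eigenvalue ((T a).restrict (hWinv a))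
    obtain ⟨x, hx⟩ := hμ.exists_hasEigenvector
    refine ⟨μ, ?_⟩
    set Wp : Submodule ℂ V := W ⊓ LinearMap.ker (T a - μ • (1 : V →ₗ[ℂ] V)) with hWp
    have hxe : T a (x : V) = μ • (x : V) := by
      have h1 := hx.apply_eq_smul
      have h2 := congrArg (fun y : W => (y : V)) h1
      simpa using h2
    have hbot : Wp ≠ ⊥ := by
      intro hb
      have hmem : (x : V) ∈ Wp := by
        rw [hWp, Submodule.mem_inf, LinearMap.mem_ker]
        refine ⟨x.2, ?_⟩
        simp [hxe]
      rw [hb, Submodule.mem_bot] at hmem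
      exact hx.2 (Subtype.ext hmem)
    have hWpS : Wp ∈ S := by
      refine ⟨hbot, inf_le_left.trans hWK, ?_⟩
      intro b w hw
      rw [hWp, Submodule.mem_inf, LinearMap.mem_ker] at hw ⊢
      refine ⟨hWinv b w hw.1, ?_⟩
      have h1 : T a w = μ • w := by
        have h3 := hw.2
        simp only [LinearMap.sub_apply, LinearMap.smul_apply, Module.End.one_apply] at h3
        exact sub_eq_zero.mp h3
      simp only [LinearMap.sub_apply, LinearMap.smul_apply, Module.End.one_apply]
      rw [hcomm a b w, h1, map_smul, sub_self]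
    have hle : Wp ≤ W := inf_le_left
    have heq : Wp = W := by
      by_contra hneq
      exact hWmin Wp hWpS (lt_of_le_of_ne hle hneq)
    intro w hw
    rw [← heq, hWp, Submodule.mem_inf, LinearMap.mem_ker] at hw
    have h3 := hw.2
    simp only [LinearMap.sub_apply, LinearMap.smul_apply, Module.End.one_apply] at h3
    exact sub_eq_zero.mp h3
  obtain ⟨v, hvW, hv0⟩ := Submodule.exists_mem_ne_zero_of_ne_bot hWne
  choose χ hχ using hscal
  have huniq : ∀ (a : A) (c : ℂ), T a v = c • v → χ a = c := by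
    intro a c hc
    have h1 := hχ a v hvW
    have h3 : (χ a - c) • v = 0 := by
      rw [sub_smul, ← h1, ← hc, sub_self]
    rcases smul_eq_zero.mp h3 with h | h
    · exact sub_eq_zero.mp h
    · exact absurd h hv0
  refine ⟨v, χ, hv0, ?_, ?_, ?_, fun a => hχ a v hvW⟩
  · intro h1
    have h3 := hχ a₀ v hvW
    rw [h1, one_smul] at h3
    have h4 : e v = 0 := by
      have h5 := hWK hvW
      rwa [hK₀, LinearMap.mem_ker] at h5
    rw [hefix v h3] at h4
    rcases smul_eq_zero.mp h4 with h | h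
    · have : (N : ℂ) ≠ 0 := Nat.cast_ne_zero.mpr (Nat.pos_iff_ne_zero.mp hN)
      exact this h
    · exact hv0 h
  · apply huniq
    rw [hT0, one_smul]
    rfl
  · intro a b
    apply huniq
    rw [hTadd, Module.End.mul_apply, hχ b v hvW, map_smul, hχ a v hvW, smul_smul, mul_comm]

end Cfsg.Agent.Lib.Helper18.UE
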