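import Cfsg.Agent.Lib.Helper59.BSWG1x

set_option autoImplicit false

namespace Cfsg.Agent.Lib.Helper59.BSWR

open Cfsg Cfsg.Agent.Lib.Helper46.BSW

universe u

variable {G : Type u} [Group G]

theorem off_conj {K : Subgroup G} {z : G} (hz : Off K z) (g : G) : Off K (g * z * g⁻¹) := by
  intro y
  have h1 : y * (g * z * g⁻¹) * y⁻¹ = (y * g) * z * (y * g)⁻¹ := by group
  rw [h1]
  exact hz (y * g)

theorem conj_comm {g a b : G} (hab : a * b = b * a) :
    (g⁻¹ * a * g) * (g⁻¹ * b * g) = (g⁻¹ * b * g) * (g⁻¹ * a * g) := by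
  have e1 : (g⁻¹ * a * g) * (g⁻¹ * b * g) = g⁻¹ * (a * b) * g := by group
  have e2 : (g⁻¹ * b * g) * (g⁻¹ * a * g) = g⁻¹ * (b * a) * g := by group
  rw [e1, e2, hab]

theorem conj_mem_cent {g t v x : G} (hg : g * t * g⁻¹ = v) (hvx : v * x = x * v) :
    g⁻¹ * x * g ∈ Subgroup.centralizer ({t} : Set G) := by
  rw [Subgroup.mem_centralizer_singleton_iff]
  rw [← hg] at hvx
  have h2 : g⁻¹ * x * g * t = g⁻¹ * (x * (g * t * g⁻¹)) * g := by group
  have h3 : t * (g⁻¹ * x * g) = g⁻¹ * (g * t * g⁻¹ * x) * g := by group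
  rw [h2, h3, hvx]

/-- an element commuting with an involution is not off `K` -/
theorem invol_comm_not_off {t s : G} {K : Subgroup G} (h : Setup t s K) {v z : G}
    (hv : orderOf v = 2) (hc : v * z = z * v) : ¬ Off K z := by
  intro hz
  obtain ⟨g, hg⟩ := isConj_iff.mp (h.hconj t v h.ht hv)
  have h1 := conj_mem_cent hg hc
  have h4 := off_conj hz g⁻¹
  rw [inv_inv] at h4
  exact Cfsg.Agent.Lib.Helper59.BSWG1x.cent_not_off h _ h1 h4

/-- an element commuting with a nonidentity element that commutes with an involution is not off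
`K` -/
theorem comm_not_off {t s : G} {K : Subgroup G} (h : Setup t s K) {v x z : G}
    (hv : orderOf v = 2) (hx1 : x ≠ 1) (hvx : v * x = x * v) (hxz : x * z = z * x) :
    ¬ Off K z := by
  intro hz
  obtain ⟨g, hg⟩ := isConj_iff.mp (h.hconj t v h.ht hv)
  have hx'H := conj_mem_cent hg hvx
  have hx'1 : g⁻¹ * x * g ≠ 1 := by
    intro h1
    apply hx1
    have e : x = g * (g⁻¹ * x * g) * g⁻¹ := by group
    rw [e, h1]
    group
  have hcomm := conj_comm (g := g) hxz
  have hz' : Off K (g⁻¹ * z * g) := by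
    have h4 := off_conj hz g⁻¹
    rwa [inv_inv] at h4
  rcases Cfsg.Agent.Lib.Helper59.BSWG1x.cent_mem h _ hx'H with hK | ⟨-, h2⟩
  · have hle := Cfsg.Agent.Lib.Helper59.BSWG1x.cent_le h _ hK hx'1
    have hzc : g⁻¹ * z * g ∈ Subgroup.centralizer ({g⁻¹ * x * g} : Set G) := by
      rw [Subgroup.mem_centralizer_singleton_iff]
      exact hcomm.symm
    exact Cfsg.Agent.Lib.Helper59.BSWG1x.cent_not_off h _ (hle hzc) hz'
  · exact invol_comm_not_off h h2 hcomm hz'

/-- a fixed-point-free involutory conjugation inverts the subgroup, which is abelian -/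
theorem inverts_of_fpf [Finite G] (M : Subgroup G) (v : G) (hv : v * v = 1)
    (hnorm : ∀ a ∈ M, v * a * v⁻¹ ∈ M) (hfpf : ∀ a ∈ M, v * a * v⁻¹ = a → a = 1) :
    (∀ a ∈ M, v * a * v⁻¹ = a⁻¹) ∧ ∀ a ∈ M, ∀ b ∈ M, a * b = b * a := by
  let φ : M →* M := MonoidHom.mk' (fun a => ⟨v * a * v⁻¹, hnorm a a.2⟩) (by
    intro a b
    apply Subtype.ext
    show v * ((a : G) * b) * v⁻¹ = (v * a * v⁻¹) * (v * b * v⁻¹)
    group)
  have hφ : MonoidHom.FixedPointFree φ := by
    intro a ha
    have h1 : v * (a : G) * v⁻¹ = a := congrArg Subtype.val ha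
    exact Subtype.ext (hfpf a a.2 h1)
  have hv' : v⁻¹ = v := inv_eq_of_mul_eq_one_left hv
  have hinvol : Function.Involutive φ := by
    intro a
    apply Subtype.ext
    show v * (v * (a : G) * v⁻¹) * v⁻¹ = a
    rw [hv']
    calc v * (v * (a : G) * v) * v = (v * v) * a * (v * v) := by group
      _ = a := by rw [hv, one_mul, mul_one]
  constructor
  · intro a ha
    have h1 := congrFun (hφ.coe_eq_inv_of_involutive hinvol) ⟨a, ha⟩
    exact congrArg Subtype.val h1
  · intro a ha b hb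
    exact congrArg Subtype.val (hφ.commute_all_of_involutive hinvol ⟨a, ha⟩ ⟨b, hb⟩).eq

theorem comm_of_conj_eq {v a : G} (h : v * a * v⁻¹ = a) : v * a = a * v := by
  have h1 : v * a * v⁻¹ * v = a * v := by rw [h]
  simpa using h1

/-- the core of piece R -/
theorem core [Finite G] {t s : G} {K : Subgroup G} (h : Setup t s K) (z : G)
    (hz : Off K z) (hzt : t * z * t⁻¹ = z⁻¹) :
    (∀ a ∈ Subgroup.centralizer ({z} : Set G), ∀ b ∈ Subgroup.centralizer ({z} : Set G),
      a * b = b * a) ∧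
    Odd (Nat.card (Subgroup.centralizer ({z} : Set G))) ∧
    (∀ a ∈ Subgroup.centralizer ({z} : Set G), t * a * t⁻¹ = a⁻¹) ∧
    (∀ y ∈ Subgroup.centralizer ({z} : Set G), y ≠ 1 → Off K y) ∧
    (∀ v : G, orderOf v = 2 →
      (∀ a ∈ Subgroup.centralizer ({z} : Set G), v * a * v⁻¹ ∈ Subgroup.centralizer ({z} : Set G)) →
      ∀ a ∈ Subgroup.centralizer ({z} : Set G), v * a * v⁻¹ = a⁻¹) ∧
    (∀ a ∈ Subgroup.centralizer ({z} : Set G), t * a * t⁻¹ ∈ Subgroup.centralizer ({z} : Set G)) := by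
  obtain ⟨M, hM⟩ : ∃ M : Subgroup G, M = Subgroup.centralizer ({z} : Set G) := ⟨_, rfl⟩
  rw [← hM]
  have hMmem : ∀ a, a ∈ M ↔ a * z = z * a := by
    intro a
    rw [hM, Subgroup.mem_centralizer_singleton_iff]
  have ht2 : t * t = 1 := by rw [← pow_two, ← h.ht, pow_orderOf_eq_one]
  have hodd : Odd (Nat.card M) := by
    by_contra hcon
    rw [Nat.not_odd_iff_even, even_iff_two_dvd] at hcon
    obtain ⟨v, hv⟩ := exists_prime_orderOf_dvd_card' 2 hcon
    have hv' : orderOf (v : G) = 2 := by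
      rw [Subgroup.orderOf_coe]
      exact hv
    exact invol_comm_not_off h hv' ((hMmem v).mp v.2) hz
  have htM : ∀ a ∈ M, t * a * t⁻¹ ∈ M := by
    intro a ha
    rw [hMmem] at ha ⊢
    have hz' : z = t * z⁻¹ * t⁻¹ := by
      have e : t * z⁻¹ * t⁻¹ = (t * z * t⁻¹)⁻¹ := by group
      rw [e, hzt, inv_inv]
    have ha' : a * z⁻¹ = z⁻¹ * a := by
      have e : z⁻¹ * (a * z) * z⁻¹ = z⁻¹ * (z * a) * z⁻¹ := by rw [ha]
      simpa [mul_assoc] using e.symm
    calc t * a * t⁻¹ * z = t * a * t⁻¹ * (t * z⁻¹ * t⁻¹) := by rw [← hz']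
      _ = t * (a * z⁻¹) * t⁻¹ := by group
      _ = t * (z⁻¹ * a) * t⁻¹ := by rw [ha']
      _ = (t * z⁻¹ * t⁻¹) * (t * a * t⁻¹) := by group
      _ = z * (t * a * t⁻¹) := by rw [← hz']
  have hgen : ∀ v : G, orderOf v = 2 → (∀ a ∈ M, v * a * v⁻¹ ∈ M) →
      (∀ a ∈ M, v * a * v⁻¹ = a⁻¹) ∧ ∀ a ∈ M, ∀ b ∈ M, a * b = b * a := by
    intro v hv hvM
    have hv2 : v * v = 1 := by rw [← pow_two, ← hv, pow_orderOf_eq_one]
    refine inverts_of_fpf M v hv2 hvM ?_
    intro a ha hva
    by_contra ha1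
    exact comm_not_off h hv ha1 (comm_of_conj_eq hva) ((hMmem a).mp ha) hz
  obtain ⟨hinv, hab⟩ := hgen t h.ht htM
  refine ⟨hab, hodd, hinv, ?_, fun v hv hvM => (hgen v hv hvM).1, htM⟩
  intro y hy hy1
  by_contra hcon
  unfold Off at hcon
  push Not at hcon
  obtain ⟨g, hg⟩ := hcon
  have hne : g * y * g⁻¹ ≠ 1 := by
    intro h1
    apply hy1
    have e : y = g⁻¹ * (g * y * g⁻¹) * g := by group
    rw [e, h1]
    group
  have hle := Cfsg.Agent.Lib.Helper59.BSWG1x.cent_le h _ hg hne
  have hyz : y * z = z * y := (hMmem y).mp hy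
  have hzc : g * z * g⁻¹ ∈ Subgroup.centralizer ({g * y * g⁻¹} : Set G) := by
    rw [Subgroup.mem_centralizer_singleton_iff]
    have e1 : g * z * g⁻¹ * (g * y * g⁻¹) = g * (z * y) * g⁻¹ := by group
    have e2 : g * y * g⁻¹ * (g * z * g⁻¹) = g * (y * z) * g⁻¹ := by group
    rw [e1, e2, hyz]
  exact Cfsg.Agent.Lib.Helper59.BSWG1x.cent_not_off h _ (hle hzc) (off_conj hz g)

end Cfsg.Agent.Lib.Helper59.BSWR

namespace Cfsg.Agent.Lib.Helper46.BSW

open Cfsg Cfsg.Agent.Lib.Helper59.BSWR

universe u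

variable {G : Type u} [Group G]

/-! ### Piece R : strongly real elements off `K` -/
theorem strongly_real [Finite G] {t s : G} {K : Subgroup G} (h : Setup t s K) (z : G)
    (hz : Off K z) (hzt : t * z * t⁻¹ = z⁻¹) :
    (∀ a ∈ Subgroup.centralizer ({z} : Set G), ∀ b ∈ Subgroup.centralizer ({z} : Set G),
      a * b = b * a) ∧
    Odd (Nat.card (Subgroup.centralizer ({z} : Set G))) ∧
    (∀ a ∈ Subgroup.centralizer ({z} : Set G), t * a * t⁻¹ = a⁻¹) ∧
    (∀ y ∈ Subgroup.centralizer ({z} : Set G), y ≠ 1 →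
      Subgroup.centralizer ({y} : Set G) = Subgroup.centralizer ({z} : Set G)) ∧
    (∀ y ∈ Subgroup.centralizer ({z} : Set G), y ≠ 1 → Off K y) ∧
    invCount z = Nat.card (Subgroup.centralizer ({z} : Set G)) ∧
    (∀ g ∈ Subgroup.normalizer ((Subgroup.centralizer ({z} : Set G) : Subgroup G) : Set G),
      ∃ a ∈ Subgroup.centralizer ({z} : Set G), ∃ w ∈ K, g = a * w) := by
  obtain ⟨hab, hodd, hinv, hoff, hgen, htM⟩ := core h z hz hzt
  obtain ⟨M, hM⟩ : ∃ M : Subgroup G, M = Subgroup.centralizer ({z} : Set G) := ⟨_, rfl⟩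
  rw [← hM] at hab hodd hinv hoff hgen htM ⊢
  have hMmem : ∀ a, a ∈ M ↔ a * z = z * a := by
    intro a
    rw [hM, Subgroup.mem_centralizer_singleton_iff]
  have ht2 : t * t = 1 := by rw [← pow_two, ← h.ht, pow_orderOf_eq_one]
  have htinv : t⁻¹ = t := inv_eq_of_mul_eq_one_left ht2
  have hzM : z ∈ M := (hMmem z).mpr rfl
  have hz1 : z ≠ 1 := by
    intro h1
    apply hz 1
    rw [h1]
    simp
  have htnM : t ∉ M := by
    intro htM'
    have h1 : orderOf (⟨t, htM'⟩ : M) ∣ Nat.card M := orderOf_dvd_natCard _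
    rw [← Subgroup.orderOf_coe] at h1
    have h2 : orderOf t ∣ Nat.card M := h1
    rw [h.ht] at h2
    exact (Nat.not_even_iff_odd.mpr hodd) (even_iff_two_dvd.mpr h2)
  refine ⟨hab, hodd, hinv, ?_, hoff, ?_, ?_⟩
  · -- centralizers of the nonidentity elements
    intro y hy hy1
    obtain ⟨haby, -⟩ := core h y (hoff y hy hy1) (hinv y hy)
    have hzy : z ∈ Subgroup.centralizer ({y} : Set G) := by
      rw [Subgroup.mem_centralizer_singleton_iff]
      exact ((hMmem y).mp hy).symm
    ext g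
    constructor
    · intro hg
      rw [hMmem]
      exact haby g hg z hzy
    · intro hg
      rw [Subgroup.mem_centralizer_singleton_iff]
      exact hab g hg y hy
  · -- the involutions inverting `z`
    unfold invCount
    symm
    refine Nat.card_congr
      { toFun := fun m => ⟨t * (m : G), ?_, ?_⟩
        invFun := fun u => ⟨t * (u : G), ?_⟩
        left_inv := ?_
        right_inv := ?_ }
    · have hm := hinv m m.2
      have e1 : (t * (m : G)) ^ 2 = 1 := by
        rw [pow_two]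
        calc t * (m : G) * (t * (m : G)) = (t * (m : G) * t⁻¹) * (t * t) * (m : G) := by group
          _ = 1 := by rw [hm, ht2, mul_one, inv_mul_cancel]
      have e2 : t * (m : G) ≠ 1 := by
        intro h1
        apply htnM
        have e3 : t = (m : G)⁻¹ := eq_inv_of_mul_eq_one_left h1
        rw [e3]
        exact M.inv_mem m.2
      exact orderOf_eq_prime e1 e2
    · have hm : (m : G) * z = z * m := (hMmem m).mp m.2
      calc t * (m : G) * z * (t * (m : G))⁻¹ = t * ((m : G) * z) * (m : G)⁻¹ * t⁻¹ := by group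
        _ = t * (z * (m : G)) * (m : G)⁻¹ * t⁻¹ := by rw [hm]
        _ = t * z * t⁻¹ := by group
        _ = z⁻¹ := hzt
    · rw [hMmem]
      have hu := u.2.2
      have e1 : t * (u : G) * z = t * ((u : G) * z * (u : G)⁻¹) * u := by group
      rw [e1, hu]
      have e2 : t * z⁻¹ = z * t := by
        have e3 : t * z⁻¹ * t⁻¹ = (t * z * t⁻¹)⁻¹ := by group
        rw [hzt, inv_inv] at e3
        have e4 : t * z⁻¹ * t⁻¹ * t = z * t := by rw [e3]
        simpa using e4
      rw [e2, mul_assoc]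
    · intro m
      apply Subtype.ext
      show t * (t * (m : G)) = m
      rw [← mul_assoc, ht2, one_mul]
    · intro u
      apply Subtype.ext
      show t * (t * (u : G)) = u
      rw [← mul_assoc, ht2, one_mul]
  · -- the normalizer
    intro g hg
    have hgM : ∀ b, b ∈ M ↔ g * b * g⁻¹ ∈ M := fun b => Subgroup.mem_normalizer_iff.mp hg b
    have hgM' : ∀ b ∈ M, g⁻¹ * b * g ∈ M := by
      intro b hb
      rw [hgM]
      have e : g * (g⁻¹ * b * g) * g⁻¹ = b := by group
      rw [e]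
      exact hb
    obtain ⟨v, hv⟩ : ∃ v : G, v = g * t * g⁻¹ := ⟨_, rfl⟩
    have hv2 : v ^ 2 = 1 := by
      rw [hv, pow_two]
      calc g * t * g⁻¹ * (g * t * g⁻¹) = g * (t * t) * g⁻¹ := by group
        _ = 1 := by rw [ht2]; group
    have hv1 : v ≠ 1 := by
      intro h1
      rw [hv] at h1
      have e : t = g⁻¹ * (g * t * g⁻¹) * g := by group
      rw [h1] at e
      have e' : t = 1 := by rw [e]; group
      have h2 := h.ht
      rw [e', orderOf_one] at h2
      exact absurd h2 (by norm_num)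
    have hvord : orderOf v = 2 := orderOf_eq_prime hv2 hv1
    have hvM : ∀ a ∈ M, v * a * v⁻¹ ∈ M := by
      intro a ha
      have e : v * a * v⁻¹ = g * (t * (g⁻¹ * a * g) * t⁻¹) * g⁻¹ := by
        rw [hv]
        group
      rw [e]
      exact (hgM _).mp (htM _ (hgM' a ha))
    have hvinv := hgen v hvord hvM
    -- `v * t` centralizes `z`
    have hmM : v * t ∈ M := by
      rw [hMmem]
      have e1 : v * t * z = v * (t * z * t⁻¹) * v⁻¹ * (v * t) := by group
      rw [e1, hzt]
      have e2 : v * z⁻¹ * v⁻¹ = (v * z * v⁻¹)⁻¹ := by group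
      rw [e2, hvinv z hzM, inv_inv]
    obtain ⟨m, hm⟩ : ∃ m : G, m = v * t := ⟨_, rfl⟩
    rw [← hm] at hmM
    have hvm : v = m * t := by
      rw [hm, mul_assoc, ht2, mul_one]
    -- a square root of `m`
    obtain ⟨j, hj⟩ := hodd
    obtain ⟨a, ha⟩ : ∃ a : G, a = m ^ (j + 1) := ⟨_, rfl⟩
    have haM : a ∈ M := by
      rw [ha]
      exact M.pow_mem hmM _
    have haa : a * a = m := by
      have h1 : (⟨m, hmM⟩ : M) ^ Nat.card M = 1 := pow_card_eq_one'
      have h2 : m ^ Nat.card M = 1 := congrArg Subtype.val h1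
      rw [ha, ← pow_add]
      have e : j + 1 + (j + 1) = Nat.card M + 1 := by omega
      rw [e, pow_succ, h2, one_mul]
    have hat : a * t * a⁻¹ = v := by
      have e1 : a * t * a⁻¹ = a * (t * a⁻¹ * t⁻¹) * t := by group
      rw [e1, hinv _ (M.inv_mem haM), inv_inv, haa, hvm]
    obtain ⟨w, hw⟩ : ∃ w : G, w = a⁻¹ * g := ⟨_, rfl⟩
    have hwt : w * t * w⁻¹ = t := by
      have e1 : w * t * w⁻¹ = a⁻¹ * (g * t * g⁻¹) * a := by
        rw [hw]
        group
      rw [e1, ← hv, ← hat]
      group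
    have hwH : w ∈ Subgroup.centralizer ({t} : Set G) := by
      rw [Subgroup.mem_centralizer_singleton_iff]
      have e : w * t * w⁻¹ * w = t * w := by rw [hwt]
      simpa using e
    have hga : g = a * w := by
      rw [hw]
      group
    refine ⟨a, haM, w, ?_, hga⟩
    rcases Cfsg.Agent.Lib.Helper59.BSWG1x.cent_mem h w hwH with hK | ⟨hws, hw2⟩
    · exact hK
    · exfalso
      -- `w` normalizes `M`
      have hwM : ∀ b ∈ M, w * b * w⁻¹ ∈ M := by
        intro b hb
        have e : w * b * w⁻¹ = a⁻¹ * (g * b * g⁻¹) * a⁻¹⁻¹ := by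
          rw [hw]
          group
        rw [e]
        exact M.mul_mem (M.mul_mem (M.inv_mem haM) ((hgM b).mp hb)) (M.inv_mem (M.inv_mem haM))
      have hwinv := hgen w hw2 hwM
      -- then `z` is an involution
      have e1 : w * z * w⁻¹ = z⁻¹ := hwinv z hzM
      have e2 : t * (w * z * w⁻¹) * t⁻¹ = z := by
        rw [e1]
        have e3 : t * z⁻¹ * t⁻¹ = (t * z * t⁻¹)⁻¹ := by group
        rw [e3, hzt, inv_inv]
      -- `t * w` is an involution or trivial
      have hwt' : w * t = t * w := by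
        have e : w * t * w⁻¹ * w = t * w := by rw [hwt]
        simpa using e
      by_cases htw : t * w = 1
      · -- `w = t ∈ K`: then `t` inverts and `w = t⁻¹ = t`
        have e3 : w = t := by
          have e4 : w = t⁻¹ := eq_inv_of_mul_eq_one_right htw
          rw [e4, htinv]
        rw [e3] at hws
        apply h.hsK
        have e5 : s = (t * s⁻¹)⁻¹ * t := by group
        rw [e5]
        exact K.mul_mem (K.inv_mem hws) h.htK
      · have htw2 : (t * w) ^ 2 = 1 := by
          have hw2' : w * w = 1 := by rw [← pow_two, ← hw2, pow_orderOf_eq_one]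
          rw [pow_two]
          calc t * w * (t * w) = t * (w * t) * w := by group
            _ = t * (t * w) * w := by rw [hwt']
            _ = (t * t) * (w * w) := by group
            _ = 1 := by rw [ht2, hw2', one_mul]
        have hu : orderOf (t * w) = 2 := orderOf_eq_prime htw2 htw
        have huM : ∀ b ∈ M, (t * w) * b * (t * w)⁻¹ ∈ M := by
          intro b hb
          have e : (t * w) * b * (t * w)⁻¹ = t * (w * b * w⁻¹) * t⁻¹ := by group
          rw [e]
          exact htM _ (hwM b hb)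
        have huinv := hgen (t * w) hu huM z hzM
        have e3 : (t * w) * z * (t * w)⁻¹ = t * (w * z * w⁻¹) * t⁻¹ := by group
        rw [e3, e2] at huinv
        -- huinv : z = z⁻¹
        have hzz : z ^ 2 = 1 := by
          rw [pow_two]
          nth_rewrite 1 [huinv]
          exact inv_mul_cancel z
        have hzord : orderOf z = 2 := orderOf_eq_prime hzz hz1
        exact invol_comm_not_off h hzord rfl hz

end Cfsg.Agent.Lib.Helper46.BSW
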