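import Cfsg.Agent.Lib.Helper59.BSWG1x

set_option autoImplicit false

namespace Cfsg.Agent.Lib.Helper59.BSWG3

open Cfsg

universe u

variable {G : Type u} [Group G]

theorem not_dvd_index_of_card_dvd [Finite G] {p : ℕ} [Fact p.Prime] (S : Sylow p G)
    (H : Subgroup G) (hdvd : Nat.card S ∣ Nat.card H) : ¬ p ∣ H.index := by
  obtain ⟨c, hc⟩ := hdvd
  have h1 := H.index_mul_card
  have h2 := (S : Subgroup G).index_mul_card
  rw [hc] at h1
  have hpos : 0 < Nat.card S := Nat.card_pos
  have h3 : H.index * c = (S : Subgroup G).index := by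
    apply Nat.eq_of_mul_eq_mul_right hpos
    rw [h2, ← h1]
    ring
  intro hp
  exact S.not_dvd_index (h3 ▸ Dvd.dvd.mul_right hp c)

/-- a nontrivial Sylow subgroup has a central element of order `p` -/
theorem exists_central_of_sylow [Finite G] {p : ℕ} [Fact p.Prime] (S : Sylow p G)
    (hS : (S : Subgroup G) ≠ ⊥) :
    ∃ c : G, c ∈ (S : Subgroup G) ∧ orderOf c = p ∧ ∀ x ∈ (S : Subgroup G), x * c = c * x := by
  haveI : Nontrivial (S : Subgroup G) := (Subgroup.nontrivial_iff_ne_bot _).mpr hS
  have hp : IsPGroup p (S : Subgroup G) := S.isPGroup'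
  haveI := hp.center_nontrivial
  have hpc : IsPGroup p (Subgroup.center (S : Subgroup G)) :=
    hp.to_subgroup (Subgroup.center (S : Subgroup G))
  have hdvd : p ∣ Nat.card (Subgroup.center (S : Subgroup G)) := by
    rcases hpc.card_eq_or_dvd with h1 | h1
    · exact absurd h1 (Finite.one_lt_card).ne'
    · exact h1
  obtain ⟨c, hc⟩ := exists_prime_orderOf_dvd_card' p hdvd
  refine ⟨((c : (S : Subgroup G)) : G), (c : (S : Subgroup G)).2, ?_, ?_⟩
  · rw [Subgroup.orderOf_coe, Subgroup.orderOf_coe]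
    exact hc
  · intro x hx
    have h1 := Subgroup.mem_center_iff.mp c.2 ⟨x, hx⟩
    exact congrArg Subtype.val h1

end Cfsg.Agent.Lib.Helper59.BSWG3

namespace Cfsg.Agent.Lib.Helper46.BSW

open Cfsg Cfsg.Agent.Lib.Helper59.BSWG3

universe u

variable {G : Type u} [Group G]

/-! ### Piece G3 : `C(t)` is a Hall subgroup -/
theorem setup_hall [Finite G] {t s : G} {K : Subgroup G} (h : Setup t s K) :
    Nat.Coprime (Subgroup.centralizer ({t} : Set G)).index (2 * Nat.card K) := by
  apply Nat.coprime_of_dvd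
  intro p hp hpi hpk
  haveI : Fact p.Prime := ⟨hp⟩
  have key : ∃ S₁ : Sylow p G,
      Nat.card S₁ ∣ Nat.card (Subgroup.centralizer ({t} : Set G)) := by
    by_cases hp2 : p = 2
    · subst hp2
      have h2G : 2 ∣ Nat.card G := by
        rw [← h.ht]
        exact orderOf_dvd_natCard t
      obtain ⟨S₁⟩ : Nonempty (Sylow 2 G) := inferInstance
      have hS₁ : (S₁ : Subgroup G) ≠ ⊥ := S₁.ne_bot_of_dvd_card h2G
      obtain ⟨c, -, hc2, hcc⟩ := exists_central_of_sylow S₁ hS₁
      obtain ⟨y, hy⟩ := isConj_iff.mp (h.hconj t c h.ht hc2)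
      refine ⟨S₁, ?_⟩
      have hmem : ∀ x : (S₁ : Subgroup G),
          y⁻¹ * (x : G) * y ∈ Subgroup.centralizer ({t} : Set G) := by
        intro x
        rw [Subgroup.mem_centralizer_singleton_iff]
        have h1 := hcc x x.2
        rw [← hy] at h1
        have h2 : t * (y⁻¹ * (x : G) * y) = y⁻¹ * (y * t * y⁻¹ * (x : G)) * y := by group
        have h3 : y⁻¹ * (x : G) * y * t = y⁻¹ * ((x : G) * (y * t * y⁻¹)) * y := by group
        rw [h2, h3, h1]
      let f : (S₁ : Subgroup G) →* Subgroup.centralizer ({t} : Set G) :=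
        MonoidHom.mk' (fun x => ⟨y⁻¹ * (x : G) * y, hmem x⟩) (by
          intro a b
          apply Subtype.ext
          show y⁻¹ * ((a : G) * (b : G)) * y = (y⁻¹ * (a : G) * y) * (y⁻¹ * (b : G) * y)
          group)
      apply Subgroup.card_dvd_of_injective f
      intro a b hab
      have h1 : y⁻¹ * (a : G) * y = y⁻¹ * (b : G) * y := congrArg Subtype.val hab
      apply Subtype.ext
      have h2 : (a : G) = y * (y⁻¹ * (a : G) * y) * y⁻¹ := by group
      rw [h2, h1]
      group
    · have hpK : p ∣ Nat.card K := by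
        rcases (Nat.Prime.dvd_mul hp).mp hpk with h2 | hK
        · exact absurd ((Nat.prime_dvd_prime_iff_eq hp Nat.prime_two).mp h2) hp2
        · exact hK
      obtain ⟨x, hx⟩ := exists_prime_orderOf_dvd_card' p hpK
      have hx' : orderOf (x : G) = p := by
        rw [Subgroup.orderOf_coe]
        exact hx
      have hx1 : (x : G) ≠ 1 := by
        intro h1
        rw [h1, orderOf_one] at hx'
        exact hp.one_lt.ne hx'
      have hzp : IsPGroup p (Subgroup.zpowers (x : G)) := by
        apply IsPGroup.of_card (n := 1)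
        rw [Nat.card_zpowers, hx', pow_one]
      obtain ⟨S₁, hS₁⟩ := hzp.exists_le_sylow
      have hxS : (x : G) ∈ (S₁ : Subgroup G) := hS₁ (Subgroup.mem_zpowers _)
      have hS₁ne : (S₁ : Subgroup G) ≠ ⊥ := by
        intro hbot
        rw [hbot, Subgroup.mem_bot] at hxS
        exact hx1 hxS
      obtain ⟨c, hcS, hcp, hcc⟩ := exists_central_of_sylow S₁ hS₁ne
      have hc1 : c ≠ 1 := by
        intro h1
        rw [h1, orderOf_one] at hcp
        exact hp.one_lt.ne hcp
      have hcH : c ∈ Subgroup.centralizer ({t} : Set G) := by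
        apply Cfsg.Agent.Lib.Helper59.BSWG1x.cent_le h (x : G) x.2 hx1
        rw [Subgroup.mem_centralizer_singleton_iff]
        exact (hcc _ hxS).symm
      have hcK : c ∈ K := by
        rcases Cfsg.Agent.Lib.Helper59.BSWG1x.cent_mem h c hcH with hK | ⟨-, h2⟩
        · exact hK
        · rw [hcp] at h2
          exact absurd h2 hp2
      refine ⟨S₁, Subgroup.card_dvd_of_le ?_⟩
      intro g hg
      apply Cfsg.Agent.Lib.Helper59.BSWG1x.cent_le h c hcK hc1
      rw [Subgroup.mem_centralizer_singleton_iff]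
      exact hcc g hg
  obtain ⟨S₁, hdvd⟩ := key
  exact not_dvd_index_of_card_dvd S₁ _ hdvd hpi

end Cfsg.Agent.Lib.Helper46.BSW
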