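import Mathlib
import Cfsg.Agent.Lib.Helper87.Fusion9
import Cfsg.Agent.Lib.Helper91.EssChain
import Cfsg.Agent.Lib.Helper59.RkFB

set_option autoImplicit false

namespace Cfsg.Agent.Lib.Helper59.AbE

open Cfsg.Agent.Lib.Helper87 Cfsg.Agent.Lib.Helper59.RkF

section Chain

variable {H : Type*} [Group H]

/-- the automorphisms acting trivially on the factors of the chain `T` -/
def chainStabN [Finite H] (T : ℕ → Subgroup H) (hT0 : T 0 = ⊥) (hmono : Monotone T) :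
    Subgroup (MulAut H) where
  carrier := {α | ∀ i, ∀ x ∈ T (i + 1), x⁻¹ * α x ∈ T i}
  one_mem' := by
    intro i x _
    rw [MulAut.one_apply, inv_mul_cancel]
    exact (T i).one_mem
  mul_mem' := by
    intro α β hα hβ i x hx
    have hβx : β x ∈ T (i + 1) := chain_invariant β T hT0 hmono hβ (i + 1) x hx
    have h1 := hα i (β x) hβx
    have h2 := hβ i x hx
    have h3 : x⁻¹ * (α * β) x = (x⁻¹ * β x) * ((β x)⁻¹ * α (β x)) := by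
      rw [MulAut.mul_apply]; group
    rw [h3]
    exact (T i).mul_mem h2 h1
  inv_mem' := by
    intro α hα i x hx
    have hw : α⁻¹ x ∈ T (i + 1) :=
      Cfsg.Agent.Lib.Helper91.EssChain.inv_mem_of_invariant (T (i + 1)) α
        (chain_invariant α T hT0 hmono hα (i + 1)) x hx
    have h1 := hα i (α⁻¹ x) hw
    have h2 : α (α⁻¹ x) = x := by simp
    rw [h2] at h1
    have h3 : x⁻¹ * α⁻¹ x = ((α⁻¹ x)⁻¹ * x)⁻¹ := by group
    rw [h3]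
    exact (T i).inv_mem h1

theorem mem_chainStabN [Finite H] {T : ℕ → Subgroup H} {hT0 : T 0 = ⊥} {hmono : Monotone T}
    {α : MulAut H} : α ∈ chainStabN T hT0 hmono ↔ ∀ i, ∀ x ∈ T (i + 1), x⁻¹ * α x ∈ T i :=
  Iff.rfl

theorem isPGroup_chainStabN [Finite H] {p : ℕ} [Fact p.Prime] (hH : IsPGroup p H)
    (T : ℕ → Subgroup H) (hT0 : T 0 = ⊥) (hmono : Monotone T) (m : ℕ) (hTm : T m = ⊤) :
    IsPGroup p (chainStabN T hT0 hmono) := by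
  obtain ⟨n, hn⟩ := IsPGroup.iff_card.mp hH
  rintro ⟨α, hα⟩
  refine ⟨n * m, Subtype.ext ?_⟩
  show α ^ (p ^ (n * m)) = 1
  ext x
  have h1 := chain_pow_card_fix α T hT0 hmono hα m x (by rw [hTm]; exact Subgroup.mem_top x)
  rw [hn, ← pow_mul] at h1
  rw [h1]
  rfl

/-- a chain with three steps -/
def chain3 (C₁ C₂ : Subgroup H) : ℕ → Subgroup H
  | 0 => ⊥
  | 1 => C₁
  | 2 => C₁ ⊔ C₂
  | _ + 3 => ⊤

theorem chain3_mono (C₁ C₂ : Subgroup H) : Monotone (chain3 C₁ C₂) := by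
  apply monotone_nat_of_le_succ
  intro n
  match n with
  | 0 => exact bot_le
  | 1 => exact le_sup_left
  | 2 => exact le_top
  | k + 3 => exact le_refl _

/-- the fixed points of an automorphism -/
def fixSub (τ : MulAut H) : Subgroup H where
  carrier := {y | τ y = y}
  one_mem' := map_one τ
  mul_mem' := by
    intro a b ha hb
    show τ (a * b) = a * b
    rw [map_mul, ha, hb]
  inv_mem' := by
    intro a ha
    show τ a⁻¹ = a⁻¹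
    rw [map_inv, ha]

theorem mem_fixSub {τ : MulAut H} {y : H} : y ∈ fixSub τ ↔ τ y = y := Iff.rfl

end Chain

section Transvection

variable {H : Type*} [Group H]

/-- a transvection `t` of the abelian group `H` with axis `K₁` and centre `⟨e₁⟩`, generating a maximal
`p`-subgroup of `G`. -/
structure TV (p : ℕ) (G : Subgroup (MulAut H)) (K₁ : Subgroup H) (t : MulAut H) (e₁ x : H) :
    Prop where
  comm : ∀ a b : H, a * b = b * a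
  tG : t ∈ G
  e₁K : e₁ ∈ K₁
  e₁ne : e₁ ≠ 1
  e₁p : e₁ ^ p = 1
  xK : x ∉ K₁
  gen : ∀ u, u ∉ K₁ → ∀ y, ∃ k : ℕ, y * (u ^ k)⁻¹ ∈ K₁
  pow : ∀ u : H, u ^ p ∈ K₁
  fix : ∀ y ∈ K₁, t y = y
  tx : t x = x * e₁
  maxc : ∀ γ ∈ G, ∀ D : Subgroup (MulAut H), D ≤ G → IsPGroup p D → γ * t * γ⁻¹ ∈ D →
    ∀ d ∈ D, ∃ k : ℕ, d = γ * t ^ k * γ⁻¹

namespace TV

variable {p : ℕ} [hp : Fact p.Prime] {G : Subgroup (MulAut H)} {K₁ : Subgroup H} {t : MulAut H}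
  {e₁ x : H} (h : TV p G K₁ t e₁ x)
include h

theorem t_apply' (y : H) (k : ℕ) (hk : y * (x ^ k)⁻¹ ∈ K₁) : t y = y * e₁ ^ k := by
  have hy : y = (y * (x ^ k)⁻¹) * x ^ k := by group
  have hC : Commute x e₁ := h.comm x e₁
  calc t y = t ((y * (x ^ k)⁻¹) * x ^ k) := congrArg t hy
    _ = (y * (x ^ k)⁻¹) * (x * e₁) ^ k := by rw [map_mul, h.fix _ hk, map_pow, h.tx]
    _ = (y * (x ^ k)⁻¹) * (x ^ k * e₁ ^ k) := by rw [hC.mul_pow]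
    _ = y * e₁ ^ k := by group

theorem t_apply (y : H) : ∃ k : ℕ, t y = y * e₁ ^ k := by
  obtain ⟨k, hk⟩ := h.gen x h.xK y
  exact ⟨k, h.t_apply' y k hk⟩

theorem pow_mem_of_dvd {u : H} {k : ℕ} (hk : p ∣ k) : u ^ k ∈ K₁ := by
  obtain ⟨c, rfl⟩ := hk
  rw [pow_mul]
  exact K₁.pow_mem (h.pow u) c

theorem dvd_of_pow_eq_one {k : ℕ} (hk : e₁ ^ k = 1) : p ∣ k := by
  have h1 : orderOf e₁ = p := orderOf_eq_prime h.e₁p h.e₁ne
  rw [← h1]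
  exact orderOf_dvd_of_pow_eq_one hk

theorem t_fix_mem {y : H} (hy : t y = y) : y ∈ K₁ := by
  obtain ⟨k, hk⟩ := h.gen x h.xK y
  have h1 := h.t_apply' y k hk
  rw [hy] at h1
  have h2 : e₁ ^ k = 1 := by
    have h3 : y * e₁ ^ k = y * 1 := by rw [← h1, mul_one]
    exact mul_left_cancel h3
  have h3 : x ^ k ∈ K₁ := h.pow_mem_of_dvd (h.dvd_of_pow_eq_one h2)
  have hy' : y = (y * (x ^ k)⁻¹) * x ^ k := by group
  rw [hy']
  exact K₁.mul_mem hk h3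

theorem t_e₁ : t e₁ = e₁ := h.fix e₁ h.e₁K

theorem conj_apply (γ : MulAut H) (y : H) : ∃ k : ℕ, (γ * t * γ⁻¹) y = y * (γ e₁) ^ k := by
  obtain ⟨k, hk⟩ := h.t_apply (γ⁻¹ y)
  refine ⟨k, ?_⟩
  rw [MulAut.mul_apply, MulAut.mul_apply, hk, map_mul, map_pow]
  simp

theorem conj_fix {γ : MulAut H} {y : H} (hy : γ⁻¹ y ∈ K₁) : (γ * t * γ⁻¹) y = y := by
  rw [MulAut.mul_apply, MulAut.mul_apply, h.fix _ hy]
  simp

theorem conj_fix_mem {γ : MulAut H} {y : H} (hy : (γ * t * γ⁻¹) y = y) : γ⁻¹ y ∈ K₁ := by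
  apply h.t_fix_mem
  rw [MulAut.mul_apply, MulAut.mul_apply] at hy
  have h1 : γ⁻¹ (γ (t (γ⁻¹ y))) = γ⁻¹ y := by rw [hy]
  simpa using h1

theorem conj_mem {γ : MulAut H} (hγ : γ ∈ G) : γ * t * γ⁻¹ ∈ G :=
  G.mul_mem (G.mul_mem hγ h.tG) (G.inv_mem hγ)

/-- if the centre of one conjugate lies in the axis of another, the two generate the same group -/
theorem center_axis [Finite H] (hH : IsPGroup p H) {γ₁ γ₂ : MulAut H} (h1 : γ₁ ∈ G)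
    (h2 : γ₂ ∈ G) (hca : γ₂⁻¹ (γ₁ e₁) ∈ K₁) :
    (∃ k : ℕ, γ₁ * t * γ₁⁻¹ = γ₂ * t ^ k * γ₂⁻¹) ∧ ∃ k : ℕ, γ₂ * t * γ₂⁻¹ = γ₁ * t ^ k * γ₁⁻¹ := by
  obtain ⟨c₁, hc₁⟩ : ∃ c₁ : H, c₁ = γ₁ e₁ := ⟨_, rfl⟩
  obtain ⟨c₂, hc₂⟩ : ∃ c₂ : H, c₂ = γ₂ e₁ := ⟨_, rfl⟩
  obtain ⟨C₁, hC₁⟩ : ∃ C₁ : Subgroup H, C₁ = Subgroup.zpowers c₁ := ⟨_, rfl⟩
  obtain ⟨C₂, hC₂⟩ : ∃ C₂ : Subgroup H, C₂ = Subgroup.zpowers c₂ := ⟨_, rfl⟩
  have hmono := chain3_mono C₁ C₂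
  have hT0 : chain3 C₁ C₂ 0 = ⊥ := rfl
  -- the two conjugates
  have ht1c : ∀ y, y⁻¹ * (γ₁ * t * γ₁⁻¹) y ∈ C₁ := by
    intro y
    obtain ⟨k, hk⟩ := h.conj_apply γ₁ y
    rw [hk, inv_mul_cancel_left, hC₁, hc₁]
    exact Subgroup.pow_mem _ (Subgroup.mem_zpowers _) k
  have ht2c : ∀ y, y⁻¹ * (γ₂ * t * γ₂⁻¹) y ∈ C₂ := by
    intro y
    obtain ⟨k, hk⟩ := h.conj_apply γ₂ y
    rw [hk, inv_mul_cancel_left, hC₂, hc₂]
    exact Subgroup.pow_mem _ (Subgroup.mem_zpowers _) k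
  have hfix11 : C₁ ≤ fixSub (γ₁ * t * γ₁⁻¹) := by
    rw [hC₁, Subgroup.zpowers_le, mem_fixSub, hc₁]
    apply h.conj_fix
    simpa using h.e₁K
  have hfix21 : C₁ ≤ fixSub (γ₂ * t * γ₂⁻¹) := by
    rw [hC₁, Subgroup.zpowers_le, mem_fixSub, hc₁]
    exact h.conj_fix hca
  have hfix22 : C₂ ≤ fixSub (γ₂ * t * γ₂⁻¹) := by
    rw [hC₂, Subgroup.zpowers_le, mem_fixSub, hc₂]
    apply h.conj_fix
    simpa using h.e₁K
  have hone : ∀ (τ : MulAut H) (y : H), y ∈ fixSub τ → y⁻¹ * τ y = 1 := by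
    intro τ y hy
    rw [mem_fixSub.mp hy, inv_mul_cancel]
  have hm1 : γ₁ * t * γ₁⁻¹ ∈ chainStabN (chain3 C₁ C₂) hT0 hmono := by
    intro i y hy
    match i with
    | 0 =>
      have hy' : y ∈ C₁ := hy
      rw [hone _ y (hfix11 hy')]
      exact Subgroup.one_mem _
    | 1 => exact ht1c y
    | 2 => exact (le_sup_left : C₁ ≤ C₁ ⊔ C₂) (ht1c y)
    | k + 3 => exact Subgroup.mem_top _
  have hm2 : γ₂ * t * γ₂⁻¹ ∈ chainStabN (chain3 C₁ C₂) hT0 hmono := by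
    intro i y hy
    match i with
    | 0 =>
      have hy' : y ∈ C₁ := hy
      rw [hone _ y (hfix21 hy')]
      exact Subgroup.one_mem _
    | 1 =>
      have hy' : y ∈ C₁ ⊔ C₂ := hy
      rw [hone _ y ((sup_le hfix21 hfix22) hy')]
      exact Subgroup.one_mem _
    | 2 => exact (le_sup_right : C₂ ≤ C₁ ⊔ C₂) (ht2c y)
    | k + 3 => exact Subgroup.mem_top _
  obtain ⟨D, hD⟩ : ∃ D : Subgroup (MulAut H), D = chainStabN (chain3 C₁ C₂) hT0 hmono ⊓ G :=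
    ⟨_, rfl⟩
  have hDG : D ≤ G := hD ▸ inf_le_right
  have hDp : IsPGroup p D := by
    rw [hD]
    exact (isPGroup_chainStabN hH (chain3 C₁ C₂) hT0 hmono 3 rfl).to_le inf_le_left
  have hD1 : γ₁ * t * γ₁⁻¹ ∈ D := by
    rw [hD]
    exact Subgroup.mem_inf.mpr ⟨hm1, h.conj_mem h1⟩
  have hD2 : γ₂ * t * γ₂⁻¹ ∈ D := by
    rw [hD]
    exact Subgroup.mem_inf.mpr ⟨hm2, h.conj_mem h2⟩
  exact ⟨h.maxc γ₂ h2 D hDG hDp hD2 _ hD1, h.maxc γ₁ h1 D hDG hDp hD1 _ hD2⟩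

end TV

end Transvection

end Cfsg.Agent.Lib.Helper59.AbE
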