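import Mathlib
import Cfsg.Agent.Lib.Helper59.AbE1

set_option autoImplicit false

namespace Cfsg.Agent.Lib.Helper59.AbE

open Cfsg.Agent.Lib.Helper87 Cfsg.Agent.Lib.Helper59.RkF

section W

variable {H : Type*} [Group H] {p : ℕ}

theorem w_apply' (hcomm : ∀ a b : H, a * b = b * a) (α β : MulAut H)
    {e₁ e₂ : H} (he₁ : e₁ ^ p = 1) (he₂ : e₂ ^ p = 1)
    (hα1 : α e₁ = e₁) (hα2 : α e₂ = e₂ * e₁) (hβ1 : β e₂ = e₂)
    (hβ2 : β e₁ = e₁ * e₂) (a j : ℕ) (haj : p ∣ a * j + 1) :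
    (α ^ a * β ^ j * α ^ a) e₁ = e₂ ^ j ∧ (α ^ a * β ^ j * α ^ a) e₂ = e₁ ^ a := by
  have hC : ∀ a b : H, Commute a b := hcomm
  obtain ⟨c, hc⟩ := haj
  have hA := tv_pow α hα1 hα2 a
  have hB := tv_pow β hβ1 hβ2 j
  constructor
  · -- e₁ ↦ e₁ ↦ e₁ * e₂^j ↦ e₁ * (e₂ * e₁^a)^j = e₁^(a j + 1) * e₂^j
    have h1 : (α ^ a * β ^ j * α ^ a) e₁ = (α ^ a) ((β ^ j) ((α ^ a) e₁)) := rfl
    rw [h1, hA.1, hB.2, map_mul, hA.1, map_pow, hA.2, (hC e₂ (e₁ ^ a)).mul_pow j, ← pow_mul]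
    have h2 : e₁ * (e₂ ^ j * e₁ ^ (a * j)) = e₂ ^ j * e₁ ^ (a * j + 1) := by
      rw [pow_succ, hcomm e₁ (e₂ ^ j * e₁ ^ (a * j)), mul_assoc]
    rw [h2, hc, pow_mul, he₁, one_pow, mul_one]
  · -- e₂ ↦ e₂ * e₁^a ↦ e₂ * (e₁ * e₂)^a = e₁^a * e₂^(a+1)... careful
    have h1 : (α ^ a * β ^ j * α ^ a) e₂ = (α ^ a) ((β ^ j) ((α ^ a) e₂)) := rfl
    have hin : (β ^ j) ((α ^ a) e₂) = e₁ ^ a := by
      rw [hA.2, map_mul, map_pow, hB.1, hB.2, (hC e₁ (e₂ ^ j)).mul_pow a, ← pow_mul]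
      have h2 : e₂ * (e₁ ^ a * e₂ ^ (j * a)) = e₁ ^ a * e₂ ^ (a * j + 1) := by
        rw [mul_comm j a, pow_succ, hcomm e₂ (e₁ ^ a * e₂ ^ (a * j)), mul_assoc]
      rw [h2, hc, pow_mul, he₂, one_pow, mul_one]
    rw [h1, hin, map_pow, hA.1]

end W

section Main

variable {H : Type*} [Group H]

namespace TV

variable {p : ℕ} [hp : Fact p.Prime] {G : Subgroup (MulAut H)} {K₁ : Subgroup H} {t : MulAut H}
  {e₁ x : H} (h : TV p G K₁ t e₁ x)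
include h

theorem pow_fix {y : H} (hy : y ∈ K₁) (n : ℕ) : (t ^ n) y = y := aut_pow_fix t (h.fix y hy) n

theorem conj_pow_fix {γ : MulAut H} {y : H} (hy : γ⁻¹ y ∈ K₁) (n : ℕ) :
    ((γ * t * γ⁻¹) ^ n) y = y := aut_pow_fix _ (h.conj_fix hy) n

theorem main [Finite H] (hp2 : p ≠ 2) (hH : IsPGroup p H) {g : MulAut H} (hg : g ∈ G)
    (hg1 : ∀ k : ℕ, g * t * g⁻¹ ≠ t ^ k) (hg2 : ∀ k : ℕ, t ≠ g * t ^ k * g⁻¹) :
    ∃ K : Subgroup H, K ≤ K₁ ∧ (∀ β ∈ G, ∀ y ∈ K, β y ∈ K) ∧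
      (∀ y ∈ K₁, ∃ i : ℕ, y * (e₁ ^ i)⁻¹ ∈ K) ∧
      ∃ δ ∈ G, δ e₁ = e₁ ^ 2 ∧ (∀ y ∈ K, δ y = y) ∧ ∃ k : ℕ, δ * t * δ⁻¹ = t ^ k := by
  have hpp := hp.out
  have hcomm := h.comm
  -- the two centres avoid the other axes
  have he₂ : g e₁ ∉ K₁ := by
    intro hcon
    have hca : (1 : MulAut H)⁻¹ (g e₁) ∈ K₁ := by simpa using hcon
    obtain ⟨⟨k, hk⟩, -⟩ := h.center_axis hH hg G.one_mem hca
    apply hg1 k
    rw [hk]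
    simp
  have he₁' : g⁻¹ e₁ ∉ K₁ := by
    intro hcon
    have hca : g⁻¹ ((1 : MulAut H) e₁) ∈ K₁ := by simpa using hcon
    obtain ⟨⟨k, hk⟩, -⟩ := h.center_axis hH G.one_mem hg hca
    apply hg2 k
    have h1 : (1 : MulAut H) * t * (1 : MulAut H)⁻¹ = t := by simp
    rw [← h1]
    exact hk
  obtain ⟨e₂, he₂def⟩ : ∃ e₂ : H, e₂ = g e₁ := ⟨_, rfl⟩
  rw [← he₂def] at he₂
  have he₂p : e₂ ^ p = 1 := by rw [he₂def, ← map_pow, h.e₁p, map_one]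
  obtain ⟨t₂, ht₂⟩ : ∃ t₂ : MulAut H, t₂ = g * t * g⁻¹ := ⟨_, rfl⟩
  have ht₂G : t₂ ∈ G := ht₂ ▸ h.conj_mem hg
  -- actions on the centres
  obtain ⟨c, hc⟩ := h.t_apply e₂
  have hcp : ¬ p ∣ c := by
    intro hdvd
    apply he₂
    apply h.t_fix_mem
    obtain ⟨q, rfl⟩ := hdvd
    rw [hc, pow_mul, h.e₁p, one_pow, mul_one]
  obtain ⟨d, hd⟩ := h.conj_apply g e₁
  rw [← ht₂, ← he₂def] at hd
  have hdp : ¬ p ∣ d := by
    intro hdvd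
    apply he₁'
    apply h.conj_fix_mem
    obtain ⟨q, rfl⟩ := hdvd
    rw [← ht₂, hd, pow_mul, he₂p, one_pow, mul_one]
  have ht₂e₂ : t₂ e₂ = e₂ := by
    rw [ht₂, he₂def]
    apply h.conj_fix
    simpa using h.e₁K
  -- normalise
  obtain ⟨c', -, hc'⟩ := Nat.exists_mul_mod_eq_one_of_coprime
    ((Nat.Prime.coprime_iff_not_dvd hpp).mpr hcp).symm hpp.one_lt
  obtain ⟨d', -, hd'⟩ := Nat.exists_mul_mod_eq_one_of_coprime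
    ((Nat.Prime.coprime_iff_not_dvd hpp).mpr hdp).symm hpp.one_lt
  obtain ⟨α, hα⟩ : ∃ α : MulAut H, α = t ^ c' := ⟨_, rfl⟩
  obtain ⟨β, hβ⟩ : ∃ β : MulAut H, β = t₂ ^ d' := ⟨_, rfl⟩
  have hαG : α ∈ G := hα ▸ G.pow_mem h.tG c'
  have hβG : β ∈ G := hβ ▸ G.pow_mem ht₂G d'
  have hα1 : α e₁ = e₁ := by rw [hα]; exact aut_pow_fix t h.t_e₁ c'
  have hα2 : α e₂ = e₂ * e₁ := by
    have h1 : t (e₁ ^ c) = e₁ ^ c := by rw [map_pow, h.t_e₁]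
    have h2 := (tv_pow t h1 hc c').2
    rw [hα, h2, ← pow_mul, pow_eq_pow_mod _ h.e₁p, hc', pow_one]
  have hβ1 : β e₂ = e₂ := by rw [hβ]; exact aut_pow_fix t₂ ht₂e₂ d'
  have hβ2 : β e₁ = e₁ * e₂ := by
    have h1 : t₂ (e₂ ^ d) = e₂ ^ d := by rw [map_pow, ht₂e₂]
    have h2 := (tv_pow t₂ h1 hd d').2
    rw [hβ, h2, ← pow_mul, pow_eq_pow_mod _ he₂p, hd', pow_one]
  -- the subgroup K
  obtain ⟨K, hK⟩ : ∃ K : Subgroup H, K = K₁ ⊓ K₁.comap (g⁻¹ : MulAut H).toMonoidHom := ⟨_, rfl⟩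
  have hKmem : ∀ y, y ∈ K ↔ y ∈ K₁ ∧ g⁻¹ y ∈ K₁ := by
    intro y
    rw [hK, Subgroup.mem_inf, Subgroup.mem_comap]
    rfl
  have hαK : ∀ y ∈ K, α y = y := by
    intro y hy
    rw [hα]
    exact h.pow_fix ((hKmem y).mp hy).1 c'
  have hβK : ∀ y ∈ K, β y = y := by
    intro y hy
    rw [hβ, ht₂]
    exact h.conj_pow_fix ((hKmem y).mp hy).2 d'
  -- every conjugate of `t` fixes `K` pointwise
  have hKfix : ∀ γ ∈ G, ∀ y ∈ K, (γ * t * γ⁻¹) y = y := by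
    intro γ hγ y hy
    by_cases hcase : γ⁻¹ e₁ ∈ K₁
    · have hca : γ⁻¹ ((1 : MulAut H) e₁) ∈ K₁ := by simpa using hcase
      obtain ⟨-, k, hk⟩ := h.center_axis hH G.one_mem hγ hca
      rw [hk]
      have h1 : (1 : MulAut H) * t ^ k * (1 : MulAut H)⁻¹ = t ^ k := by simp
      rw [h1]
      exact h.pow_fix ((hKmem y).mp hy).1 k
    · obtain ⟨i, hi⟩ := h.gen (γ⁻¹ e₁) hcase (γ⁻¹ e₂)
      obtain ⟨s, hs⟩ : ∃ s : MulAut H, s = α ^ (i * (p - 1)) := ⟨_, rfl⟩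
      have hsG : s ∈ G := hs ▸ G.pow_mem hαG _
      have hinv : e₁ ^ (i * (p - 1)) = (e₁ ^ i)⁻¹ := by
        apply eq_inv_of_mul_eq_one_left
        rw [← pow_add]
        have h1 : i * (p - 1) + i = p * i := by
          have := hpp.one_lt
          obtain ⟨q, hq⟩ : ∃ q, p = q + 1 := ⟨p - 1, by omega⟩
          rw [hq]
          simp
          ring
        rw [h1, pow_mul, h.e₁p, one_pow]
      have hse : (s * g) e₁ = e₂ * (e₁ ^ i)⁻¹ := by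
        rw [MulAut.mul_apply, ← he₂def, hs, (tv_pow α hα1 hα2 _).2, hinv]
      have hca : γ⁻¹ ((s * g) e₁) ∈ K₁ := by
        rw [hse, map_mul, map_inv, map_pow]
        exact hi
      obtain ⟨-, k, hk⟩ := h.center_axis hH (G.mul_mem hsG hg) hγ hca
      rw [hk]
      have hsy : s y = y := by
        rw [hs]
        exact aut_pow_fix α (hαK y hy) _
      have hsy' : s⁻¹ y = y := by
        have h1 : s⁻¹ (s y) = s⁻¹ y := by rw [hsy]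
        simpa using h1.symm
      have h1 : (s * g * t ^ k * (s * g)⁻¹) y = s (g ((t ^ k) (g⁻¹ (s⁻¹ y)))) := by
        rw [mul_inv_rev]
        rfl
      rw [h1, hsy', h.pow_fix ((hKmem y).mp hy).2 k]
      simp [hsy]
  have hKchar : ∀ y, (∀ γ ∈ G, (γ * t * γ⁻¹) y = y) → y ∈ K := by
    intro y hy
    rw [hKmem]
    constructor
    · apply h.t_fix_mem
      have h1 := hy 1 G.one_mem
      simpa using h1
    · exact h.conj_fix_mem (hy g hg)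
  have hKinv : ∀ β' ∈ G, ∀ y ∈ K, β' y ∈ K := by
    intro β' hβ' y hy
    apply hKchar
    intro γ hγ
    have h1 := hKfix (β'⁻¹ * γ) (G.mul_mem (G.inv_mem hβ') hγ) y hy
    have h2 : (γ * t * γ⁻¹) (β' y) = β' ((β'⁻¹ * γ * t * (β'⁻¹ * γ)⁻¹) y) := by
      simp [mul_assoc]
    rw [h2, h1]
  refine ⟨K, fun y hy => ((hKmem y).mp hy).1, hKinv, ?_, ?_⟩
  · intro y hy
    obtain ⟨i, hi⟩ := h.gen (g⁻¹ e₁) he₁' (g⁻¹ y)
    refine ⟨i, (hKmem _).mpr ⟨K₁.mul_mem hy (K₁.inv_mem (K₁.pow_mem h.e₁K i)), ?_⟩⟩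
    rw [map_mul, map_inv, map_pow]
    exact hi
  -- the torus element
  obtain ⟨m, hm⟩ : ∃ m, p = 2 * m + 1 := by
    rcases hpp.eq_two_or_odd' with h2 | ⟨m, hm⟩
    · exact absurd h2 hp2
    · exact ⟨m, hm⟩
  have hw1 := w_apply' hcomm α β h.e₁p he₂p hα1 hα2 hβ1 hβ2 2 m (by rw [hm])
  have hw2 := w_apply' hcomm α β h.e₁p he₂p hα1 hα2 hβ1 hβ2 (p - 1) 1
    (by
      have := hpp.one_lt
      have h1 : (p - 1) * 1 + 1 = p := by omega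
      rw [h1])
  obtain ⟨w₁, hw₁⟩ : ∃ w₁ : MulAut H, w₁ = α ^ 2 * β ^ m * α ^ 2 := ⟨_, rfl⟩
  obtain ⟨w₂, hw₂⟩ : ∃ w₂ : MulAut H, w₂ = α ^ (p - 1) * β ^ 1 * α ^ (p - 1) := ⟨_, rfl⟩
  rw [← hw₁] at hw1
  rw [← hw₂] at hw2
  have hw₁G : w₁ ∈ G := by
    rw [hw₁]
    exact G.mul_mem (G.mul_mem (G.pow_mem hαG _) (G.pow_mem hβG _)) (G.pow_mem hαG _)
  have hw₂G : w₂ ∈ G := by
    rw [hw₂]
    exact G.mul_mem (G.mul_mem (G.pow_mem hαG _) (G.pow_mem hβG _)) (G.pow_mem hαG _)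
  have hwK : ∀ (a j : ℕ), ∀ y ∈ K, (α ^ a * β ^ j * α ^ a) y = y := by
    intro a j y hy
    have h1 : (α ^ a * β ^ j * α ^ a) y = (α ^ a) ((β ^ j) ((α ^ a) y)) := rfl
    rw [h1, aut_pow_fix α (hαK y hy) a, aut_pow_fix β (hβK y hy) j, aut_pow_fix α (hαK y hy) a]
  have hδG : w₁ * w₂ ∈ G := G.mul_mem hw₁G hw₂G
  have hδe : (w₁ * w₂) e₁ = e₁ ^ 2 := by
    rw [MulAut.mul_apply, hw2.1, pow_one, hw1.2]
  refine ⟨w₁ * w₂, hδG, hδe, ?_, ?_⟩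
  · intro y hy
    rw [MulAut.mul_apply, hw₂, hwK _ _ y hy, hw₁, hwK _ _ y hy]
  · have hca : (1 : MulAut H)⁻¹ ((w₁ * w₂) e₁) ∈ K₁ := by
      rw [hδe]
      simpa using K₁.pow_mem h.e₁K 2
    obtain ⟨⟨k, hk⟩, -⟩ := h.center_axis hH hδG G.one_mem hca
    refine ⟨k, ?_⟩
    rw [hk]
    simp

end TV

end Main

end Cfsg.Agent.Lib.Helper59.AbE
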