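import Mathlib
import Cfsg.Agent.Lib.Helper87.Fusion6
import Cfsg.Agent.Lib.Helper90.Basic

set_option autoImplicit false

namespace Cfsg.Agent.Lib.Helper59.AbE

open Cfsg Cfsg.FusionSystem Cfsg.Agent.Lib.Helper90

variable {Ω : Type*} [Group Ω] {S : Subgroup Ω}

theorem center_conj {z g : Ω} (hz : z ∈ S ⊓ Subgroup.centralizer (S : Set Ω)) (hg : g ∈ S) :
    g * z * g⁻¹ = z := by
  have h1 := Subgroup.mem_centralizer_iff.mp (Subgroup.mem_inf.mp hz).2 g hg
  rw [h1, mul_inv_cancel_right]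

theorem center_comm {z g : Ω} (hz : z ∈ S ⊓ Subgroup.centralizer (S : Set Ω)) (hg : g ∈ S) :
    g * z = z * g :=
  Subgroup.mem_centralizer_iff.mp (Subgroup.mem_inf.mp hz).2 g hg

/-- an automorphism of `S` in the system preserves and reflects the centre -/
theorem mor_top_center [Finite S] {F : FusionSystem S} {s : Ω → Ω} (hs : Mor F S s) {y : Ω}
    (hy : y ∈ S) :
    y ∈ S ⊓ Subgroup.centralizer (S : Set Ω) ↔ s y ∈ S ⊓ Subgroup.centralizer (S : Set Ω) := by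
  have hmem : ∀ x ∈ S, s x ∈ S := fun x hx => hs.mem hx
  constructor
  · intro hyZ
    refine Subgroup.mem_inf.mpr ⟨hmem y hy, ?_⟩
    rw [Subgroup.mem_centralizer_iff]
    intro t ht
    obtain ⟨t', ht', rfl⟩ := hs.surj_of_finite hmem t ht
    rw [← hs.map_mul ht' hy, ← hs.map_mul hy ht', center_comm hyZ ht']
  · intro hyZ
    refine Subgroup.mem_inf.mpr ⟨hy, ?_⟩
    rw [Subgroup.mem_centralizer_iff]
    intro t ht
    apply hs.inj (S.mul_mem ht hy) (S.mul_mem hy ht)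
    rw [hs.map_mul ht hy, hs.map_mul hy ht, center_comm hyZ (hmem t ht)]

/-- the condition on maps: the centre of `S` is preserved and reflected, and the map agrees on it
with an automorphism of `S` in the system -/
def ZCh (F : FusionSystem S) (R : Subgroup Ω) (φ : R →* Ω) : Prop :=
  (∀ y : R, (y : Ω) ∈ S ⊓ Subgroup.centralizer (S : Set Ω) ↔
      φ y ∈ S ⊓ Subgroup.centralizer (S : Set Ω)) ∧
    ∃ s : Ω → Ω, Mor F S s ∧
      ∀ y : R, (y : Ω) ∈ S ⊓ Subgroup.centralizer (S : Set Ω) → φ y = s y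

/-- the subsystem of the maps satisfying `ZCh` when their source has order at least `m` -/
def zSys [Finite S] (F : FusionSystem S) (m : ℕ) : FusionSystem S where
  Hom R := {φ | φ ∈ F.Hom R ∧ (m ≤ Nat.card R → ZCh F R φ)}
  le_of_mem h := F.le_of_mem h.1
  injective_of_mem h := F.injective_of_mem h.1
  conj_mem := by
    intro P g hP hg
    refine ⟨F.conj_mem hP hg, fun _ => ⟨fun y => ?_, id, mor_id F le_rfl, fun y hy => ?_⟩⟩
    · show (y : Ω) ∈ S ⊓ Subgroup.centralizer (S : Set Ω) ↔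
        g * (y : Ω) * g⁻¹ ∈ S ⊓ Subgroup.centralizer (S : Set Ω)
      constructor
      · intro hy
        rw [center_conj hy hg]
        exact hy
      · intro hy
        have h1 := center_conj hy (S.inv_mem hg)
        have h2 : g⁻¹ * (g * (y : Ω) * g⁻¹) * g⁻¹⁻¹ = (y : Ω) := by group
        rw [h2] at h1
        rw [h1]
        exact hy
    · show g * (y : Ω) * g⁻¹ = (y : Ω)
      exact center_conj hy hg
  comp_mem := by
    rintro P Q φ ψ ⟨hφ, hφZ⟩ ⟨hψ, hψZ⟩ h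
    refine ⟨F.comp_mem hφ hψ h, fun hm => ?_⟩
    have hQS : Q ≤ S := (F.le_of_mem hψ).1
    have hfinQ : Finite Q := finite_of_le hQS
    have hcard : Nat.card P ≤ Nat.card Q := by
      apply Nat.card_le_card_of_injective (fun x : P => (⟨φ x, h x⟩ : Q))
      intro a b hab
      exact F.injective_of_mem hφ (congrArg Subtype.val hab)
    obtain ⟨hi₁, s₁, hs₁, hs₁y⟩ := hφZ hm
    obtain ⟨hi₂, s₂, hs₂, hs₂y⟩ := hψZ (hm.trans hcard)
    refine ⟨fun y => ?_, s₂ ∘ s₁, hs₁.comp hs₂ (fun x hx => hs₁.mem hx), fun y hy => ?_⟩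
    · show (y : Ω) ∈ S ⊓ Subgroup.centralizer (S : Set Ω) ↔
        ψ ⟨φ y, h y⟩ ∈ S ⊓ Subgroup.centralizer (S : Set Ω)
      rw [hi₁ y]
      exact hi₂ ⟨φ y, h y⟩
    · show ψ ⟨φ y, h y⟩ = s₂ (s₁ (y : Ω))
      have h1 : φ y ∈ S ⊓ Subgroup.centralizer (S : Set Ω) := (hi₁ y).mp hy
      rw [hs₂y ⟨φ y, h y⟩ h1]
      show s₂ (φ y) = s₂ (s₁ (y : Ω))
      rw [hs₁y y hy]
  inv_mem := by
    rintro P φ ⟨hφ, hφZ⟩
    obtain ⟨ψ, hψ, hψx⟩ := F.inv_mem hφ
    refine ⟨ψ, ⟨hψ, fun hm => ?_⟩, hψx⟩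
    have hPS : P ≤ S := (F.le_of_mem hφ).1
    have hfinP : Finite P := finite_of_le hPS
    have hcard : Nat.card φ.range ≤ Nat.card P := by
      apply Nat.card_le_card_of_surjective (fun x : P => (⟨φ x, ⟨x, rfl⟩⟩ : φ.range))
      rintro ⟨_, x, rfl⟩
      exact ⟨x, rfl⟩
    obtain ⟨hi₁, s₁, hs₁, hs₁y⟩ := hφZ (hm.trans hcard)
    have himg : img S s₁ = S := hs₁.img_eq_self (fun x hx => hs₁.mem hx)
    have hinv : Mor F S (invFn S s₁) := by
      have := hs₁.inv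
      rwa [himg] at this
    refine ⟨?_, invFn S s₁, hinv, ?_⟩
    · rintro ⟨_, x, rfl⟩
      show φ x ∈ S ⊓ Subgroup.centralizer (S : Set Ω) ↔
        ψ ⟨φ x, ⟨x, rfl⟩⟩ ∈ S ⊓ Subgroup.centralizer (S : Set Ω)
      rw [hψx x]
      exact (hi₁ x).symm
    · rintro ⟨_, x, rfl⟩ hy
      have hxZ : (x : Ω) ∈ S ⊓ Subgroup.centralizer (S : Set Ω) := (hi₁ x).mpr hy
      show ψ ⟨φ x, ⟨x, rfl⟩⟩ = invFn S s₁ (φ x)
      rw [hψx x, hs₁y x hxZ, hs₁.invFn_apply (hPS x.2)]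

/-- Alperin's theorem for the condition `ZCh`: it suffices to check it on the automorphisms of the
essential subgroups of order at least `m`. -/
theorem zext [Finite S] (p : ℕ) [Fact p.Prime] (hS : IsPGroup p S) (F : FusionSystem S)
    (hF : F.IsSaturated p) (m : ℕ)
    (hE : ∀ P : Subgroup Ω, F.IsEssential p P → m ≤ Nat.card P → ∀ α ∈ F.autGroup P,
      (∀ y : P, (y : Ω) ∈ S ⊓ Subgroup.centralizer (S : Set Ω) ↔
        ((α y : P) : Ω) ∈ S ⊓ Subgroup.centralizer (S : Set Ω)) ∧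
      ∃ s : Ω → Ω, Mor F S s ∧
        ∀ y : P, (y : Ω) ∈ S ⊓ Subgroup.centralizer (S : Set Ω) → ((α y : P) : Ω) = s y)
    {R : Subgroup Ω} {f : Ω → Ω} (hf : Mor F R f) (hm : m ≤ Nat.card R) :
    ∃ s, Mor F S s ∧ ∀ y ∈ R, y ∈ S ⊓ Subgroup.centralizer (S : Set Ω) → f y = s y := by
  have hle : F ≤ zSys F m := by
    apply Cfsg.Agent.Lib.Helper87.alperin p hS F hF (zSys F m)
    intro P hP α hα
    have hPS : P ≤ S := by
      rcases hP with rfl | hP
      · exact le_rfl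
      · exact hP.1.1
    rw [Cfsg.Agent.Lib.Helper87.mem_autGroup_iff' (zSys F m) hPS]
    have hαF := (Cfsg.Agent.Lib.Helper87.mem_autGroup_iff' F hPS α).mp hα
    refine ⟨hαF, fun hmP => ?_⟩
    rcases hP with rfl | hP
    · have hmor := mor_of_hom hαF
      refine ⟨fun y => ?_, _, hmor, fun y _ => ?_⟩
      · have h1 := mor_top_center hmor y.2
        rw [extFun_apply] at h1
        exact h1
      · rw [extFun_apply]
    · exact hE P hP hmP α hα
  obtain ⟨φ, hφ, hφf⟩ := hf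
  obtain ⟨-, s, hs, hsy⟩ := (hle R hφ).2 hm
  refine ⟨s, hs, fun y hy hyZ => ?_⟩
  rw [← hφf ⟨y, hy⟩]
  exact hsy ⟨y, hy⟩ hyZ

end Cfsg.Agent.Lib.Helper59.AbE
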