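import Mathlib
import Cfsg.Agent.Lib.Helper59.AbE2
import Cfsg.Agent.Lib.Helper59.AbE3
import Cfsg.Agent.Lib.Helper90.AbIdxQ
import Cfsg.Agent.Lib.Helper90.EssTwist

set_option autoImplicit false

namespace Cfsg.Agent.Lib.Helper59.AbE

open Cfsg Cfsg.FusionSystem Cfsg.Agent.Lib.Helper90

variable {Ω : Type*} [Group Ω] {S : Subgroup Ω}

section TypeHBasic

variable {p : ℕ} {A P Z : Subgroup Ω} (h : AbIdx p S A) (hPS : P ≤ S) {x : Ω} (hxP : x ∈ P)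
  (hxA : x ∉ A) (hPAZ : P ⊓ A ≤ Z)

include h hPS hxP hxA hPAZ

theorem typeH_gen {y : Ω} (hy : y ∈ P) : ∃ k : ℕ, y * (x ^ k)⁻¹ ∈ Z := by
  obtain ⟨k, hk⟩ := h.gen x (hPS hxP) hxA y (hPS hy)
  exact ⟨k, hPAZ (Subgroup.mem_inf.mpr ⟨P.mul_mem hy (P.inv_mem (P.pow_mem hxP k)), hk⟩)⟩

theorem typeH_comm (hZc : ∀ z ∈ Z, ∀ g ∈ S, g * z = z * g) {y y' : Ω} (hy : y ∈ P)
    (hy' : y' ∈ P) : y * y' = y' * y := by
  obtain ⟨k, hk⟩ := typeH_gen h hPS hxP hxA hPAZ hy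
  obtain ⟨l, hl⟩ := typeH_gen h hPS hxP hxA hPAZ hy'
  have c1 : Commute (y * (x ^ k)⁻¹) y' := (hZc _ hk _ (hPS hy')).symm
  have c2 : Commute (x ^ k) (y' * (x ^ l)⁻¹) := hZc _ hl _ (S.pow_mem (hPS hxP) k)
  have c3 : Commute (x ^ k) (x ^ l) := (Commute.refl x).pow_pow k l
  have c4 : Commute (x ^ k) (y' * (x ^ l)⁻¹ * x ^ l) := c2.mul_right c3
  rw [inv_mul_cancel_right] at c4
  have c5 := c1.mul_left c4
  rw [inv_mul_cancel_right] at c5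
  exact c5.eq

end TypeHBasic

/-- the structure around an essential subgroup `P = Z(S)⟨x⟩` -/
theorem typeH [Finite S] (p : ℕ) [hp : Fact p.Prime] (hp2 : p ≠ 2) (hS : IsPGroup p S)
    (F : FusionSystem S) (hF : F.IsSaturated p) {A : Subgroup Ω} (h : AbIdx p S A)
    {Z : Subgroup Ω} (hZ : Z = S ⊓ Subgroup.centralizer (S : Set Ω))
    {P : Subgroup Ω} (hP : F.IsEssential p P) {x : Ω} (hxP : x ∈ P) (hxA : x ∉ A)
    {a1 : Ω} (ha1A : a1 ∈ A) (ha1N : a1 ∈ Subgroup.normalizer (P : Set Ω)) (ha1P : a1 ∉ P)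
    (ha1p : a1 ^ p ∈ P)
    (hgenN : ∀ a2 ∈ A, a2 ∈ Subgroup.normalizer (P : Set Ω) → ∃ k : ℕ, a2 * (a1 ^ k)⁻¹ ∈ P)
    (hPAZ : P ⊓ A ≤ Z) (hZP : Z ≤ P) :
    ∃ K : Subgroup Ω, K ≤ Z ∧
      (∀ α ∈ F.autGroup P, ∀ y : P, (y : Ω) ∈ K → ((α y : P) : Ω) ∈ K) ∧
      ∃ e ∈ Z, e ≠ 1 ∧ e ^ p = 1 ∧ e ∈ (commutator ↥S).map S.subtype ∧
        (∀ z ∈ Z, ∃ i : ℕ, z * (e ^ i)⁻¹ ∈ K) ∧
        ∃ d : Ω → Ω, Mor F (normalizerIn S P) d ∧ d e = e ^ 2 ∧ ∀ y ∈ K, d y = y := by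
  have hPS : P ≤ S := hP.1.1
  have hfinP : Finite P := finite_of_le hPS
  have hxS : x ∈ S := hPS hxP
  have ha1S : a1 ∈ S := h.le ha1A
  have hZA : Z ≤ A := by rw [hZ]; exact h.center_le
  have hZc : ∀ z ∈ Z, ∀ g ∈ S, g * z = z * g := by
    intro z hz g hg
    rw [hZ] at hz
    exact center_comm hz hg
  have hgen : ∀ y ∈ P, ∃ k : ℕ, y * (x ^ k)⁻¹ ∈ Z := fun y hy =>
    typeH_gen h hPS hxP hxA hPAZ hy
  have hcomm : ∀ y ∈ P, ∀ y' ∈ P, y * y' = y' * y := fun y hy y' hy' =>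
    typeH_comm h hPS hxP hxA hPAZ hZc hy hy'
  have hxZ : x ∉ Z := fun hx => hxA (hZA hx)
  -- the subgroup `K₁`
  obtain ⟨K₁, hK₁⟩ : ∃ K₁ : Subgroup P, K₁ = Z.subgroupOf P := ⟨_, rfl⟩
  have hK₁mem : ∀ y : P, y ∈ K₁ ↔ (y : Ω) ∈ Z := by
    intro y
    rw [hK₁, Subgroup.mem_subgroupOf]
  have hK₁n : K₁.Normal := by
    constructor
    intro n hn g
    rw [hK₁mem] at hn ⊢
    have e : ((g * n * g⁻¹ : P) : Ω) = n := by
      show (g : Ω) * n * (g : Ω)⁻¹ = n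
      rw [hZc _ hn _ (hPS g.2), mul_inv_cancel_right]
    rw [e]
    exact hn
  have hidx : K₁.index = p := by
    refine index_eq_prime_of_gen K₁ (u := ⟨x, hxP⟩) ?_ ?_ ?_
    · rw [hK₁mem]
      exact hxZ
    · rw [hK₁mem]
      show x ^ p ∈ Z
      exact hPAZ (Subgroup.mem_inf.mpr ⟨P.pow_mem hxP p, h.pow x hxS⟩)
    · intro v
      obtain ⟨k, hk⟩ := hgen v v.2
      exact ⟨k, (hK₁mem _).mpr hk⟩
  -- the automorphism `t`
  obtain ⟨t, ht⟩ : ∃ t : MulAut P, t = Cfsg.Agent.Lib.Helper87.conjAut P a1 ha1N := ⟨_, rfl⟩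
  have htapp : ∀ y : P, ((t y : P) : Ω) = a1 * y * a1⁻¹ := by
    intro y
    rw [ht]
    rfl
  have htpow : ∀ (n : ℕ) (y : P), (((t ^ n) y : P) : Ω) = a1 ^ n * y * (a1 ^ n)⁻¹ :=
    fun n => aut_pow_conj t a1 htapp n
  have htS : t ∈ autInducedBy S P :=
    (Cfsg.Agent.Lib.Helper90.mem_autInducedBy_iff S P t).mpr ⟨a1, ha1S, htapp⟩
  have hAle := autInducedBy_le_autGroup F hPS
  -- the element `e`
  obtain ⟨e, he⟩ : ∃ e : Ω, e = kap x a1 := ⟨_, rfl⟩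
  have ha1x : a1 * x * a1⁻¹ ∈ P := (Subgroup.mem_normalizer_iff.mp ha1N x).mp hxP
  have heP : e ∈ P := by
    rw [he]
    exact P.mul_mem (P.inv_mem hxP) ha1x
  have heZ : e ∈ Z := by
    refine hPAZ (Subgroup.mem_inf.mpr ⟨heP, ?_⟩)
    rw [he]
    exact h.kap_mem hxS ha1A
  have he1 : e ≠ 1 := by
    rw [he]
    intro h1
    have hc := (kap_eq_one_iff x a1).mp h1
    have hz := h.mem_center hxS hxA ha1A hc
    rw [← hZ] at hz
    exact ha1P (hZP hz)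
  have hep : e ^ p = 1 := by
    have hz : a1 ^ p ∈ S ⊓ Subgroup.centralizer (S : Set Ω) := by
      rw [← hZ]
      exact hPAZ (Subgroup.mem_inf.mpr ⟨ha1p, A.pow_mem ha1A p⟩)
    rw [he, ← h.kap_pow hxS ha1A, h.kap_central hxS hz]
  have heS' : e ∈ (commutator ↥S).map S.subtype := by
    rw [he]
    exact h.kap_mem_commutator hxS ha1A
  -- `Aut_S(P)` consists of the powers of `t`
  have hpow_t : ∀ β ∈ autInducedBy S P, ∃ j : ℕ, β = t ^ j := by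
    intro β hβ
    obtain ⟨s, hs, hβs⟩ := (Cfsg.Agent.Lib.Helper90.mem_autInducedBy_iff S P β).mp hβ
    have hsN : s ∈ Subgroup.normalizer (P : Set Ω) := by
      apply mem_normalizer_of_finite
      intro y hy
      rw [← hβs ⟨y, hy⟩]
      exact (β ⟨y, hy⟩).2
    obtain ⟨a', k, ha', hsa⟩ := h.decomp hxS hxA hs
    have ha'N : a' ∈ Subgroup.normalizer (P : Set Ω) := by
      have e1 : a' = s * (x ^ k)⁻¹ := by
        rw [hsa]
        group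
      rw [e1]
      exact Subgroup.mul_mem _ hsN
        (Subgroup.inv_mem _ (Subgroup.le_normalizer (P.pow_mem hxP k)))
    obtain ⟨j, hj⟩ := hgenN a' ha' ha'N
    refine ⟨j, ?_⟩
    ext y
    rw [hβs, htpow]
    obtain ⟨q, hq⟩ : ∃ q, q = a' * (a1 ^ j)⁻¹ := ⟨_, rfl⟩
    rw [← hq] at hj
    have hw : a1 ^ j * y * (a1 ^ j)⁻¹ ∈ P := by
      rw [← htpow]
      exact ((t ^ j) y).2
    have e1 : s * y * s⁻¹ = q * (a1 ^ j * (x ^ k * y * (x ^ k)⁻¹) * (a1 ^ j)⁻¹) * q⁻¹ := by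
      rw [hsa, hq]
      group
    have e2 : x ^ k * (y : Ω) * (x ^ k)⁻¹ = y := by
      rw [hcomm _ (P.pow_mem hxP k) _ y.2, mul_inv_cancel_right]
    rw [e1, e2, hcomm _ hj _ hw, mul_inv_cancel_right]
  have hH : IsPGroup p P := hS.to_le hPS
  obtain ⟨-, hfa, hrec⟩ := Cfsg.Agent.Lib.Helper87.saturated_fullyNormalized p hS F hF hP.2.1
  -- maximality of `⟨t⟩`
  have hmaxc : ∀ γ ∈ F.autGroup P, ∀ D : Subgroup (MulAut P), D ≤ F.autGroup P → IsPGroup p D →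
      γ * t * γ⁻¹ ∈ D → ∀ d ∈ D, ∃ k : ℕ, d = γ * t ^ k * γ⁻¹ := by
    intro γ hγ D hDG hD hγt d hd
    obtain ⟨R, hR⟩ := hfa.2
    obtain ⟨D₁, hD₁⟩ : ∃ D₁ : Subgroup (F.autGroup P), D₁ = (D.subgroupOf (F.autGroup P)).comap
        (MulAut.conj (⟨γ, hγ⟩ : F.autGroup P)).toMonoidHom := ⟨_, rfl⟩
    have hD₁p : IsPGroup p D₁ := by
      rw [hD₁]
      exact (hD.comap_of_injective (F.autGroup P).subtype
        (Subgroup.subtype_injective _)).comap_of_injective _ (MulEquiv.injective _)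
    have hmem : ∀ g : F.autGroup P, g ∈ D₁ ↔ γ * (g : MulAut P) * γ⁻¹ ∈ D := by
      intro g
      rw [hD₁, Subgroup.mem_comap, Subgroup.mem_subgroupOf]
      rfl
    have hRD : (R : Subgroup (F.autGroup P)) ≤ D₁ := by
      intro r hr
      rw [hR, Subgroup.mem_subgroupOf] at hr
      obtain ⟨j, hj⟩ := hpow_t _ hr
      rw [hmem, hj, ← conj_pow]
      exact D.pow_mem hγt j
    have heq : D₁ = R := R.is_maximal' hD₁p hRD
    have hdG : γ⁻¹ * d * γ ∈ F.autGroup P :=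
      Subgroup.mul_mem _ (Subgroup.mul_mem _ (Subgroup.inv_mem _ hγ) (hDG hd)) hγ
    have hd' : (⟨γ⁻¹ * d * γ, hdG⟩ : F.autGroup P) ∈ D₁ := by
      rw [hmem]
      have e1 : γ * (γ⁻¹ * d * γ) * γ⁻¹ = d := by group
      show γ * (γ⁻¹ * d * γ) * γ⁻¹ ∈ D
      rw [e1]
      exact hd
    rw [heq, hR, Subgroup.mem_subgroupOf] at hd'
    obtain ⟨k, hk⟩ := hpow_t _ hd'
    refine ⟨k, ?_⟩
    rw [← hk]
    show d = γ * (γ⁻¹ * d * γ) * γ⁻¹
    group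
  haveI := hK₁n
  have hTV : TV p (F.autGroup P) K₁ t ⟨e, heP⟩ ⟨x, hxP⟩ := by
    refine ⟨?_, hAle htS, ?_, ?_, ?_, ?_, ?_, ?_, ?_, ?_, hmaxc⟩
    · intro a b
      exact Subtype.ext (hcomm _ a.2 _ b.2)
    · exact (hK₁mem _).mpr heZ
    · intro h1
      exact he1 (congrArg Subtype.val h1)
    · exact Subtype.ext hep
    · rw [hK₁mem]
      exact hxZ
    · intro u hu y
      exact exists_pow_mul_mem_of_index_prime K₁ hidx hu y
    · intro u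
      exact pow_mem_of_index_prime K₁ hidx u
    · intro y hy
      apply Subtype.ext
      rw [htapp, hZc _ ((hK₁mem y).mp hy) _ ha1S, mul_inv_cancel_right]
    · apply Subtype.ext
      rw [htapp]
      show a1 * x * a1⁻¹ = x * e
      rw [he]
      unfold kap
      group
  -- the twist
  obtain ⟨g, hgG, -, htw⟩ := essential_exists_twist p hS F hF hP
  have htInn : t ∉ Inn P := by
    intro hmem
    obtain ⟨q, hq, hqx⟩ := (mem_Inn_iff t).mp hmem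
    have h1 := hqx ⟨x, hxP⟩
    rw [htapp] at h1
    have h2 : q * x * q⁻¹ = x := by rw [hcomm _ hq _ hxP, mul_inv_cancel_right]
    apply he1
    rw [he]
    unfold kap
    rw [h1, h2, inv_mul_cancel]
  have hg1 : ∀ k : ℕ, g * t * g⁻¹ ≠ t ^ k := by
    intro k hk
    refine htw t htS t htS htInn htInn (autInducedBy S P) (isPGroup_autInducedBy hS P) htS ?_
    rw [hk]
    exact Subgroup.pow_mem _ htS k
  have hg2 : ∀ k : ℕ, t ≠ g * t ^ k * g⁻¹ := by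
    intro k hk
    refine htw t htS t htS htInn htInn ((autInducedBy S P).map (MulAut.conj g).toMonoidHom)
      ((isPGroup_autInducedBy hS P).map _) ?_ ?_
    · exact ⟨t ^ k, Subgroup.pow_mem _ htS k, hk.symm⟩
    · exact ⟨t, htS, rfl⟩
  obtain ⟨K', hK'K₁, hK'inv, hK'gen, δ, hδG, hδe, hδK, kδ, hδt⟩ := hTV.main hp2 hH hgG hg1 hg2
  refine ⟨K'.map P.subtype, ?_, ?_, e, heZ, he1, hep, heS', ?_, ?_⟩
  · rintro _ ⟨y, hy, rfl⟩
    exact (hK₁mem y).mp (hK'K₁ hy)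
  · intro α hα y hy
    obtain ⟨y', hy', hyy⟩ := hy
    have hyeq : y' = y := Subtype.ext hyy
    rw [hyeq] at hy'
    exact ⟨α y, hK'inv α hα y hy', rfl⟩
  · intro z hz
    obtain ⟨i, hi⟩ := hK'gen ⟨z, hZP hz⟩ ((hK₁mem _).mpr hz)
    exact ⟨i, ⟨_, hi, rfl⟩⟩
  · -- the extension of `δ` to the normalizer
    have hmor : Mor F P (autFun P δ) :=
      (Cfsg.Agent.Lib.Helper90.mem_autGroup_iff F hPS δ).mp hδG
    have hext : ∀ a ∈ normalizerIn S P, a ∈ S ∧ a ∈ Subgroup.normalizer (P : Set Ω) ∧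
        ∃ b ∈ S, ∀ y ∈ P, autFun P δ (a * y * a⁻¹) = b * autFun P δ y * b⁻¹ := by
      intro a ha
      obtain ⟨haS, haN⟩ := ha
      refine ⟨haS, haN, ?_⟩
      have hca : Cfsg.Agent.Lib.Helper87.conjAut P a haN ∈ autInducedBy S P :=
        (Cfsg.Agent.Lib.Helper90.mem_autInducedBy_iff S P _).mpr ⟨a, haS, fun y => rfl⟩
      obtain ⟨j, hj⟩ := hpow_t _ hca
      refine ⟨a1 ^ (kδ * j), S.pow_mem ha1S _, fun y hy => ?_⟩
      have hay : a * y * a⁻¹ ∈ P := (Subgroup.mem_normalizer_iff.mp haN y).mp hy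
      rw [autFun_apply' δ hay, autFun_apply' δ hy]
      have e1 : (⟨a * y * a⁻¹, hay⟩ : P) = (t ^ j) ⟨y, hy⟩ := by
        rw [← hj]
        rfl
      have e2 : δ ((t ^ j) ⟨y, hy⟩) = (t ^ (kδ * j)) (δ ⟨y, hy⟩) := by
        have e3 : δ * t ^ j = t ^ (kδ * j) * δ := by
          have e4 : δ * t ^ j * δ⁻¹ = t ^ (kδ * j) := by
            rw [← conj_pow, hδt, ← pow_mul]
          rw [← e4]
          group
        exact congrArg (fun f : MulAut P => f ⟨y, hy⟩) e3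
      rw [e1, e2, htpow]
    obtain ⟨d, hd, hdP⟩ := receptive_extend hrec hmor (img_autFun δ) (normalizerIn S P)
      (le_normalizerIn hPS) hext
    refine ⟨d, hd, ?_, ?_⟩
    · rw [hdP e heP, autFun_apply' δ heP, hδe]
      rfl
    · rintro _ ⟨y, hy, rfl⟩
      show d (y : Ω) = (y : Ω)
      rw [hdP _ y.2, autFun_apply' δ y.2]
      exact congrArg Subtype.val (hδK y hy)

end Cfsg.Agent.Lib.Helper59.AbE
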