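import Mathlib
import Cfsg.Agent.Lib.Helper59.AbE4

set_option autoImplicit false

namespace Cfsg.Agent.Lib.Helper59.AbE

open Cfsg Cfsg.FusionSystem Cfsg.Agent.Lib.Helper90 Cfsg.Agent.Lib.Helper59.RkF

variable {Ω : Type*} [Group Ω] {S : Subgroup Ω}

theorem mem_of_pow_mem_coprime {G : Type*} [Group G] (N : Subgroup G) {a b : ℕ}
    (hab : Nat.Coprime a b) {g : G} (ha : g ^ a ∈ N) (hb : g ^ b ∈ N) : g ∈ N := by
  have h1 : (1 : ℤ) = a * Nat.gcdA a b + b * Nat.gcdB a b := by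
    rw [← Nat.gcd_eq_gcd_ab, hab.gcd_eq_one]
    simp
  have h2 : g = (g ^ a) ^ (Nat.gcdA a b) * (g ^ b) ^ (Nat.gcdB a b) := by
    rw [← zpow_natCast, ← zpow_natCast, ← zpow_mul, ← zpow_mul, ← zpow_add, ← h1, zpow_one]
  rw [h2]
  exact N.mul_mem (N.zpow_mem ha _) (N.zpow_mem hb _)

/-- the automorphisms of `P` fixing `W ∩ P` pointwise -/
def fixW (P W : Subgroup Ω) : Subgroup (MulAut P) where
  carrier := {α | ∀ y : P, (y : Ω) ∈ W → α y = y}
  one_mem' := fun _ _ => rfl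
  mul_mem' := by
    intro α β hα hβ y hy
    show α (β y) = y
    rw [hβ y hy, hα y hy]
  inv_mem' := by
    intro α hα y hy
    have h1 : α⁻¹ (α y) = y := by simp
    rw [hα y hy] at h1
    exact h1

theorem mem_fixW {P W : Subgroup Ω} {α : MulAut P} :
    α ∈ fixW P W ↔ ∀ y : P, (y : Ω) ∈ W → α y = y := Iff.rfl

section Frattini

variable [Finite S] {p : ℕ} [Fact p.Prime] {F : FusionSystem S} {P W : Subgroup Ω}
  (hPS : P ≤ S) (R : Sylow p (F.autGroup P))
  (hR : (R : Subgroup (F.autGroup P)) = (autInducedBy S P).subgroupOf (F.autGroup P))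
  (hW : ∀ α ∈ F.autGroup P, ∀ y : P, (y : Ω) ∈ W → ((α y : P) : Ω) ∈ W)
  (hWS : ∀ w ∈ W, ∀ g ∈ S, g * w * g⁻¹ = w)

include hW in
omit [Finite S] [Fact p.Prime] in
theorem fixW_normal : ((fixW P W).subgroupOf (F.autGroup P)).Normal := by
  constructor
  intro n hn g
  rw [Subgroup.mem_subgroupOf] at hn ⊢
  intro y hy
  have h1 : ((((g⁻¹ : F.autGroup P) : MulAut P) y : P) : Ω) ∈ W := hW _ (g⁻¹).2 y hy
  have h2 := hn _ h1
  show (g : MulAut P) ((n : MulAut P) (((g⁻¹ : F.autGroup P) : MulAut P) y)) = y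
  rw [h2]
  simp

include hR hWS in
omit [Finite S] in
theorem sylow_le_fixW :
    (R : Subgroup (F.autGroup P)) ≤ (fixW P W).subgroupOf (F.autGroup P) := by
  intro r hr
  rw [hR, Subgroup.mem_subgroupOf] at hr
  rw [Subgroup.mem_subgroupOf]
  obtain ⟨s, hs, hrs⟩ := (Cfsg.Agent.Lib.Helper90.mem_autInducedBy_iff S P _).mp hr
  intro y hy
  apply Subtype.ext
  rw [hrs, hWS _ hy _ hs]

include hPS hR hW hWS in
/-- Frattini argument: modulo the automorphisms fixing `W` pointwise, every automorphism of the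
system normalizes `Aut_S(P)`. -/
theorem frattini_fix {α : MulAut P} (hα : α ∈ F.autGroup P) :
    ∃ n ∈ F.autGroup P, (∀ β ∈ autInducedBy S P, n * β * n⁻¹ ∈ autInducedBy S P) ∧
      ∀ y : P, (y : Ω) ∈ W → α y = n y := by
  have hfinP : Finite P := finite_of_le hPS
  haveI := fixW_normal (F := F) hW
  have hle := sylow_le_fixW R hR hWS
  have htop := Sylow.normalizer_sup_eq_top' R hle
  have hmem : (⟨α, hα⟩ : F.autGroup P) ∈ (⊤ : Subgroup (F.autGroup P)) := Subgroup.mem_top _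
  rw [← htop, ← SetLike.mem_coe, Subgroup.mul_normal] at hmem
  obtain ⟨n, hn, c, hc, hnc⟩ := Set.mem_mul.mp hmem
  refine ⟨n, n.2, ?_, ?_⟩
  · intro β hβ
    have hβR : (⟨β, autInducedBy_le_autGroup F hPS hβ⟩ : F.autGroup P) ∈
        (R : Subgroup (F.autGroup P)) := by
      rw [hR, Subgroup.mem_subgroupOf]
      exact hβ
    have h1 := (Subgroup.mem_normalizer_iff.mp hn _).mp hβR
    rw [hR, Subgroup.mem_subgroupOf] at h1
    exact h1
  · intro y hy
    have h1 : α = (n : MulAut P) * (c : MulAut P) := (congrArg Subtype.val hnc).symm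
    have hc' := (Subgroup.mem_subgroupOf.mp hc) y hy
    rw [h1]
    show (n : MulAut P) ((c : MulAut P) y) = (n : MulAut P) y
    rw [hc']

include hPS hR hW hWS in
/-- an automorphism of the system a `p`-power of which fixes `W` pointwise fixes `W` pointwise -/
theorem fix_of_pow_fix {ρ : MulAut P} (hρ : ρ ∈ F.autGroup P) (k : ℕ)
    (hρp : ρ ^ (p ^ k) ∈ fixW P W) : ρ ∈ fixW P W := by
  have hfinP : Finite P := finite_of_le hPS
  have hnorm := fixW_normal (F := F) hW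
  have hle := sylow_le_fixW R hR hWS
  obtain ⟨N, hN⟩ : ∃ N : Subgroup (F.autGroup P), N = (fixW P W).subgroupOf (F.autGroup P) :=
    ⟨_, rfl⟩
  rw [← hN] at hle hnorm
  haveI := hnorm
  have hdvd : N.index ∣ (R : Subgroup (F.autGroup P)).index := Subgroup.index_dvd_of_le hle
  have hnd : ¬ p ∣ (R : Subgroup (F.autGroup P)).index := R.not_dvd_index
  have hcop : Nat.Coprime N.index (p ^ k) := by
    apply Nat.Coprime.pow_right
    rw [Nat.coprime_comm, Nat.Prime.coprime_iff_not_dvd Fact.out]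
    intro hp
    exact hnd (hp.trans hdvd)
  have h1 : (⟨ρ, hρ⟩ : F.autGroup P) ^ N.index ∈ N := N.pow_index_mem _
  have h2 : (⟨ρ, hρ⟩ : F.autGroup P) ^ (p ^ k) ∈ N := by
    rw [hN, Subgroup.mem_subgroupOf]
    exact hρp
  have h3 : (⟨ρ, hρ⟩ : F.autGroup P) ∈ N := mem_of_pow_mem_coprime N hcop h1 h2
  rw [hN, Subgroup.mem_subgroupOf] at h3
  exact h3

end Frattini

/-- an automorphism of `S` in the system acting unipotently on the centre relative to a subgroup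
`C` of exponent `p` fixes the centre pointwise -/
theorem unip_fix [Finite S] {p : ℕ} [hp : Fact p.Prime] (F : FusionSystem S)
    (hF : F.IsSaturated p) {C : Subgroup Ω} (hCp : ∀ w ∈ C, w ^ p = 1)
    {ρ : MulAut S} (hρ : ρ ∈ F.autGroup S)
    (hρC : ∀ w : S, (w : Ω) ∈ C → ρ w = w)
    (hρZ : ∀ z : S, (z : Ω) ∈ S ⊓ Subgroup.centralizer (S : Set Ω) →
      (z : Ω)⁻¹ * ((ρ z : S) : Ω) ∈ C) :
    ∀ z : S, (z : Ω) ∈ S ⊓ Subgroup.centralizer (S : Set Ω) → ρ z = z := by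
  obtain ⟨⟨-, R, hR⟩, -⟩ := top_fullyAutomized_receptive hF
  have hW : ∀ α ∈ F.autGroup S, ∀ y : S, (y : Ω) ∈ S ⊓ Subgroup.centralizer (S : Set Ω) →
      ((α y : S) : Ω) ∈ S ⊓ Subgroup.centralizer (S : Set Ω) := by
    intro α hα y hy
    have hmor := (Cfsg.Agent.Lib.Helper90.mem_autGroup_iff F le_rfl α).mp hα
    have h1 := (mor_top_center hmor y.2).mp hy
    rw [autFun_apply' α y.2] at h1
    exact h1
  have hWS : ∀ w ∈ S ⊓ Subgroup.centralizer (S : Set Ω), ∀ g ∈ S, g * w * g⁻¹ = w :=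
    fun w hw g hg => center_conj hw hg
  have hfix : ρ ^ (p ^ 1) ∈ fixW S (S ⊓ Subgroup.centralizer (S : Set Ω)) := by
    intro z hz
    obtain ⟨w, hw⟩ : ∃ w : S, w = z⁻¹ * ρ z := ⟨_, rfl⟩
    have hwC : (w : Ω) ∈ C := by
      rw [hw]
      exact hρZ z hz
    have hρw : ρ w = w := hρC w hwC
    have hpow : ∀ n : ℕ, (ρ ^ n) z = z * w ^ n := by
      intro n
      induction n with
      | zero => simp
      | succ n ih =>
        have e1 : ρ z = z * w := by
          rw [hw]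
          group
        rw [pow_succ, MulAut.mul_apply, e1, map_mul, ih, aut_pow_fix ρ hρw n, mul_assoc,
          ← pow_succ]
    rw [pow_one, hpow p]
    have hwp : w ^ p = 1 := Subtype.ext (hCp _ hwC)
    rw [hwp, mul_one]
  exact fix_of_pow_fix le_rfl R hR hW hWS hρ 1 hfix

theorem card_of_index {X P : Subgroup Ω} (hXP : X ≤ P) {p : ℕ}
    (hidx : (X.subgroupOf P).index = p) : Nat.card P = p * Nat.card X := by
  rw [← hidx, ← Nat.card_congr (Subgroup.subgroupOfEquivOfLe hXP).toEquiv,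
    Subgroup.index_mul_card]

theorem card_inf_A {p : ℕ} [hp : Fact p.Prime] {A P : Subgroup Ω} (h : AbIdx p S A)
    (hPS : P ≤ S) {x : Ω} (hxP : x ∈ P) (hxA : x ∉ A) :
    Nat.card P = p * Nat.card (P ⊓ A : Subgroup Ω) := by
  apply card_of_index inf_le_left
  have hn : ((P ⊓ A).subgroupOf P).Normal := by
    constructor
    intro n hn g
    rw [Subgroup.mem_subgroupOf] at hn ⊢
    exact Subgroup.mem_inf.mpr
      ⟨(g * n * g⁻¹).2, h.normal _ (hPS g.2) _ (Subgroup.mem_inf.mp hn).2⟩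
  refine index_eq_prime_of_gen _ (u := ⟨x, hxP⟩) ?_ ?_ ?_
  · intro hmem
    exact hxA (Subgroup.mem_inf.mp (Subgroup.mem_subgroupOf.mp hmem)).2
  · rw [Subgroup.mem_subgroupOf]
    exact Subgroup.mem_inf.mpr ⟨P.pow_mem hxP p, h.pow x (hPS hxP)⟩
  · intro v
    obtain ⟨k, hk⟩ := h.gen x (hPS hxP) hxA v (hPS v.2)
    exact ⟨k, Subgroup.mem_subgroupOf.mpr
      (Subgroup.mem_inf.mpr ⟨(v * (⟨x, hxP⟩ ^ k)⁻¹).2, hk⟩)⟩

/-- the automorphisms of an essential subgroup of maximal order preserving the centre of `S` act on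
it as automorphisms of `S` in the system -/
theorem frattini_ext [Finite S] (p : ℕ) [Fact p.Prime] (hS : IsPGroup p S) (F : FusionSystem S)
    (hF : F.IsSaturated p) {E : Subgroup Ω} (hE : F.IsEssential p E)
    (hinv : ∀ α ∈ F.autGroup E, ∀ y : E, (y : Ω) ∈ S ⊓ Subgroup.centralizer (S : Set Ω) →
      ((α y : E) : Ω) ∈ S ⊓ Subgroup.centralizer (S : Set Ω))
    (hmax : ∀ P' : Subgroup Ω, F.IsEssential p P' → Nat.card P' ≤ Nat.card E)
    {α : MulAut E} (hα : α ∈ F.autGroup E) :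
    ∃ s : Ω → Ω, Mor F S s ∧
      ∀ y : E, (y : Ω) ∈ S ⊓ Subgroup.centralizer (S : Set Ω) → ((α y : E) : Ω) = s y := by
  have hES : E ≤ S := hE.1.1
  have hfinE : Finite E := finite_of_le hES
  obtain ⟨-, hfa, hrec⟩ := Cfsg.Agent.Lib.Helper87.saturated_fullyNormalized p hS F hF hE.2.1
  obtain ⟨R, hR⟩ := hfa.2
  obtain ⟨n, hn, hnN, hnα⟩ := frattini_fix hES R hR hinv
    (fun w hw g hg => center_conj hw hg) hα
  have hmor : Mor F E (autFun E n) := (Cfsg.Agent.Lib.Helper90.mem_autGroup_iff F hES n).mp hn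
  have hext : ∀ a ∈ normalizerIn S E, a ∈ S ∧ a ∈ Subgroup.normalizer (E : Set Ω) ∧
      ∃ b ∈ S, ∀ y ∈ E, autFun E n (a * y * a⁻¹) = b * autFun E n y * b⁻¹ := by
    intro a ha
    obtain ⟨haS, haN⟩ := ha
    refine ⟨haS, haN, ?_⟩
    have hca : Cfsg.Agent.Lib.Helper87.conjAut E a haN ∈ autInducedBy S E :=
      (Cfsg.Agent.Lib.Helper90.mem_autInducedBy_iff S E _).mpr ⟨a, haS, fun y => rfl⟩
    obtain ⟨b, hb, hbx⟩ := (Cfsg.Agent.Lib.Helper90.mem_autInducedBy_iff S E _).mp (hnN _ hca)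
    refine ⟨b, hb, fun y hy => ?_⟩
    have hay : a * y * a⁻¹ ∈ E := (Subgroup.mem_normalizer_iff.mp haN y).mp hy
    rw [autFun_apply' n hay, autFun_apply' n hy]
    have h1 := hbx (n ⟨y, hy⟩)
    have h2 : (n * Cfsg.Agent.Lib.Helper87.conjAut E a haN * n⁻¹) (n ⟨y, hy⟩) =
        n ⟨a * y * a⁻¹, hay⟩ := by
      rw [MulAut.mul_apply, MulAut.mul_apply, MulAut.inv_apply_self]
      rfl
    rw [h2] at h1
    exact h1
  obtain ⟨f', hf', hf'E⟩ := receptive_extend hrec hmor (img_autFun n) (normalizerIn S E)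
    (le_normalizerIn hES) hext
  obtain ⟨s₀, hs₀S, hs₀N, hs₀E⟩ := essential_exists_normalizer p hS F hF hE
  have hs₀mem : s₀ ∈ normalizerIn S E := ⟨hs₀S, hs₀N⟩
  have hlt : E < normalizerIn S E :=
    SetLike.lt_iff_le_and_exists.mpr ⟨le_normalizerIn hES, s₀, hs₀mem, hs₀E⟩
  have hfinN : Finite (normalizerIn S E) := finite_of_le inf_le_left
  have hcard : Nat.card E + 1 ≤ Nat.card (normalizerIn S E) := card_lt_of_lt hlt
  obtain ⟨s, hs, hsy⟩ := zext p hS F hF (Nat.card E + 1)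
    (fun P' hP' hm => absurd (hmax P' hP') (by omega)) hf' hcard
  refine ⟨s, hs, fun y hy => ?_⟩
  rw [hnα y hy, ← hsy y (le_normalizerIn hES y.2) hy, hf'E y y.2, autFun_apply' n y.2]

end Cfsg.Agent.Lib.Helper59.AbE
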