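import Mathlib
import Cfsg.Agent.Lib.Helper59.AbE5

set_option autoImplicit false

namespace Cfsg.Agent.Lib.Helper59.AbE

open Cfsg Cfsg.FusionSystem Cfsg.Agent.Lib.Helper90 Cfsg.Agent.Lib.Helper59.RkF

variable {Ω : Type*} [Group Ω] {S : Subgroup Ω}

/-- the data of an essential subgroup `Z(S)⟨x⟩` -/
def IsH (F : FusionSystem S) (p : ℕ) (A Z P : Subgroup Ω) : Prop :=
  Nat.card P = p * Nat.card Z ∧ Nat.card (normalizerIn S P) = p * (p * Nat.card Z) ∧
  (∃ x ∈ S, x ∉ A ∧ P = Z ⊔ Subgroup.zpowers x) ∧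
  ∃ K : Subgroup Ω, K ≤ Z ∧
    (∀ α ∈ F.autGroup P, ∀ y : P, (y : Ω) ∈ K → ((α y : P) : Ω) ∈ K) ∧
    ∃ e ∈ Z, e ≠ 1 ∧ e ^ p = 1 ∧ e ∈ (commutator ↥S).map S.subtype ∧
      (∀ z ∈ Z, ∃ i : ℕ, z * (e ^ i)⁻¹ ∈ K) ∧
      ∃ d : Ω → Ω, Mor F (normalizerIn S P) d ∧ d e = e ^ 2 ∧ ∀ y ∈ K, d y = y

/-- the data of an essential subgroup `Z₂(S)⟨x⟩` -/
def IsB (F : FusionSystem S) (p : ℕ) (Z P : Subgroup Ω) : Prop :=
  Nat.card P = p * (p * Nat.card Z) ∧
    ∀ α ∈ F.autGroup P, ∀ y : P, (y : Ω) ∈ Z ↔ ((α y : P) : Ω) ∈ Z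

theorem ess_cases [Finite S] (p : ℕ) [hp : Fact p.Prime] (hp2 : p ≠ 2) (hS : IsPGroup p S)
    (F : FusionSystem S) (hF : F.IsSaturated p) {A : Subgroup Ω} (h : AbIdx p S A)
    {Z : Subgroup Ω} (hZ : Z = S ⊓ Subgroup.centralizer (S : Set Ω))
    {P : Subgroup Ω} (hP : F.IsEssential p P) (hPA : P ≠ A) :
    Z ≤ P ∧ (IsH F p A Z P ∨ IsB F p Z P) := by
  subst hZ
  have hPS : P ≤ S := hP.1.1
  have hfinP : Finite P := finite_of_le hPS
  have hcen : centralizerIn S P ≤ P := hP.1.2 P (isConj_refl F hPS)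
  have hZP : S ⊓ Subgroup.centralizer (S : Set Ω) ≤ P := by
    intro z hz
    apply hcen
    exact Subgroup.mem_inf.mpr ⟨(Subgroup.mem_inf.mp hz).1,
      Subgroup.centralizer_le hPS (Subgroup.mem_inf.mp hz).2⟩
  have hZA := h.center_le
  refine ⟨hZP, ?_⟩
  obtain ⟨x, hxP, hxA, a1, ha1A, ha1N, ha1P, ha1p, hgenN, hidx, hstruct⟩ :=
    abIdx_essential p hS F hF h hP hPA
  have hxS : x ∈ S := hPS hxP
  have hcardP := card_inf_A h hPS hxP hxA
  rcases hstruct with ⟨hP0Z, hPZ⟩ | ⟨hZ2A, hP0, -, u0, hu0, hu0Z, hu0p, hu0gen⟩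
  · left
    have hPAeq : P ⊓ A = S ⊓ Subgroup.centralizer (S : Set Ω) :=
      le_antisymm hP0Z (le_inf hZP hZA)
    rw [hPAeq] at hcardP
    refine ⟨hcardP, ?_, ⟨x, hxS, hxA, hPZ⟩, ?_⟩
    · have h1 : Nat.card (normalizerIn S P) = p * Nat.card P :=
        card_of_index (le_normalizerIn hPS) hidx
      rw [h1, hcardP]
    · exact typeH p hp2 hS F hF h rfl hP hxP hxA ha1A ha1N ha1P ha1p hgenN hP0Z hZP
  · right
    have hu0' : u0 ∈ (upperCentralSeries ↥S 2).map S.subtype := by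
      rw [← hP0]
      exact hu0
    have hgen' : ∀ v ∈ (upperCentralSeries ↥S 2).map S.subtype,
        ∃ k : ℕ, v * (u0 ^ k)⁻¹ ∈ S ⊓ Subgroup.centralizer (S : Set Ω) := by
      intro v hv
      rw [← hP0] at hv
      exact hu0gen v hv
    have hidx2 := abIdx_index_Z2 h hu0' hu0Z hu0p hgen'
    have hZZ2 : S ⊓ Subgroup.centralizer (S : Set Ω) ≤ (upperCentralSeries ↥S 2).map S.subtype := by
      rw [← hP0]
      exact le_inf hZP hZA
    have hcard2 := card_of_index hZZ2 hidx2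
    rw [hP0, hcard2] at hcardP
    refine ⟨hcardP, ?_⟩
    have hcenP : ∀ y : P, (y : Ω) ∈ S ⊓ Subgroup.centralizer (S : Set Ω) ↔
        ∀ y' : P, y * y' = y' * y := by
      intro y
      constructor
      · intro hy y'
        apply Subtype.ext
        show (y : Ω) * y' = y' * y
        exact (center_comm hy (hPS y'.2)).symm
      · intro hy
        by_cases hyA : (y : Ω) ∈ A
        · have hc : (y : Ω) * x = x * y := congrArg Subtype.val (hy ⟨x, hxP⟩)
          exact h.mem_center hxS hxA hyA hc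
        · exfalso
          apply hu0Z
          have hu0P : u0 ∈ P := (Subgroup.mem_inf.mp hu0).1
          have hu0A : u0 ∈ A := (Subgroup.mem_inf.mp hu0).2
          have hc : u0 * (y : Ω) = y * u0 := (congrArg Subtype.val (hy ⟨u0, hu0P⟩)).symm
          exact h.mem_center (hPS y.2) hyA hu0A hc
    intro α hα y
    rw [hcenP, hcenP]
    constructor
    · intro hy y'
      have h1 := hy (α⁻¹ y')
      have h2 := congrArg α h1
      rw [map_mul, map_mul] at h2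
      simpa using h2
    · intro hy y'
      have h1 := hy (α y')
      rw [← map_mul, ← map_mul] at h1
      exact α.injective h1

section Ctx

variable [Finite S] {p : ℕ} [hp : Fact p.Prime] (hS : IsPGroup p S) {F : FusionSystem S}
  (hF : F.IsSaturated p) {A Z : Subgroup Ω} (hZ : Z = S ⊓ Subgroup.centralizer (S : Set Ω))
  (hcases : ∀ P : Subgroup Ω, F.IsEssential p P → Z ≤ P ∧ (IsH F p A Z P ∨ IsB F p Z P))

include hS hF hZ hcases

/-- the automorphisms of the essential subgroups `Z₂(S)⟨x⟩` act on the centre as automorphisms of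
`S` -/
theorem isB_ext {P : Subgroup Ω} (hP : F.IsEssential p P) (hB : IsB F p Z P)
    {α : MulAut P} (hα : α ∈ F.autGroup P) :
    ∃ s : Ω → Ω, Mor F S s ∧ ∀ y : P, (y : Ω) ∈ Z → ((α y : P) : Ω) = s y := by
  have hpos : 1 ≤ p := hp.out.one_lt.le
  have hmax : ∀ P' : Subgroup Ω, F.IsEssential p P' → Nat.card P' ≤ Nat.card P := by
    intro P' hP'
    rw [hB.1]
    rcases (hcases P' hP').2 with hH | hB'
    · rw [hH.1]
      exact Nat.mul_le_mul_left p (Nat.le_mul_of_pos_left _ (by omega))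
    · rw [hB'.1]
  subst hZ
  exact frattini_ext p hS F hF hP (fun α hα y hy => (hB.2 α hα y).mp hy) hmax hα

/-- the extension to `S` of the torus element -/
theorem isH_ext {P : Subgroup Ω} {K : Subgroup Ω} {e : Ω} {d : Ω → Ω}
    (hZP : Z ≤ P) (hPS : P ≤ S)
    (hcardN : Nat.card (normalizerIn S P) = p * (p * Nat.card Z)) (hKZ : K ≤ Z) (heZ : e ∈ Z)
    (hd : Mor F (normalizerIn S P) d) (hde : d e = e ^ 2) (hdK : ∀ y ∈ K, d y = y) :
    ∃ σ ∈ F.autGroup S, (∀ he : e ∈ S, ((σ ⟨e, he⟩ : S) : Ω) = e ^ 2) ∧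
      ∀ y : S, (y : Ω) ∈ K → σ y = y := by
  have hZS : Z ≤ S := hZP.trans hPS
  have hfinZ : Finite Z := finite_of_le hZS
  have hcZ : 0 < Nat.card Z := Nat.card_pos
  have hp2 : 2 ≤ p := hp.out.two_le
  have hE : ∀ P' : Subgroup Ω, F.IsEssential p P' → p * (p * Nat.card Z) ≤ Nat.card P' →
      ∀ α ∈ F.autGroup P',
      (∀ y : P', (y : Ω) ∈ S ⊓ Subgroup.centralizer (S : Set Ω) ↔
        ((α y : P') : Ω) ∈ S ⊓ Subgroup.centralizer (S : Set Ω)) ∧
      ∃ s : Ω → Ω, Mor F S s ∧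
        ∀ y : P', (y : Ω) ∈ S ⊓ Subgroup.centralizer (S : Set Ω) → ((α y : P') : Ω) = s y := by
    intro P' hP' hm α hα
    rcases (hcases P' hP').2 with hH | hB
    · exfalso
      rw [hH.1] at hm
      have h1 : Nat.card Z < p * Nat.card Z := by nlinarith
      have h2 : p * Nat.card Z < p * (p * Nat.card Z) := Nat.mul_lt_mul_of_pos_left h1 (by omega)
      omega
    · have h1 := isB_ext hS hF hZ hcases hP' hB hα
      have h2 := hB.2 α hα
      rw [hZ] at h1 h2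
      exact ⟨h2, h1⟩
  obtain ⟨s, hs, hsy⟩ := zext p hS F hF (p * (p * Nat.card Z)) hE hd (le_of_eq hcardN.symm)
  obtain ⟨σ, hσ, hσs⟩ := exists_aut_of_mor hs (fun x hx => hs.mem hx)
  have hPN : P ≤ normalizerIn S P := le_normalizerIn hPS
  refine ⟨σ, hσ, ?_, ?_⟩
  · intro he
    rw [hσs, ← hsy e (hPN (hZP heZ)) (hZ ▸ heZ), hde]
  · intro y hy
    apply Subtype.ext
    rw [hσs, ← hsy y (hPN (hZP (hKZ hy))) (hZ ▸ hKZ hy), hdK y hy]

end Ctx

end Cfsg.Agent.Lib.Helper59.AbE
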