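import Mathlib
import Cfsg.Agent.Lib.Helper59.AbE6
import Cfsg.Agent.Lib.Helper87.Fusion8

set_option autoImplicit false

namespace Cfsg.Agent.Lib.Helper59.AbE

open Cfsg Cfsg.FusionSystem Cfsg.Agent.Lib.Helper90 Cfsg.Agent.Lib.Helper59.RkF
open scoped commutatorElement

variable {Ω : Type*} [Group Ω] {S : Subgroup Ω}

theorem lcs_le (S : Subgroup Ω) (n : ℕ) : Subgroup.lowerCentralSeries S n ≤ S := by
  induction n with
  | zero => exact le_rfl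
  | succ n ih =>
    rw [Subgroup.lowerCentralSeries_succ, Subgroup.commutator_le]
    intro g₁ h₁ g₂ h₂
    rw [commutatorElement_def]
    exact S.mul_mem (S.mul_mem (S.mul_mem (ih h₁) h₂) (S.inv_mem (ih h₁))) (S.inv_mem h₂)

theorem map_eq_of_inv {P Q : Subgroup Ω} {G : Subgroup (MulAut P)}
    (hinv : ∀ α ∈ G, ∀ y : P, (y : Ω) ∈ Q → ((α y : P) : Ω) ∈ Q) {α : MulAut P} (hα : α ∈ G) :
    (Q.subgroupOf P).map α.toMonoidHom = Q.subgroupOf P := by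
  ext y
  constructor
  · rintro ⟨y', hy', rfl⟩
    exact Subgroup.mem_subgroupOf.mpr (hinv α hα y' (Subgroup.mem_subgroupOf.mp hy'))
  · intro hy
    refine ⟨α⁻¹ y, Subgroup.mem_subgroupOf.mpr
      (hinv α⁻¹ (G.inv_mem hα) y (Subgroup.mem_subgroupOf.mp hy)), ?_⟩
    simp

/-- the data attached to an essential subgroup `Z(S)⟨x⟩`, read on `S` -/
structure HDat (F : FusionSystem S) (p : ℕ) (Z K : Subgroup Ω) (e : Ω) (σ : MulAut S) :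
    Prop where
  KZ : K ≤ Z
  eZ : e ∈ Z
  e1 : e ≠ 1
  ep : e ^ p = 1
  eS' : e ∈ (commutator ↥S).map S.subtype
  gen : ∀ z ∈ Z, ∃ i : ℕ, z * (e ^ i)⁻¹ ∈ K
  σF : σ ∈ F.autGroup S
  σe : ∀ he : e ∈ S, ((σ ⟨e, he⟩ : S) : Ω) = e ^ 2
  σK : ∀ y : S, (y : Ω) ∈ K → σ y = y

namespace HDat

variable {F : FusionSystem S} {p : ℕ} {Z K : Subgroup Ω} {e : Ω} {σ : MulAut S}
  (hd : HDat F p Z K e σ) (hZS : Z ≤ S)
include hd hZS

theorem act (z : S) (hz : (z : Ω) ∈ Z) :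
    ∃ i : ℕ, (z : Ω) * (e ^ i)⁻¹ ∈ K ∧ σ z = z * (⟨e, hZS hd.eZ⟩ : S) ^ i := by
  obtain ⟨i, hi⟩ := hd.gen z hz
  refine ⟨i, hi, ?_⟩
  obtain ⟨e', he'⟩ : ∃ e' : S, e' = ⟨e, hZS hd.eZ⟩ := ⟨_, rfl⟩
  obtain ⟨k, hk⟩ : ∃ k : S, k = z * (e' ^ i)⁻¹ := ⟨_, rfl⟩
  have hkK : (k : Ω) ∈ K := by
    rw [hk, he']
    exact hi
  have hσk : σ k = k := hd.σK k hkK
  have hσe : σ e' = e' ^ 2 := by
    rw [he']
    exact Subtype.ext (hd.σe _)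
  have hz' : z = k * e' ^ i := by
    rw [hk]
    group
  rw [← he']
  calc σ z = σ (k * e' ^ i) := by rw [← hz']
    _ = k * (e' ^ 2) ^ i := by rw [map_mul, map_pow, hσk, hσe]
    _ = k * e' ^ i * e' ^ i := by rw [← pow_mul, two_mul, pow_add, mul_assoc]
    _ = z * e' ^ i := by rw [← hz']

theorem fix_mem (z : S) (hz : (z : Ω) ∈ Z) (hσz : σ z = z) : (z : Ω) ∈ K := by
  obtain ⟨i, hi, hσ⟩ := hd.act hZS z hz
  rw [hσz] at hσ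
  have h1 : (⟨e, hZS hd.eZ⟩ : S) ^ i = 1 := by
    have h2 : z * (⟨e, hZS hd.eZ⟩ : S) ^ i = z * 1 := by rw [← hσ, mul_one]
    exact mul_left_cancel h2
  have h2 : e ^ i = 1 := congrArg Subtype.val h1
  rw [h2, inv_one, mul_one] at hi
  exact hi

theorem mod (z : S) (hz : (z : Ω) ∈ Z) :
    ∃ c : S, (c : Ω) ∈ Subgroup.zpowers e ∧ σ z = z * c := by
  obtain ⟨i, -, hσ⟩ := hd.act hZS z hz
  refine ⟨_, ?_, hσ⟩
  show e ^ i ∈ Subgroup.zpowers e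
  exact Subgroup.pow_mem _ (Subgroup.mem_zpowers e) i

theorem sq (w : S) (hw : (w : Ω) ∈ Subgroup.zpowers e) : σ w = w ^ 2 := by
  obtain ⟨j, hj⟩ := Subgroup.mem_zpowers_iff.mp hw
  obtain ⟨e', he'⟩ : ∃ e' : S, e' = ⟨e, hZS hd.eZ⟩ := ⟨_, rfl⟩
  have hσe : σ e' = e' ^ 2 := by
    rw [he']
    exact Subtype.ext (hd.σe _)
  have hw' : w = e' ^ j := by
    apply Subtype.ext
    rw [Subgroup.coe_zpow, he']
    exact hj.symm
  rw [hw', map_zpow, hσe, pow_two, pow_two, (Commute.refl e').mul_zpow]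

omit hZS in
theorem exp (w : Ω) (hw : w ∈ Subgroup.zpowers e) : w ^ p = 1 := by
  obtain ⟨j, rfl⟩ := Subgroup.mem_zpowers_iff.mp hw
  rw [← zpow_natCast, ← zpow_mul, mul_comm, zpow_mul, zpow_natCast, hd.ep, one_zpow]

theorem zpowers_eq [Finite S] [Fact p.Prime]
    (hCcard : Nat.card ↥(Z ⊓ (commutator ↥S).map S.subtype) = p) :
    Subgroup.zpowers e = Z ⊓ (commutator ↥S).map S.subtype := by
  have hfin : Finite ↥(Z ⊓ (commutator ↥S).map S.subtype) :=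
    finite_of_le (inf_le_left.trans hZS)
  apply Subgroup.eq_of_le_of_card_ge
  · rw [Subgroup.zpowers_le]
    exact Subgroup.mem_inf.mpr ⟨hd.eZ, hd.eS'⟩
  · rw [hCcard, Nat.card_zpowers, orderOf_eq_prime hd.ep hd.e1]

end HDat

/-- two automorphisms of `S` in the system that agree on `C` and agree on the centre modulo `C`
agree on the centre -/
theorem agree_center [Finite S] {p : ℕ} [Fact p.Prime] {F : FusionSystem S}
    (hF : F.IsSaturated p) {C : Subgroup Ω} (hCp : ∀ w ∈ C, w ^ p = 1)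
    (hCinv : ∀ α ∈ F.autGroup S, ∀ w : S, (w : Ω) ∈ C → ((α w : S) : Ω) ∈ C)
    {τ₁ τ₂ : MulAut S} (h₁ : τ₁ ∈ F.autGroup S) (h₂ : τ₂ ∈ F.autGroup S)
    (hC : ∀ w : S, (w : Ω) ∈ C → τ₁ w = τ₂ w)
    (hZ : ∀ z : S, (z : Ω) ∈ S ⊓ Subgroup.centralizer (S : Set Ω) →
      ∃ c : S, (c : Ω) ∈ C ∧ τ₁ z = τ₂ z * c) :
    ∀ z : S, (z : Ω) ∈ S ⊓ Subgroup.centralizer (S : Set Ω) → τ₁ z = τ₂ z := by
  have hρ : τ₂⁻¹ * τ₁ ∈ F.autGroup S := Subgroup.mul_mem _ (Subgroup.inv_mem _ h₂) h₁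
  have key := unip_fix F hF hCp hρ ?_ ?_
  · intro z hz
    have h1 := key z hz
    have h2 : τ₂ ((τ₂⁻¹ * τ₁) z) = τ₁ z := by simp
    rw [h1] at h2
    exact h2.symm
  · intro w hw
    show τ₂⁻¹ (τ₁ w) = w
    rw [hC w hw]
    simp
  · intro z hz
    obtain ⟨c, hc, hzc⟩ := hZ z hz
    have h1 : (τ₂⁻¹ * τ₁) z = z * τ₂⁻¹ c := by
      show τ₂⁻¹ (τ₁ z) = z * τ₂⁻¹ c
      rw [hzc, map_mul]
      simp
    rw [h1]
    have h2 : (z : Ω)⁻¹ * ((z * τ₂⁻¹ c : S) : Ω) = ((τ₂⁻¹ c : S) : Ω) := by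
      show (z : Ω)⁻¹ * ((z : Ω) * ((τ₂⁻¹ c : S) : Ω)) = _
      rw [inv_mul_cancel_left]
    rw [h2]
    exact hCinv _ (Subgroup.inv_mem _ h₂) c hc

/-- the complements attached to two essential subgroups `Z(S)⟨x⟩` coincide -/
theorem hdat_le [Finite S] {p : ℕ} [Fact p.Prime] {F : FusionSystem S}
    (hF : F.IsSaturated p) {Z : Subgroup Ω} (hZ : Z = S ⊓ Subgroup.centralizer (S : Set Ω))
    (hCcard : Nat.card ↥(Z ⊓ (commutator ↥S).map S.subtype) = p)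
    (hCinv : ∀ α ∈ F.autGroup S, ∀ w : S, (w : Ω) ∈ Z ⊓ (commutator ↥S).map S.subtype →
      ((α w : S) : Ω) ∈ Z ⊓ (commutator ↥S).map S.subtype)
    {K₁ K₂ : Subgroup Ω} {e₁ e₂ : Ω} {σ₁ σ₂ : MulAut S}
    (hd₁ : HDat F p Z K₁ e₁ σ₁) (hd₂ : HDat F p Z K₂ e₂ σ₂) : K₁ ≤ K₂ := by
  have hZS : Z ≤ S := by
    rw [hZ]
    exact inf_le_left
  have hC₁ := hd₁.zpowers_eq hZS hCcard
  have hC₂ := hd₂.zpowers_eq hZS hCcard
  have hCp : ∀ w ∈ Z ⊓ (commutator ↥S).map S.subtype, w ^ p = 1 := by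
    intro w hw
    rw [← hC₁] at hw
    exact hd₁.exp w hw
  have key := agree_center hF hCp hCinv (τ₁ := σ₁) (τ₂ := σ₂) hd₁.σF hd₂.σF ?_ ?_
  · intro y hy
    have hyZ : y ∈ Z := hd₁.KZ hy
    have hyS : y ∈ S := hZS hyZ
    have h1 := key ⟨y, hyS⟩ (by rw [← hZ]; exact hyZ)
    rw [hd₁.σK ⟨y, hyS⟩ hy] at h1
    exact hd₂.fix_mem hZS ⟨y, hyS⟩ hyZ h1.symm
  · intro w hw
    rw [hd₁.sq hZS w (by rw [hC₁]; exact hw), hd₂.sq hZS w (by rw [hC₂]; exact hw)]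
  · intro z hz
    rw [← hZ] at hz
    obtain ⟨c₁, hc₁, h1⟩ := hd₁.mod hZS z hz
    obtain ⟨c₂, hc₂, h2⟩ := hd₂.mod hZS z hz
    rw [hC₁] at hc₁
    rw [hC₂] at hc₂
    refine ⟨c₂⁻¹ * c₁, Subgroup.mul_mem _ (Subgroup.inv_mem _ hc₂) hc₁, ?_⟩
    rw [h1, h2]
    group

section Ctx

variable [Finite S] {p : ℕ} [hp : Fact p.Prime] (hS : IsPGroup p S) {F : FusionSystem S}
  (hF : F.IsSaturated p) {A Z : Subgroup Ω} (hZ : Z = S ⊓ Subgroup.centralizer (S : Set Ω))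
  (hcases : ∀ P : Subgroup Ω, F.IsEssential p P → Z ≤ P ∧ (IsH F p A Z P ∨ IsB F p Z P))

include hS hF hZ hcases

theorem hdat_of_isH {P : Subgroup Ω} (hP : F.IsEssential p P) (hH : IsH F p A Z P) :
    ∃ (K : Subgroup Ω) (e : Ω) (σ : MulAut S), HDat F p Z K e σ ∧
      ∀ α ∈ F.autGroup P, ∀ y : P, (y : Ω) ∈ K → ((α y : P) : Ω) ∈ K := by
  obtain ⟨-, hcardN, -, K, hKZ, hKinv, e, heZ, he1, hep, heS', hgen, d, hd, hde, hdK⟩ := hH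
  obtain ⟨σ, hσ, hσe, hσK⟩ := isH_ext hS hF hZ hcases (hcases P hP).1 hP.1.1 hcardN hKZ heZ
    hd hde hdK
  exact ⟨K, e, σ, ⟨hKZ, heZ, he1, hep, heS', hgen, hσ, hσe, hσK⟩, hKinv⟩

end Ctx

end Cfsg.Agent.Lib.Helper59.AbE
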