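import Mathlib
import Cfsg.Agent.Lib.Helper59.AbE7

set_option autoImplicit false

namespace Cfsg.Agent.Lib.Helper59.AbE

open Cfsg Cfsg.FusionSystem Cfsg.Agent.Lib.Helper90 Cfsg.Agent.Lib.Helper59.RkF
open scoped commutatorElement

variable {Ω : Type*} [Group Ω] {S : Subgroup Ω}

/-- core-free saturated fusion systems over a `p`-group with a unique abelian subgroup `A` of index
`p` which is not essential -/
theorem abe_main [Finite S] (p : ℕ) [hp : Fact p.Prime] (hS : IsPGroup p S)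
    (F : FusionSystem S) (hF : F.IsSaturated p) (hp2 : p ≠ 2) (hna : ¬ IsMulCommutative ↥S)
    (A : Subgroup Ω) (hA : A ≤ S ∧ IsMulCommutative ↥A ∧ (A.subgroupOf S).index = p)
    (huniq : ∀ B : Subgroup Ω, B ≤ S → IsMulCommutative ↥B → (B.subgroupOf S).index = p → B = A)
    (hcore : F.core = ⊥) (hAe : ¬ F.IsEssential p A) :
    (∃ x ∈ S, x ∉ A ∧
      F.IsEssential p ((S ⊓ Subgroup.centralizer (S : Set Ω)) ⊔ Subgroup.zpowers x)) ∧
    (S ⊓ Subgroup.centralizer (S : Set Ω)) ≤ (commutator ↥S).map S.subtype ∧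
    ∀ n : ℕ, Nat.card S = p ^ n → 3 ≤ n → Subgroup.lowerCentralSeries S (n - 2) ≠ ⊥ := by
  have h := abIdx_of_hyp p hS hna A hA
  obtain ⟨Z, hZ⟩ : ∃ Z : Subgroup Ω, Z = S ⊓ Subgroup.centralizer (S : Set Ω) := ⟨_, rfl⟩
  rw [← hZ]
  have hZS : Z ≤ S := by
    rw [hZ]
    exact inf_le_left
  have hcases : ∀ P : Subgroup Ω, F.IsEssential p P →
      Z ≤ P ∧ (IsH F p A Z P ∨ IsB F p Z P) :=
    fun P hP => ess_cases p hp2 hS F hF h hZ hP (fun hPA => hAe (hPA ▸ hP))
  -- the centre is invariant under the automorphisms of `S`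
  have hZinv : ∀ α ∈ F.autGroup S, ∀ y : S, (y : Ω) ∈ Z → ((α y : S) : Ω) ∈ Z := by
    intro α hα y hy
    have hmor := (Cfsg.Agent.Lib.Helper90.mem_autGroup_iff F le_rfl α).mp hα
    rw [hZ] at hy ⊢
    have h1 := (mor_top_center hmor y.2).mp hy
    rw [autFun_apply' α y.2] at h1
    exact h1
  -- existence of an essential subgroup `Z(S)⟨x⟩`
  have hexH : ∃ P, F.IsEssential p P ∧ IsH F p A Z P := by
    by_contra hcon
    have hallB : ∀ P, F.IsEssential p P → IsB F p Z P := by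
      intro P hP
      rcases (hcases P hP).2 with hH | hB
      · exact absurd ⟨P, hP, hH⟩ hcon
      · exact hB
    have hnorm : F.IsNormal Z := by
      apply Cfsg.Agent.Lib.Helper87.normal_of_essential_invariant p hS F hF
      intro P hP
      rcases hP with hPS | hP
      · subst hPS
        exact ⟨hZS, fun α hα => map_eq_of_inv hZinv hα⟩
      · exact ⟨(hcases P hP).1, fun α hα => map_eq_of_inv (G := F.autGroup P)
          (fun β hβ y hy => ((hallB P hP).2 β hβ y).mp hy) hα⟩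
    have hZbot : Z = ⊥ := by
      have h1 : Z ≤ F.core := le_sSup hnorm
      rw [hcore] at h1
      exact le_bot_iff.mp h1
    have hnt : Nontrivial S := by
      obtain ⟨s, hs, t, ht, hst⟩ := h.nonab
      refine ⟨⟨⟨s, hs⟩, 1, ?_⟩⟩
      intro h1
      have h2 : s = 1 := congrArg Subtype.val h1
      apply hst
      rw [h2, one_mul, mul_one]
    have hcn := IsPGroup.center_nontrivial hS
    obtain ⟨c, hc⟩ := exists_ne (1 : Subgroup.center ↥S)
    have hcZ : ((c : S) : Ω) ∈ Z := by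
      rw [hZ]
      refine Subgroup.mem_inf.mpr ⟨(c : S).2, ?_⟩
      rw [Subgroup.mem_centralizer_iff]
      intro g hg
      have h1 := Subgroup.mem_center_iff.mp c.2 ⟨g, hg⟩
      exact congrArg Subtype.val h1
    rw [hZbot, Subgroup.mem_bot] at hcZ
    apply hc
    apply Subtype.ext
    apply Subtype.ext
    exact hcZ
  obtain ⟨P₀, hP₀, hH₀⟩ := hexH
  have hP₀A : P₀ ≠ A := fun hPA => hAe (hPA ▸ hP₀)
  obtain ⟨hZ2A, x₁, hx₁S, hx₁A, u, hu, huZ, hup, hgenu⟩ :=
    abIdx_data p hS F hF h huniq hP₀ hP₀A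
  have hCcard_e := abIdx_card_inf h hZ2A hx₁S hx₁A hu huZ hup hgenu
  have hidxZ2_e := abIdx_index_Z2 h hu huZ hup hgenu
  have hCcard : Nat.card ↥(Z ⊓ (commutator ↥S).map S.subtype) = p := by
    rw [hZ]
    exact hCcard_e
  obtain ⟨K₀, e₀, σ₀, hd₀, hK₀inv⟩ := hdat_of_isH hS hF hZ hcases hP₀ hH₀
  have hCe₀ := hd₀.zpowers_eq hZS hCcard
  have hCp : ∀ w ∈ Z ⊓ (commutator ↥S).map S.subtype, w ^ p = 1 := by
    intro w hw
    rw [← hCe₀] at hw
    exact hd₀.exp w hw
  have hCinv : ∀ α ∈ F.autGroup S, ∀ w : S, (w : Ω) ∈ Z ⊓ (commutator ↥S).map S.subtype →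
      ((α w : S) : Ω) ∈ Z ⊓ (commutator ↥S).map S.subtype := by
    intro α hα w hw
    obtain ⟨hwZ, hwS'⟩ := Subgroup.mem_inf.mp hw
    refine Subgroup.mem_inf.mpr ⟨hZinv α hα w hwZ, ?_⟩
    obtain ⟨w', hw', hww⟩ := hwS'
    have hweq : w' = w := Subtype.ext hww
    rw [hweq] at hw'
    have hcm : (commutator ↥S).comap α.toMonoidHom = commutator ↥S :=
      Subgroup.characteristic_iff_comap_eq.mp inferInstance α
    have hmem : w ∈ (commutator ↥S).comap α.toMonoidHom := by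
      rw [hcm]
      exact hw'
    exact ⟨α w, Subgroup.mem_comap.mp hmem, rfl⟩
  -- invariance of `K₀` under the automorphisms of `S`
  have hAinv : ∀ α ∈ F.autGroup S, ∀ y : S, (y : Ω) ∈ K₀ → ((α y : S) : Ω) ∈ K₀ := by
    intro α hα y hy
    have hσ₀ := hd₀.σF
    have key := agree_center hF hCp hCinv (τ₁ := σ₀ * α) (τ₂ := α * σ₀)
      (Subgroup.mul_mem _ hσ₀ hα) (Subgroup.mul_mem _ hα hσ₀) ?_ ?_
    · have hyZ : (y : Ω) ∈ Z := hd₀.KZ hy
      have h1 := key y (by rw [← hZ]; exact hyZ)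
      have h2 : σ₀ (α y) = α y := by
        have h3 : σ₀ (α y) = α (σ₀ y) := h1
        rw [h3, hd₀.σK y hy]
      exact hd₀.fix_mem hZS (α y) (hZinv α hα y hyZ) h2
    · intro w hw
      show σ₀ (α w) = α (σ₀ w)
      rw [hd₀.sq hZS (α w) (by rw [hCe₀]; exact hCinv α hα w hw),
        hd₀.sq hZS w (by rw [hCe₀]; exact hw), map_pow]
    · intro z hz
      rw [← hZ] at hz
      obtain ⟨c₁, hc₁, h1⟩ := hd₀.mod hZS (α z) (hZinv α hα z hz)
      obtain ⟨c₂, hc₂, h2⟩ := hd₀.mod hZS z hz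
      rw [hCe₀] at hc₁ hc₂
      refine ⟨(α c₂)⁻¹ * c₁, Subgroup.mul_mem _ (Subgroup.inv_mem _ (hCinv α hα c₂ hc₂)) hc₁, ?_⟩
      show σ₀ (α z) = α (σ₀ z) * ((α c₂)⁻¹ * c₁)
      rw [h1, h2, map_mul]
      group
  -- normality of `K₀`
  have hnorm : F.IsNormal K₀ := by
    apply Cfsg.Agent.Lib.Helper87.normal_of_essential_invariant p hS F hF
    intro P hP
    rcases hP with hPS | hP
    · subst hPS
      exact ⟨hd₀.KZ.trans hZS, fun α hα => map_eq_of_inv hAinv hα⟩
    · refine ⟨hd₀.KZ.trans (hcases P hP).1, fun α hα =>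
        map_eq_of_inv (G := F.autGroup P) ?_ hα⟩
      intro β hβ y hy
      rcases (hcases P hP).2 with hH | hB
      · obtain ⟨K, e, σ, hd, hKinv⟩ := hdat_of_isH hS hF hZ hcases hP hH
        have h1 : K₀ ≤ K := hdat_le hF hZ hCcard hCinv hd₀ hd
        have h2 : K ≤ K₀ := hdat_le hF hZ hCcard hCinv hd hd₀
        exact h2 (hKinv β hβ y (h1 hy))
      · obtain ⟨s, hs, hsy⟩ := isB_ext hS hF hZ hcases hP hB hβ
        obtain ⟨τ, hτ, hτs⟩ := exists_aut_of_mor hs (fun x hx => hs.mem hx)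
        have hyZ : (y : Ω) ∈ Z := hd₀.KZ hy
        rw [hsy y hyZ, ← hτs ⟨y, hZS hyZ⟩]
        exact hAinv τ hτ ⟨y, hZS hyZ⟩ hy
  have hK₀bot : K₀ = ⊥ := by
    have h1 : K₀ ≤ F.core := le_sSup hnorm
    rw [hcore] at h1
    exact le_bot_iff.mp h1
  have hZe : ∀ z ∈ Z, z ∈ Subgroup.zpowers e₀ := by
    intro z hz
    obtain ⟨i, hi⟩ := hd₀.gen z hz
    rw [hK₀bot, Subgroup.mem_bot] at hi
    have h1 : z = e₀ ^ i := mul_inv_eq_one.mp hi
    rw [h1]
    exact Subgroup.pow_mem _ (Subgroup.mem_zpowers _) i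
  have hZeq : Z = Subgroup.zpowers e₀ :=
    le_antisymm hZe (by rw [Subgroup.zpowers_le]; exact hd₀.eZ)
  have hZcard : Nat.card Z = p := by
    rw [hZeq, Nat.card_zpowers, orderOf_eq_prime hd₀.ep hd₀.e1]
  refine ⟨?_, ?_, ?_⟩
  · obtain ⟨-, -, ⟨x, hxS, hxA, hPx⟩, -⟩ := hH₀
    refine ⟨x, hxS, hxA, ?_⟩
    rw [← hPx]
    exact hP₀
  · intro z hz
    have h1 := hZe z hz
    rw [hCe₀] at h1
    exact (Subgroup.mem_inf.mp h1).2
  · intro n hn hn3 hbot
    have hidxZ : (Z.subgroupOf S).index = p ^ (n - 1) := by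
      have h1 := Subgroup.index_mul_card (Z.subgroupOf S)
      rw [Nat.card_congr (Subgroup.subgroupOfEquivOfLe hZS).toEquiv, hZcard, hn] at h1
      have h2 : p ^ n = p ^ (n - 1) * p := by
        rw [← pow_succ]
        congr 1
        omega
      rw [h2] at h1
      exact Nat.eq_of_mul_eq_mul_right hp.out.pos h1
    have hsucc : Subgroup.lowerCentralSeries S (n - 2) =
        ⁅Subgroup.lowerCentralSeries S (n - 3), S⁆ := by
      have h1 : n - 2 = (n - 3) + 1 := by omega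
      rw [h1]
      rfl
    rw [hsucc] at hbot
    have hle : Subgroup.lowerCentralSeries S (n - 3) ≤ Z := by
      intro g hg
      rw [hZ]
      refine Subgroup.mem_inf.mpr ⟨lcs_le S (n - 3) hg, ?_⟩
      rw [Subgroup.mem_centralizer_iff]
      intro s hs
      have h1 : ⁅g, s⁆ ∈ ⁅Subgroup.lowerCentralSeries S (n - 3), S⁆ :=
        Subgroup.commutator_mem_commutator hg hs
      rw [hbot, Subgroup.mem_bot, commutatorElement_def] at h1
      have h2 : g * s * g⁻¹ = s := mul_inv_eq_one.mp h1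
      have h3 : g * s = s * g := mul_inv_eq_iff_eq_mul.mp h2
      exact h3.symm
    by_cases hn4 : 4 ≤ n
    · have hidxZ' : ((S ⊓ Subgroup.centralizer (S : Set Ω)).subgroupOf S).index = p ^ (n - 1) := by
        rw [← hZ]
        exact hidxZ
      have hmc := abIdx_maxclass h hx₁S hx₁A hZ2A hidxZ2_e hA.2.2 (n - 1) hidxZ' (by omega)
      apply hmc
      have e : n - 1 - 2 = n - 3 := by omega
      rw [e, ← hZ]
      exact hle
    · have hn' : n = 3 := by omega
      subst hn'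
      obtain ⟨s, hs, t, ht, hst⟩ := h.nonab
      apply hst
      have hsZ : s ∈ Z := hle hs
      rw [hZ] at hsZ
      exact (center_comm hsZ ht).symm

end Cfsg.Agent.Lib.Helper59.AbE
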