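import Cfsg.Agent.Lib.Helper87.BSWRR

/-!
# S3282: three basic facts on the Brauer–Suzuki–Wall setup (helper59)

Local copies (own namespace) of the facts needed by pieces G3 and R.
-/

set_option autoImplicit false

namespace Cfsg.Agent.Lib.Helper59.BSWG1x

open Cfsg Cfsg.Agent.Lib.Helper46.BSW

universe u

variable {G : Type u} [Group G] {t s : G} {K : Subgroup G}

theorem cent_mem (h : Setup t s K) :
    ∀ g ∈ Subgroup.centralizer ({t} : Set G), g ∈ K ∨ (g * s⁻¹ ∈ K ∧ orderOf g = 2) :=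
  Cfsg.Agent.Lib.Helper87.BSWRR.cent_mem h

theorem cent_le (h : Setup t s K) :
    ∀ x ∈ K, x ≠ 1 →
      Subgroup.centralizer ({x} : Set G) ≤ Subgroup.centralizer ({t} : Set G) := by
  intro x hx hx1 g hg
  by_contra hgt
  have hTI := h.hTI g hgt
  have hgx : g * x = x * g := Subgroup.mem_centralizer_singleton_iff.mp hg
  have hmem : x ∈ K ⊓ K.map (MulAut.conj g).toMonoidHom := by
    rw [Subgroup.mem_inf]
    refine ⟨hx, ?_⟩
    rw [Subgroup.mem_map]
    refine ⟨x, hx, ?_⟩
    show g * x * g⁻¹ = x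
    rw [hgx]; group
  rw [hTI, Subgroup.mem_bot] at hmem
  exact hx1 hmem

theorem cent_not_off (h : Setup t s K) :
    ∀ g ∈ Subgroup.centralizer ({t} : Set G), ¬ Off K g := by
  intro g hg hoff
  rcases cent_mem h g hg with hK | ⟨-, ho⟩
  · apply hoff 1
    simpa using hK
  · obtain ⟨d, hd⟩ := isConj_iff.mp (h.hconj g t ho h.ht)
    apply hoff d
    rw [hd]; exact h.htK

end Cfsg.Agent.Lib.Helper59.BSWG1x
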