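import Mathlib
import Cfsg.Prelude.Def_DStar
import Cfsg.Agent.Lib.Helper59.DStar

set_option autoImplicit false

namespace Cfsg.Agent.Lib.Helper59

open scoped commutatorElement

theorem dStarFamily_map {S : Type*} [Group S] (φ : S ≃* S) (A : Subgroup S)
    (hA : A ∈ Cfsg.dStarFamily S) : A.map φ.toMonoidHom ∈ Cfsg.dStarFamily S := by
  have hcomm : ∀ a ∈ A, ∀ b ∈ A, a * b = b * a := by
    intro a ha b hb
    exact congrArg Subtype.val (hA.1.is_comm.comm (⟨a, ha⟩ : A) ⟨b, hb⟩)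
  refine ⟨⟨⟨?_⟩⟩, ?_⟩
  · rintro ⟨a, ha⟩ ⟨b, hb⟩
    obtain ⟨a', ha', rfl⟩ := Subgroup.mem_map.1 ha
    obtain ⟨b', hb', rfl⟩ := Subgroup.mem_map.1 hb
    apply Subtype.ext
    change φ.toMonoidHom a' * φ.toMonoidHom b' = φ.toMonoidHom b' * φ.toMonoidHom a'
    rw [← map_mul, ← map_mul, hcomm a' ha' b' hb']
  · intro x hx a ha
    obtain ⟨a', ha', rfl⟩ := Subgroup.mem_map.1 ha
    have hx₀ : φ.toMonoidHom (φ.symm x) = x := φ.apply_symm_apply x
    have e : (A ⊔ Subgroup.zpowers (φ.symm x)).map φ.toMonoidHom =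
        A.map φ.toMonoidHom ⊔ Subgroup.zpowers x := by
      rw [Subgroup.map_sup, MonoidHom.map_zpowers, hx₀]
    have h3 : ⁅⁅A ⊔ Subgroup.zpowers (φ.symm x), A ⊔ Subgroup.zpowers (φ.symm x)⁆,
        A ⊔ Subgroup.zpowers (φ.symm x)⁆ = ⊥ := by
      have h4 := hx
      rw [← e, ← Subgroup.map_commutator, ← Subgroup.map_commutator] at h4
      exact (Subgroup.map_eq_bot_iff_of_injective _ φ.injective).1 h4
    have h5 := hA.2 (φ.symm x) h3 a' ha'
    have h6 := congrArg φ.toMonoidHom h5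
    rw [map_mul, map_mul, hx₀] at h6
    exact h6

theorem dStar_normal (S : Type*) [Group S] : (Cfsg.dStar S).Normal := by
  constructor
  intro n hn g
  have hle : Cfsg.dStar S ≤ (Cfsg.dStar S).comap (MulAut.conj g).toMonoidHom := by
    apply sSup_le
    intro A hA
    rw [← Subgroup.map_le_iff_le_comap]
    exact le_sSup (dStarFamily_map (MulAut.conj g) A hA)
  exact hle hn

end Cfsg.Agent.Lib.Helper59
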