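import Mathlib
import Cfsg.Agent.Lib.Helper84.GADefs
import Cfsg.Agent.Lib.Helper55.Basic

/-!
# Project GA (S4840, helper84), piece CN

The centraliser of a normal subgroup `N ≠ 1` whose nonidentity elements have Sylow
`p`-subgroups as centralisers is the `p`-core.
-/

set_option autoImplicit false

namespace Cfsg.Agent.Lib.Helper59.GA

universe u

open Cfsg.Agent.Lib.Helper84.GA

theorem cn : CNStmt.{u} := by
  intro G _ _ p _ N hN hNne hx
  obtain ⟨a, ha⟩ := (Subgroup.ne_bot_iff_exists_ne_one (H := N)).mp hNne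
  obtain ⟨x, hxa⟩ : ∃ x : G, x = (a : G) := ⟨_, rfl⟩
  have hxN : x ∈ N := by
    rw [hxa]
    exact a.2
  have hx1 : x ≠ 1 := by
    rw [hxa]
    exact fun h => ha (Subtype.ext h)
  apply le_antisymm
  · haveI : N.Normal := hN
    have hnorm : (Subgroup.centralizer (N : Set G)).Normal := Subgroup.normal_centralizer
    obtain ⟨P, hP⟩ := hx x hxN hx1
    have hle : Subgroup.centralizer (N : Set G) ≤ (P : Subgroup G) := by
      rw [← hP]
      exact Subgroup.centralizer_le (Set.singleton_subset_iff.mpr hxN)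
    exact Cfsg.Agent.Lib.Helper55.le_pCore hnorm (P.isPGroup'.to_le hle)
  · intro g hg
    rw [Subgroup.mem_centralizer_iff]
    intro y hy
    by_cases hy1 : y = 1
    · rw [hy1, one_mul, mul_one]
    · obtain ⟨P, hP⟩ := hx y hy hy1
      have hgc : g ∈ Subgroup.centralizer ({y} : Set G) := by
        rw [hP]
        exact Cfsg.Agent.Lib.Helper55.pCore_le_sylow P hg
      exact (Subgroup.mem_centralizer_iff.mp hgc) y (Set.mem_singleton y)

end Cfsg.Agent.Lib.Helper59.GA
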