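import Mathlib
import Cfsg.Agent.Lib.Helper48.QADefs

/-!
# Project QA (helper48, S2787), piece BNC

A finite subgroup of `SL₂(F)` (`F` of odd characteristic `p`) without elements of order 4 has
`N(R) ≤ C(R)` for every Sylow `r`-subgroup `R`, `r ≠ p`.
-/

set_option autoImplicit false

universe u

namespace Cfsg.Agent.Lib.Helper48.QA

open Matrix Polynomial

local notation "SL2" F => Matrix.SpecialLinearGroup (Fin 2) F
local notation "PSL2" F => Matrix.ProjectiveSpecialLinearGroup (Fin 2) F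
local notation "M2" F => Matrix (Fin 2) (Fin 2) F

/-- QA-BNC -/
theorem normalizer_le_centralizer {F : Type*} [Field F] {p : ℕ} [Fact p.Prime] [CharP F p]
    (hp2 : p ≠ 2) (S : Subgroup (SL2 F)) [Finite S] (h4 : ∀ s ∈ S, orderOf s ≠ 4)
    (hinv : ∀ g : SL2 F, g * g = 1 → (g : M2 F) = 1 ∨ (g : M2 F) = -1)
    (hcent : ∀ c g : SL2 F, (¬ ∃ a : F, (c : M2 F) = a • (1 : M2 F)) → g * c = c * g →
      ∃ a b : F, (g : M2 F) = a • (1 : M2 F) + b • (c : M2 F))
    (htr : ∀ (c d : SL2 F) (a b : F), (d : M2 F) = a • (1 : M2 F) + b • (c : M2 F) →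
      Matrix.trace (d : M2 F) = Matrix.trace (c : M2 F) → Matrix.trace (c : M2 F) ^ 2 ≠ 4 →
      d = c ∨ d = c⁻¹)
    (hord : ∀ c : SL2 F, c ≠ 1 → IsOfFinOrder c → Nat.Coprime (orderOf c) (2 * p) →
      Matrix.trace (c : M2 F) ^ 2 ≠ 4)
    (r : ℕ) [Fact r.Prime] (hr : r ≠ p) (R : Sylow r S) :
    Subgroup.normalizer (R : Set S) ≤ Subgroup.centralizer (R : Set S) := by
  classical
  have hrP : r.Prime := Fact.out
  have hpP : p.Prime := Fact.out
  -- matrix commutation gives commutation in `S`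
  have hext : ∀ a b : S, ((a : SL2 F) : M2 F) * ((b : SL2 F) : M2 F) =
      ((b : SL2 F) : M2 F) * ((a : SL2 F) : M2 F) → a * b = b * a := by
    intro a b h
    apply Subtype.ext
    apply Subtype.ext
    exact h
  -- (a) 2-elements of `S` are `±1`
  have h2el : ∀ t : S, (∃ k : ℕ, orderOf t = 2 ^ k) →
      (((t : SL2 F) : M2 F) = 1 ∨ ((t : SL2 F) : M2 F) = -1) := by
    rintro t ⟨k, hk⟩
    apply hinv
    by_contra hne
    have hk2 : 2 ≤ k := by
      by_contra hlt
      push Not at hlt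
      have hd : orderOf t ∣ 2 := by
        rw [hk]
        interval_cases k <;> norm_num
      have h2 : t ^ 2 = 1 := orderOf_dvd_iff_pow_eq_one.mp hd
      apply hne
      have h3 := congrArg (Subtype.val) h2
      rw [sq] at h3
      exact h3
    have hdvd : 2 ^ (k - 2) ∣ orderOf t := by
      rw [hk]; exact pow_dvd_pow 2 (by omega)
    have hs : orderOf (t ^ 2 ^ (k - 2)) = 4 := by
      rw [orderOf_pow_of_dvd (by positivity) hdvd, hk, Nat.pow_div (by omega) (by norm_num)]
      have : k - (k - 2) = 2 := by omega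
      rw [this]
    exact h4 ((t ^ 2 ^ (k - 2) : S) : SL2 F) (SetLike.coe_mem _)
      (by rw [Subgroup.orderOf_coe]; exact hs)
  have hcentral : ∀ t y : S, (((t : SL2 F) : M2 F) = 1 ∨ ((t : SL2 F) : M2 F) = -1) →
      t * y = y * t := by
    intro t y ht
    apply hext
    rcases ht with ht | ht
    · rw [ht, one_mul, mul_one]
    · rw [ht, neg_one_mul, mul_neg_one]
  -- orders of elements of `R`
  have hRord : ∀ x : S, x ∈ (R : Subgroup S) → ∃ j, orderOf x = r ^ j := by
    intro x hx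
    obtain ⟨k, hk⟩ := R.isPGroup' ⟨x, hx⟩
    have h1 : x ^ r ^ k = 1 := congrArg Subtype.val hk
    have h2 : orderOf x ∣ r ^ k := orderOf_dvd_iff_pow_eq_one.mpr h1
    obtain ⟨j, -, hj⟩ := (Nat.dvd_prime_pow hrP).mp h2
    exact ⟨j, hj⟩
  intro g hg
  rw [Subgroup.mem_centralizer_iff]
  intro x hx
  have hxR : x ∈ (R : Subgroup S) := hx
  by_cases hr2 : r = 2
  · obtain ⟨j, hj⟩ := hRord x hxR
    rw [hr2] at hj
    exact hcentral x g (h2el x ⟨j, hj⟩)
  by_cases hx1 : x = 1
  · rw [hx1, one_mul, mul_one]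
  -- a nontrivial central element of `R`
  haveI : Nontrivial ↥(R : Subgroup S) := ⟨⟨⟨x, hxR⟩, 1, fun h => hx1 (congrArg Subtype.val h)⟩⟩
  haveI := IsPGroup.center_nontrivial (R.isPGroup')
  obtain ⟨c', hc'⟩ := exists_ne (1 : Subgroup.center ↥(R : Subgroup S))
  obtain ⟨c, hcdef⟩ : ∃ c : S, c = ((c' : ↥(R : Subgroup S)) : S) := ⟨_, rfl⟩
  have hcR : c ∈ (R : Subgroup S) := by rw [hcdef]; exact (c' : ↥(R : Subgroup S)).2
  have hc1 : c ≠ 1 := by
    intro h
    apply hc'
    apply Subtype.ext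
    apply Subtype.ext
    rw [← hcdef, h]
    rfl
  have hccomm : ∀ y : S, y ∈ (R : Subgroup S) → y * c = c * y := by
    intro y hy
    have h1 := Subgroup.mem_center_iff.mp c'.2 ⟨y, hy⟩
    have h2 := congrArg Subtype.val h1
    rw [hcdef]
    exact h2
  obtain ⟨i, hi⟩ := hRord c hcR
  have hi1 : i ≠ 0 := by
    intro h0
    rw [h0, pow_zero, orderOf_eq_one_iff] at hi
    exact hc1 hi
  -- `c * c = 1` is impossible
  have hcc : c * c = 1 → False := by
    intro h
    have h1 : orderOf c ∣ 2 := orderOf_dvd_iff_pow_eq_one.mpr (by rw [sq]; exact h)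
    rw [hi] at h1
    have h2 : r ∣ 2 := (dvd_pow_self r hi1).trans h1
    exact hr2 ((Nat.prime_dvd_prime_iff_eq hrP Nat.prime_two).mp h2)
  have hcop : Nat.Coprime (orderOf (c : SL2 F)) (2 * p) := by
    rw [Subgroup.orderOf_coe, hi]
    apply Nat.Coprime.pow_left
    exact Nat.Coprime.mul_right ((Nat.coprime_primes hrP Nat.prime_two).mpr hr2)
      ((Nat.coprime_primes hrP hpP).mpr hr)
  have hcS1 : (c : SL2 F) ≠ 1 := fun h => hc1 (Subtype.ext h)
  have hfin : IsOfFinOrder (c : SL2 F) := by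
    rw [← orderOf_pos_iff, Subgroup.orderOf_coe]
    exact orderOf_pos c
  have hτ := hord (c : SL2 F) hcS1 hfin hcop
  have hns : ¬ ∃ a : F, ((c : SL2 F) : M2 F) = a • (1 : M2 F) := by
    rintro ⟨a, ha⟩
    have hdet : ((c : SL2 F) : M2 F).det = 1 := (c : SL2 F).det_coe
    rw [ha, Matrix.det_smul, Matrix.det_one, Fintype.card_fin, mul_one] at hdet
    apply hcc
    have h1 : c * c = c * c := rfl
    apply Subtype.ext
    apply Subtype.ext
    show ((c : SL2 F) : M2 F) * ((c : SL2 F) : M2 F) = 1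
    rw [ha, smul_mul_smul_comm, mul_one, ← sq, hdet, one_smul]
  -- the conjugate of `c` by `g`
  have hgn := Subgroup.mem_normalizer_iff.mp hg
  have hdR : g * c * g⁻¹ ∈ (R : Subgroup S) := (hgn c).mp hcR
  have hdc : g * c * g⁻¹ * c = c * (g * c * g⁻¹) := hccomm _ hdR
  have htrace : Matrix.trace (((g * c * g⁻¹ : S) : SL2 F) : M2 F) =
      Matrix.trace ((c : SL2 F) : M2 F) := by
    have h1 : (((g * c * g⁻¹ : S) : SL2 F) : M2 F) =
        ((g : SL2 F) : M2 F) * ((c : SL2 F) : M2 F) * (((g⁻¹ : S) : SL2 F) : M2 F) := rfl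
    have h2 : (((g⁻¹ : S) : SL2 F) : M2 F) * ((g : SL2 F) : M2 F) = 1 := by
      have h3 : g⁻¹ * g = 1 := inv_mul_cancel g
      have h4 := congrArg (fun s : S => ((s : SL2 F) : M2 F)) h3
      exact h4
    rw [h1, Matrix.trace_mul_cycle, h2, one_mul]
  obtain ⟨a, b, hab⟩ := hcent (c : SL2 F) ((g * c * g⁻¹ : S) : SL2 F) hns
    (congrArg Subtype.val hdc)
  have hgc : g * c = c * g := by
    rcases htr (c : SL2 F) ((g * c * g⁻¹ : S) : SL2 F) a b hab htrace hτ with hd | hd
    · have h1 : g * c * g⁻¹ = c := Subtype.ext hd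
      calc g * c = g * c * g⁻¹ * g := by group
        _ = c * g := by rw [h1]
    · exfalso
      have h1 : g * c * g⁻¹ = c⁻¹ := Subtype.ext hd
      have hA : g * c = c⁻¹ * g := by
        calc g * c = g * c * g⁻¹ * g := by group
          _ = c⁻¹ * g := by rw [h1]
      have hB : g * c⁻¹ = c * g := by
        have h2 : (g * c * g⁻¹)⁻¹ = c := by rw [h1, inv_inv]
        calc g * c⁻¹ = (g * c * g⁻¹)⁻¹ * g := by group
          _ = c * g := by rw [h2]
      have hg2 : Commute (g ^ 2) c := by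
        show g ^ 2 * c = c * g ^ 2
        calc g ^ 2 * c = g * (g * c) := by rw [sq, mul_assoc]
          _ = g * (c⁻¹ * g) := by rw [hA]
          _ = g * c⁻¹ * g := by group
          _ = c * g * g := by rw [hB]
          _ = c * g ^ 2 := by rw [sq, mul_assoc]
      obtain ⟨k, n, hnodd, hkn⟩ := Nat.exists_eq_two_pow_mul_odd (orderOf_pos g).ne'
      obtain ⟨m, hm⟩ := hnodd
      have hn0 : n ≠ 0 := by omega
      have hndvd : n ∣ orderOf g := ⟨2 ^ k, by rw [hkn, mul_comm]⟩
      have hto : orderOf (g ^ n) = 2 ^ k := by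
        rw [orderOf_pow_of_dvd hn0 hndvd, hkn]
        exact Nat.mul_div_cancel _ (Nat.pos_of_ne_zero hn0)
      have htc : g ^ n * c = c * g ^ n := hcentral (g ^ n) c (h2el (g ^ n) ⟨k, hto⟩)
      have hgn' : g ^ n = (g ^ 2) ^ m * g := by rw [hm, pow_succ, pow_mul]
      have htc2 : g ^ n * c = c⁻¹ * g ^ n := by
        rw [hgn']
        calc (g ^ 2) ^ m * g * c = (g ^ 2) ^ m * (g * c) := by group
          _ = (g ^ 2) ^ m * (c⁻¹ * g) := by rw [hA]
          _ = ((g ^ 2) ^ m * c⁻¹) * g := by group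
          _ = (c⁻¹ * (g ^ 2) ^ m) * g := by rw [((hg2.pow_left m).inv_right).eq]
          _ = c⁻¹ * ((g ^ 2) ^ m * g) := by group
      have h5 : c * g ^ n = c⁻¹ * g ^ n := by rw [← htc, htc2]
      have h6 : c = c⁻¹ := mul_right_cancel h5
      apply hcc
      calc c * c = c * c⁻¹ := by rw [← h6]
        _ = 1 := mul_inv_cancel c
  -- both `g` and `x` are polynomials in `c`
  obtain ⟨a1, b1, hg1⟩ := hcent (c : SL2 F) (g : SL2 F) hns (congrArg Subtype.val hgc)
  obtain ⟨a2, b2, hx2⟩ := hcent (c : SL2 F) (x : SL2 F) hns (congrArg Subtype.val (hccomm x hxR))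
  apply hext
  rw [hg1, hx2]
  have hC : Commute (a2 • (1 : M2 F) + b2 • ((c : SL2 F) : M2 F))
      (a1 • (1 : M2 F) + b1 • ((c : SL2 F) : M2 F)) := by
    apply Commute.add_left
    · apply Commute.add_right
      · exact ((Commute.one_left (1 : M2 F)).smul_left a2).smul_right a1
      · exact ((Commute.one_left ((c : SL2 F) : M2 F)).smul_left a2).smul_right b1
    · apply Commute.add_right
      · exact ((Commute.one_right ((c : SL2 F) : M2 F)).smul_left b2).smul_right a1
      · exact ((Commute.refl ((c : SL2 F) : M2 F)).smul_left b2).smul_right b1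
  exact hC.eq

end Cfsg.Agent.Lib.Helper48.QA
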