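import Mathlib

/-!
# Project TG (helper99), S2197: piece TG-NO40

The Tits group has no transitive faithful action of degree `40` of the kind arising from a
`2`-transitive action: the central involution `z` of a Sylow `2`-subgroup would fix exactly
`8` points, and the stabiliser in `P` of one of them would have order `1280`.
-/

set_option autoImplicit false

namespace Cfsg.Agent.Lib.Helper99.TG

open MulAction

/-- the orbit of a point moved by `z` under `S` has exactly `32` points -/
private theorem tgno40_orbit {G : Type*} [Group G] [Finite G] {Ω : Type*} [Fintype Ω]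
    [MulAction G Ω] (hΩ : Fintype.card Ω = 40) (S : Subgroup G) (z : G)
    (hS : Nat.card S = 2048)
    (hc : ∀ K : Subgroup G, K ≤ S → 128 ≤ Nat.card K → z ∈ K) (ω : Ω) (hω : z • ω ≠ ω) :
    (orbit S ω).ncard = 32 := by
  have h1 : Nat.card (stabilizer S ω) * (orbit S ω).ncard = 2048 := by
    rw [← index_stabilizer, Subgroup.card_mul_index, hS]
  have h2 : Nat.card (stabilizer S ω) ∣ 2 ^ 11 := by
    have : Nat.card (stabilizer S ω) ∣ 2048 := Dvd.intro _ h1
    exact this
  obtain ⟨k, hk, hk'⟩ := (Nat.dvd_prime_pow Nat.prime_two).1 h2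
  have h3 : (orbit S ω).ncard ≤ 40 := by
    have := Set.ncard_le_card (orbit S ω)
    rw [Nat.card_eq_fintype_card, hΩ] at this
    exact this
  have h4 : Nat.card (stabilizer S ω) < 128 := by
    by_contra hge
    push_neg at hge
    have hcard : Nat.card ((stabilizer S ω).map S.subtype) = Nat.card (stabilizer S ω) :=
      Subgroup.card_map_of_injective S.subtype_injective
    have hz := hc ((stabilizer S ω).map S.subtype) (Subgroup.map_subtype_le _)
      (by rw [hcard]; exact hge)
    obtain ⟨s, hs, hsz⟩ := Subgroup.mem_map.mp hz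
    have h5 : s • ω = ω := hs
    have h6 : (s : G) • ω = ω := h5
    have h7 : ((S.subtype s : G)) • ω = ω := h6
    rw [hsz] at h7
    exact hω h7
  rw [hk'] at h1 h4
  interval_cases k <;> omega

theorem tg_no_40 {G : Type*} [Group G] [Finite G] {Ω : Type*} [Fintype Ω] [MulAction G Ω]
    [FaithfulSMul G Ω] (hΩ : Fintype.card Ω = 40) (h2 : MulAction.IsMultiplyPretransitive G Ω 2)
    (hG : Nat.card G = 17971200) (S P : Subgroup G) (z : G) (hS : Nat.card S = 2048)
    (hzS : z ∈ S) (hz1 : z ≠ 1) (hzc : ∀ g ∈ P, g * z = z * g) (hSP : S ≤ P)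
    (hP : Nat.card P = 10240)
    (hc : ∀ K : Subgroup G, K ≤ S → 128 ≤ Nat.card K → z ∈ K)
    (hf : ∀ R : Subgroup G, R ≤ P → Nat.card R ≠ 1280) : False := by
  classical
  haveI : IsPretransitive G Ω := isPretransitive_of_is_two_pretransitive
  have hcardΩ : Nat.card Ω = 40 := by rw [Nat.card_eq_fintype_card, hΩ]
  -- a point moved by `z`
  obtain ⟨ω, hω⟩ : ∃ ω : Ω, z • ω ≠ ω := by
    by_contra hcon
    push_neg at hcon
    apply hz1
    apply FaithfulSMul.eq_of_smul_eq_smul (α := Ω)
    intro a
    rw [hcon a, one_smul]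
  have hO := tgno40_orbit hΩ S z hS hc ω hω
  -- `z` fixes every point outside the orbit
  have hfix : ∀ ω' : Ω, ω' ∉ orbit S ω → z • ω' = ω' := by
    intro ω' hω'
    by_contra hne
    have hO' := tgno40_orbit hΩ S z hS hc ω' hne
    have hdisj : Disjoint (orbit S ω) (orbit S ω') := by
      rw [Set.disjoint_left]
      intro x hx hx'
      apply hω'
      have e1 : orbit S x = orbit S ω := orbit_eq_iff.mpr hx
      have e2 : orbit S x = orbit S ω' := orbit_eq_iff.mpr hx'
      rw [← e1, e2]
      exact mem_orbit_self ω'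
    have hun := Set.ncard_union_eq hdisj (Set.toFinite _) (Set.toFinite _)
    have hle := Set.ncard_le_card (orbit S ω ∪ orbit S ω')
    rw [hun, hO, hO', hcardΩ] at hle
    omega
  -- `z` moves every point of the orbit
  have hmove : ∀ ω' : Ω, ω' ∈ orbit S ω → z • ω' ≠ ω' := by
    intro ω' hω' h
    obtain ⟨s, rfl⟩ := hω'
    apply hω
    have hs : (s : G) * z = z * (s : G) := hzc _ (hSP s.2)
    have h1 : z • (s : G) • ω = (s : G) • ω := h
    rw [smul_smul, ← hs, ← smul_smul] at h1
    exact smul_left_cancel _ h1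
  -- the fixed points of `z`
  have hcompl : ((orbit S ω)ᶜ).ncard = 8 := by
    have := Set.ncard_add_ncard_compl (orbit S ω) (Set.toFinite _) (Set.toFinite _)
    rw [hO, hcardΩ] at this
    omega
  obtain ⟨α, hα⟩ : ((orbit S ω)ᶜ).Nonempty := by
    rw [← Set.ncard_pos (Set.toFinite _), hcompl]
    norm_num
  -- the `P`-orbit of `α` consists of fixed points
  have hPorb : orbit P α ⊆ (orbit S ω)ᶜ := by
    rintro x ⟨g, rfl⟩
    intro hx
    apply hmove _ hx
    have hg : (g : G) * z = z * (g : G) := hzc _ g.2
    have hzα : z • α = α := hfix α hα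
    show z • (g : G) • α = (g : G) • α
    rw [smul_smul, ← hg, ← smul_smul, hzα]
  have hPle : (orbit P α).ncard ≤ 8 := by
    rw [← hcompl]
    exact Set.ncard_le_ncard hPorb (Set.toFinite _)
  have h1 : Nat.card (stabilizer P α) * (orbit P α).ncard = 10240 := by
    rw [← index_stabilizer, Subgroup.card_mul_index, hP]
  have hcardR : Nat.card ((stabilizer P α).map P.subtype) = Nat.card (stabilizer P α) :=
    Subgroup.card_map_of_injective P.subtype_injective
  have hRle : (stabilizer P α).map P.subtype ≤ stabilizer G α := by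
    rintro x ⟨g, hg, rfl⟩
    exact hg
  have hstab : Nat.card (stabilizer G α) * 40 = 17971200 := by
    rw [← hcardΩ, ← index_stabilizer_of_transitive (G := G) (x := α), Subgroup.card_mul_index,
      hG]
  have hd1 : Nat.card (stabilizer P α) ∣ 10240 := Dvd.intro _ h1
  have hd2 : Nat.card (stabilizer P α) ∣ 449280 := by
    rw [← hcardR]
    have h3 := Subgroup.card_dvd_of_le hRle
    have h4 : Nat.card (stabilizer G α) = 449280 := by omega
    rw [h4] at h3
    exact h3
  have hd3 : Nat.card (stabilizer P α) ∣ 1280 := by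
    have := Nat.dvd_gcd hd1 hd2
    have e : Nat.gcd 10240 449280 = 1280 := by norm_num
    rwa [e] at this
  have hle : Nat.card (stabilizer P α) ≤ 1280 := Nat.le_of_dvd (by norm_num) hd3
  have hge : 1280 ≤ Nat.card (stabilizer P α) := by
    by_contra hlt
    push_neg at hlt
    have h5 : Nat.card (stabilizer P α) * (orbit P α).ncard ≤ 1279 * 8 :=
      Nat.mul_le_mul (by omega) hPle
    omega
  exact hf _ (Subgroup.map_subtype_le _) (by rw [hcardR]; omega)

end Cfsg.Agent.Lib.Helper99.TG
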