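import Cfsg.Agent.Lib.Helper59.XS0

/-!
# S3054 / S3055 piece GC: the determinant is the action on the centre (helper59)
-/

set_option autoImplicit false

namespace Cfsg.Agent.Lib.Helper59.XSGC

open scoped commutatorElement

section class2

variable {Q : Type*} [Group Q]

theorem comm_mul_left (hcen : ∀ a b c : Q, Commute ⁅a, b⁆ c) (a b c : Q) :
    ⁅a * b, c⁆ = ⁅a, c⁆ * ⁅b, c⁆ := by
  have h1 : ⁅a * b, c⁆ = a * ⁅b, c⁆ * a⁻¹ * ⁅a, c⁆ := by
    simp only [commutatorElement_def]; group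
  have h2 : a * ⁅b, c⁆ = ⁅b, c⁆ * a := ((hcen b c a).eq).symm
  rw [h1, h2, mul_inv_cancel_right]
  exact (hcen b c _).eq

theorem comm_mul_right (hcen : ∀ a b c : Q, Commute ⁅a, b⁆ c) (a b c : Q) :
    ⁅a, b * c⁆ = ⁅a, b⁆ * ⁅a, c⁆ := by
  have h1 : ⁅a, b * c⁆ = ⁅a, b⁆ * (b * ⁅a, c⁆ * b⁻¹) := by
    simp only [commutatorElement_def]; group
  have h2 : b * ⁅a, c⁆ = ⁅a, c⁆ * b := ((hcen a c b).eq).symm
  rw [h1, h2, mul_inv_cancel_right]

theorem comm_pow_left (hcen : ∀ a b c : Q, Commute ⁅a, b⁆ c) (a c : Q) (k : ℕ) :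
    ⁅a ^ k, c⁆ = ⁅a, c⁆ ^ k := by
  induction k with
  | zero => simp
  | succ k ih => rw [pow_succ, comm_mul_left hcen, ih, pow_succ]

theorem comm_pow_right (hcen : ∀ a b c : Q, Commute ⁅a, b⁆ c) (a c : Q) (k : ℕ) :
    ⁅a, c ^ k⁆ = ⁅a, c⁆ ^ k := by
  induction k with
  | zero => simp
  | succ k ih => rw [pow_succ, comm_mul_right hcen, ih, pow_succ]

theorem comm_eq_one_of_commute {a b : Q} (h : Commute a b) : ⁅a, b⁆ = 1 := by
  rw [commutatorElement_eq_one_iff_mul_comm]; exact h.eq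

/-- the bilinear formula -/
theorem comm_formula (hcen : ∀ a b c : Q, Commute ⁅a, b⁆ c) (X Y z z' : Q)
    (hz : ∀ c : Q, Commute z c) (hz' : ∀ c : Q, Commute z' c) (a b a' b' : ℕ) :
    ⁅X ^ a * Y ^ b * z, X ^ a' * Y ^ b' * z'⁆ =
      ⁅X, Y⁆ ^ (a * b') * (⁅X, Y⁆⁻¹) ^ (b * a') := by
  have e1 : ∀ w : Q, ⁅X ^ a * Y ^ b * z, w⁆ = ⁅X ^ a, w⁆ * ⁅Y ^ b, w⁆ := by
    intro w
    rw [comm_mul_left hcen, comm_mul_left hcen, comm_eq_one_of_commute (hz w), mul_one]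
  have e2 : ∀ w : Q, ⁅w, X ^ a' * Y ^ b' * z'⁆ = ⁅w, X ^ a'⁆ * ⁅w, Y ^ b'⁆ := by
    intro w
    rw [comm_mul_right hcen, comm_mul_right hcen, comm_eq_one_of_commute (hz' w).symm, mul_one]
  rw [e1, e2, e2]
  have f1 : ⁅X ^ a, X ^ a'⁆ = 1 :=
    comm_eq_one_of_commute ((Commute.refl X).pow_pow a a')
  have f2 : ⁅Y ^ b, Y ^ b'⁆ = 1 :=
    comm_eq_one_of_commute ((Commute.refl Y).pow_pow b b')
  have f3 : ⁅X ^ a, Y ^ b'⁆ = ⁅X, Y⁆ ^ (a * b') := by
    rw [comm_pow_left hcen, comm_pow_right hcen, ← pow_mul, mul_comm]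
  have f4 : ⁅Y ^ b, X ^ a'⁆ = (⁅X, Y⁆⁻¹) ^ (b * a') := by
    rw [comm_pow_left hcen, comm_pow_right hcen, ← pow_mul, mul_comm, commutatorElement_inv]
  rw [f1, f2, f3, f4, one_mul, mul_one]

end class2

end Cfsg.Agent.Lib.Helper59.XSGC

namespace Cfsg.Agent.Lib.Helper59.XS

open Cfsg.Agent.Lib.Helper59.XSGC
open scoped commutatorElement

variable {G : Type*} [Group G]

/-! ### Piece GC : the determinant is the action on the centre -/
theorem det_rep {p : ℕ} [Fact p.Prime] [Finite G] (P : Sylow p G) {Z : Subgroup G}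
    (h : Setup p (P : Subgroup G) Z)
    (κ : ↥(P : Subgroup G) →* Multiplicative (Fin 2 → ZMod p)) (hκs : Function.Surjective κ)
    (hκk : ∀ u : ↥(P : Subgroup G), κ u = 1 ↔ (u : G) ∈ Z)
    (ρ : ↥(Subgroup.normalizer ((P : Subgroup G) : Set G)) →*
        Matrix.GeneralLinearGroup (Fin 2) (ZMod p))
    (hρ : ∀ (n : ↥(Subgroup.normalizer ((P : Subgroup G) : Set G))) (u : ↥(P : Subgroup G)),
        Multiplicative.toAdd (κ (Subgroup.normalizerMonoidHom (P : Subgroup G) n u)) =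
          Matrix.mulVec (ρ n : Matrix (Fin 2) (Fin 2) (ZMod p)) (Multiplicative.toAdd (κ u)))
    (n : ↥(Subgroup.normalizer ((P : Subgroup G) : Set G))) (c : ZMod p)
    (hc : ∀ z ∈ Z, (n : G) * z * (n : G)⁻¹ = z ^ c.val) :
    Matrix.det (ρ n : Matrix (Fin 2) (Fin 2) (ZMod p)) = c := by
  classical
  have hpp : p.Prime := Fact.out
  have hcoe : ∀ a b : ↥(P : Subgroup G), ((⁅a, b⁆ : ↥(P : Subgroup G)) : G) = ⁅(a : G), (b : G)⁆ := by
    intro a b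
    simp [commutatorElement_def]
  have hcZ : ∀ a b : ↥(P : Subgroup G), ((⁅a, b⁆ : ↥(P : Subgroup G)) : G) ∈ Z := by
    intro a b
    rw [hcoe]
    exact h.hcomm a a.2 b b.2
  have hZcen : ∀ z : ↥(P : Subgroup G), (z : G) ∈ Z → ∀ c : ↥(P : Subgroup G), Commute z c := by
    intro z hz c
    apply Subtype.ext
    have := h.hZc _ hz c c.2
    simpa using this.symm
  have hcen : ∀ a b c : ↥(P : Subgroup G), Commute ⁅a, b⁆ c := fun a b c => hZcen _ (hcZ a b) c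
  obtain ⟨X, hX⟩ := hκs (Multiplicative.ofAdd ![1, 0])
  obtain ⟨Y, hY⟩ := hκs (Multiplicative.ofAdd ![0, 1])
  obtain ⟨T, hT⟩ : ∃ T : ↥(P : Subgroup G), T = ⁅X, Y⁆ := ⟨_, rfl⟩
  -- decomposition
  have hdec : ∀ u : ↥(P : Subgroup G), ∃ z : ↥(P : Subgroup G), (z : G) ∈ Z ∧
      u = X ^ (Multiplicative.toAdd (κ u) 0).val * Y ^ (Multiplicative.toAdd (κ u) 1).val * z := by
    intro u
    refine ⟨(X ^ (Multiplicative.toAdd (κ u) 0).val * Y ^ (Multiplicative.toAdd (κ u) 1).val)⁻¹ * u,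
      ?_, by group⟩
    rw [← hκk, map_mul, map_inv, map_mul, map_pow, map_pow, hX, hY]
    apply Multiplicative.toAdd.injective
    funext i
    fin_cases i <;> simp
  -- the bilinear formula in coordinates
  have hF : ∀ u u' : ↥(P : Subgroup G), ⁅u, u'⁆ =
      T ^ ((Multiplicative.toAdd (κ u) 0).val * (Multiplicative.toAdd (κ u') 1).val) *
        (T⁻¹) ^ ((Multiplicative.toAdd (κ u) 1).val * (Multiplicative.toAdd (κ u') 0).val) := by
    intro u u'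
    obtain ⟨z, hz, hu⟩ := hdec u
    obtain ⟨z', hz', hu'⟩ := hdec u'
    rw [hT]
    conv_lhs => rw [hu, hu']
    exact comm_formula hcen X Y z z' (hZcen z hz) (hZcen z' hz') _ _ _ _
  -- T ≠ 1
  have hT1 : T ≠ 1 := by
    intro hT1
    have hall : ∀ u u' : ↥(P : Subgroup G), u * u' = u' * u := by
      intro u u'
      have := hF u u'
      rw [hT1, one_pow, inv_one, one_pow, mul_one, commutatorElement_eq_one_iff_mul_comm] at this
      exact this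
    have hle : (P : Subgroup G) ≤ Z := by
      intro u hu
      apply h.hZmem u hu
      intro a ha
      exact congrArg Subtype.val (hall ⟨a, ha⟩ ⟨u, hu⟩)
    have hd := Subgroup.card_dvd_of_le hle
    rw [h.hcard, h.hZcard] at hd
    have := Nat.le_of_dvd hpp.pos hd
    have h2 := hpp.two_le
    have h3 : p ^ 3 = p * (p * p) := by ring
    nlinarith
  have hTp : T ^ p = 1 := Subtype.ext (h.hexp T T.2)
  have hTo : orderOf T = p := orderOf_eq_prime hTp hT1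
  -- the action of n
  obtain ⟨φ, hφ⟩ : ∃ φ : MulAut ↥(P : Subgroup G),
      φ = Subgroup.normalizerMonoidHom (P : Subgroup G) n := ⟨_, rfl⟩
  have hφT : φ T = T ^ c.val := by
    apply Subtype.ext
    have h1 : ((φ T : ↥(P : Subgroup G)) : G) = (n : G) * (T : G) * (n : G)⁻¹ := by
      rw [hφ]; rfl
    rw [h1, hc _ (by rw [hT]; exact hcZ X Y)]
    simp
  have hφX : Multiplicative.toAdd (κ (φ X)) =
      ![(ρ n : Matrix (Fin 2) (Fin 2) (ZMod p)) 0 0, (ρ n : Matrix (Fin 2) (Fin 2) (ZMod p)) 1 0] := by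
    rw [hφ, hρ, hX]
    funext i
    fin_cases i <;> simp [Matrix.mulVec, dotProduct, Fin.sum_univ_two]
  have hφY : Multiplicative.toAdd (κ (φ Y)) =
      ![(ρ n : Matrix (Fin 2) (Fin 2) (ZMod p)) 0 1, (ρ n : Matrix (Fin 2) (Fin 2) (ZMod p)) 1 1] := by
    rw [hφ, hρ, hY]
    funext i
    fin_cases i <;> simp [Matrix.mulVec, dotProduct, Fin.sum_univ_two]
  have hkey : T ^ c.val = T ^ (((ρ n : Matrix (Fin 2) (Fin 2) (ZMod p)) 0 0).val *
        ((ρ n : Matrix (Fin 2) (Fin 2) (ZMod p)) 1 1).val) *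
      (T⁻¹) ^ (((ρ n : Matrix (Fin 2) (Fin 2) (ZMod p)) 1 0).val *
        ((ρ n : Matrix (Fin 2) (Fin 2) (ZMod p)) 0 1).val) := by
    rw [← hφT]
    conv_lhs => rw [hT]
    rw [map_commutatorElement, hF, hφX, hφY]
    simp
  obtain ⟨m00, h00⟩ : ∃ m, m = (ρ n : Matrix (Fin 2) (Fin 2) (ZMod p)) 0 0 := ⟨_, rfl⟩
  obtain ⟨m01, h01⟩ : ∃ m, m = (ρ n : Matrix (Fin 2) (Fin 2) (ZMod p)) 0 1 := ⟨_, rfl⟩
  obtain ⟨m10, h10⟩ : ∃ m, m = (ρ n : Matrix (Fin 2) (Fin 2) (ZMod p)) 1 0 := ⟨_, rfl⟩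
  obtain ⟨m11, h11⟩ : ∃ m, m = (ρ n : Matrix (Fin 2) (Fin 2) (ZMod p)) 1 1 := ⟨_, rfl⟩
  rw [← h00, ← h01, ← h10, ← h11] at hkey
  have hkey2 : T ^ (c.val + m10.val * m01.val) = T ^ (m00.val * m11.val) := by
    rw [pow_add, hkey, mul_assoc, inv_pow, inv_mul_cancel, mul_one]
  have hmod := (pow_eq_pow_iff_modEq).mp hkey2
  rw [hTo] at hmod
  have hz := (ZMod.natCast_eq_natCast_iff _ _ _).mpr hmod
  push_cast at hz
  rw [ZMod.natCast_zmod_val, ZMod.natCast_zmod_val, ZMod.natCast_zmod_val, ZMod.natCast_zmod_val,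
    ZMod.natCast_zmod_val] at hz
  rw [Matrix.det_fin_two, ← h00, ← h01, ← h10, ← h11]
  linear_combination (-1 : ZMod p) * hz

end Cfsg.Agent.Lib.Helper59.XS
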