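import Cfsg.Agent.Lib.Helper59.XS0

/-!
# S3054 / S3055 piece GDc: Sylow adjustment into `N_G(P)` (helper59)
-/

set_option autoImplicit false

namespace Cfsg.Agent.Lib.Helper59.XSGDc

open Cfsg.Agent.Lib.Helper59.XS
open scoped commutatorElement Pointwise

variable {G : Type*} [Group G]

theorem sylow_conj_in [Finite G] {p : ℕ} [Fact p.Prime] (P : Sylow p G)
    (K : Subgroup G) (hPK : (P : Subgroup G) ≤ K) (E : Subgroup G) (hE : IsPGroup p E)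
    (hEK : E ≤ K) : ∃ c ∈ K, ∀ e ∈ E, c * e * c⁻¹ ∈ (P : Subgroup G) := by
  have h1 : IsPGroup p (E.subgroupOf K) := hE.comap_subtype
  obtain ⟨Q, hQ⟩ := h1.exists_le_sylow
  obtain ⟨h, hh⟩ := MulAction.exists_smul_eq ↥K Q (P.subtype hPK)
  refine ⟨h, h.2, fun e he => ?_⟩
  have hxQ : (⟨e, hEK he⟩ : K) ∈ (Q : Subgroup K) := hQ (Subgroup.mem_subgroupOf.mpr he)
  have hmem : h * ⟨e, hEK he⟩ * h⁻¹ ∈ ((P.subtype hPK : Sylow p K) : Subgroup K) := by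
    rw [← hh, Sylow.coe_subgroup_smul, Subgroup.mem_pointwise_smul_iff_inv_smul_mem]
    simpa [MulAut.smul_def, mul_assoc] using hxQ
  rw [Sylow.coe_subtype, Subgroup.mem_subgroupOf] at hmem
  simpa using hmem

/-- an element conjugating a finite subgroup into itself normalizes it -/
theorem mem_normalizer_of_conj_le [Finite G] (P : Subgroup G) (n : G)
    (hn : ∀ u ∈ P, n * u * n⁻¹ ∈ P) : n ∈ Subgroup.normalizer (P : Set G) := by
  have hle : P.map (MulAut.conj n).toMonoidHom ≤ P := by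
    rintro _ ⟨u, hu, rfl⟩
    exact hn u hu
  have hcard : Nat.card (P.map (MulAut.conj n).toMonoidHom) = Nat.card P :=
    Subgroup.card_map_of_injective (MulAut.conj n).injective
  have heq : P.map (MulAut.conj n).toMonoidHom = P :=
    Subgroup.eq_of_le_of_card_ge hle (by rw [hcard])
  rw [Subgroup.mem_normalizer_iff]
  intro u
  refine ⟨hn u, fun hu => ?_⟩
  rw [← heq] at hu
  obtain ⟨u', hu', he⟩ := hu
  have : u' = u := by
    have h1 : n * u' * n⁻¹ = n * u * n⁻¹ := he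
    have h2 : u' = n⁻¹ * (n * u' * n⁻¹) * n := by group
    rw [h2, h1]; group
  rw [← this]; exact hu'

/-- the subgroup of elements centralizing `Z` and `x` modulo `Z` -/
def stab (Z : Subgroup G) (x : G) : Subgroup G where
  carrier := {h | (∀ z ∈ Z, h * z * h⁻¹ = z) ∧ h * x * h⁻¹ * x⁻¹ ∈ Z}
  one_mem' := by
    refine ⟨fun z _ => by group, ?_⟩
    have : (1 : G) * x * 1⁻¹ * x⁻¹ = 1 := by group
    rw [this]; exact Z.one_mem
  mul_mem' := by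
    rintro a b ⟨ha1, ha2⟩ ⟨hb1, hb2⟩
    refine ⟨fun z hz => ?_, ?_⟩
    · have : a * b * z * (a * b)⁻¹ = a * (b * z * b⁻¹) * a⁻¹ := by group
      rw [this, hb1 z hz, ha1 z hz]
    · have : a * b * x * (a * b)⁻¹ * x⁻¹ = a * (b * x * b⁻¹ * x⁻¹) * a⁻¹ * (a * x * a⁻¹ * x⁻¹) := by
        group
      rw [this, ha1 _ hb2]
      exact Z.mul_mem hb2 ha2
  inv_mem' := by
    rintro a ⟨ha1, ha2⟩
    have hinv : ∀ z ∈ Z, a⁻¹ * z * a⁻¹⁻¹ = z := by
      intro z hz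
      have h1 := ha1 z hz
      have h2 : a⁻¹ * z * a⁻¹⁻¹ = a⁻¹ * (a * z * a⁻¹) * a := by rw [h1]; group
      rw [h2]; group
    refine ⟨hinv, ?_⟩
    have h1 := hinv _ ha2
    have h2 : a⁻¹ * x * a⁻¹⁻¹ * x⁻¹ = (a⁻¹ * (a * x * a⁻¹ * x⁻¹) * a⁻¹⁻¹)⁻¹ := by group
    rw [h2, h1]
    exact Z.inv_mem ha2

theorem mem_stab {Z : Subgroup G} {x h : G} :
    h ∈ stab Z x ↔ (∀ z ∈ Z, h * z * h⁻¹ = z) ∧ h * x * h⁻¹ * x⁻¹ ∈ Z := Iff.rfl

end Cfsg.Agent.Lib.Helper59.XSGDc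

namespace Cfsg.Agent.Lib.Helper59.XS

open Cfsg.Agent.Lib.Helper59.XSGDc
open scoped commutatorElement

variable {G : Type*} [Group G]

/-! ### Piece GDc : Sylow adjustment into `N_G(P)` -/
theorem sylow_adjust {p : ℕ} [Fact p.Prime] [Finite G] (P : Sylow p G) {Z : Subgroup G}
    (h : Setup p (P : Subgroup G) Z) {x g : G} (hx : x ∈ (P : Subgroup G)) (lam : (ZMod p)ˣ)
    (hgz : ∀ z ∈ Z, g * z * g⁻¹ = z ^ (lam : ZMod p).val)
    (hgx : g * x * g⁻¹ = x ^ ((lam⁻¹ : (ZMod p)ˣ) : ZMod p).val) :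
    ∃ n ∈ Subgroup.normalizer ((P : Subgroup G) : Set G),
      (∀ z ∈ Z, n * z * n⁻¹ = z ^ (lam : ZMod p).val) ∧
      n * x * n⁻¹ * (x ^ ((lam⁻¹ : (ZMod p)ˣ) : ZMod p).val)⁻¹ ∈ Z := by
  have hpp : p.Prime := Fact.out
  obtain ⟨l, hl⟩ : ∃ l, l = (lam : ZMod p).val := ⟨_, rfl⟩
  obtain ⟨m, hm⟩ : ∃ m, m = ((lam⁻¹ : (ZMod p)ˣ) : ZMod p).val := ⟨_, rfl⟩
  rw [← hl] at hgz
  rw [← hm] at hgx
  rw [← hl, ← hm]
  -- l * m ≡ 1 mod p
  have hlm : ∀ y : G, y ^ p = 1 → y ^ (l * m) = y := by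
    intro y hy
    have h1 : ((l * m : ℕ) : ZMod p) = ((1 : ℕ) : ZMod p) := by
      rw [Nat.cast_mul, hl, hm, ZMod.natCast_zmod_val, ZMod.natCast_zmod_val, Nat.cast_one]
      exact_mod_cast lam.mul_inv
    have h2 := (ZMod.natCast_eq_natCast_iff' _ _ _).mp h1
    rw [Nat.mod_eq_of_lt hpp.one_lt] at h2
    have h3 : l * m = p * (l * m / p) + 1 := by
      have := Nat.div_add_mod (l * m) p
      omega
    rw [h3, pow_add, pow_mul, hy, one_pow, one_mul, pow_one]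
  have hxp : x ^ p = 1 := h.hexp x hx
  have hZp : ∀ z ∈ Z, z ^ p = 1 := fun z hz => h.hexp z (h.hZP hz)
  -- inverse action of g
  have hginvz : ∀ z ∈ Z, g⁻¹ * z * g = z ^ m := by
    intro z hz
    have h1 : g * z ^ m * g⁻¹ = z := by
      rw [← conj_pow, hgz z hz, ← pow_mul, hlm z (hZp z hz)]
    have h2 : g⁻¹ * z * g = g⁻¹ * (g * z ^ m * g⁻¹) * g := by rw [h1]
    rw [h2]; group
  have hginvx : g⁻¹ * x * g = x ^ l := by
    have h1 : g * x ^ l * g⁻¹ = x := by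
      rw [← conj_pow, hgx, ← pow_mul, mul_comm, hlm x hxp]
    have h2 : g⁻¹ * x * g = g⁻¹ * (g * x ^ l * g⁻¹) * g := by rw [h1]
    rw [h2]; group
  -- P ≤ stab
  have hPX : (P : Subgroup G) ≤ stab Z x := by
    intro u hu
    refine ⟨fun z hz => ?_, ?_⟩
    · rw [h.hZc z hz u hu]; group
    · have := h.hcomm u hu x hx
      rwa [commutatorElement_def] at this
  -- g normalizes stab
  have hgX : ∀ a ∈ stab Z x, g * a * g⁻¹ ∈ stab Z x := by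
    rintro a ⟨ha1, ha2⟩
    refine ⟨fun z hz => ?_, ?_⟩
    · have h1 : g * a * g⁻¹ * z * (g * a * g⁻¹)⁻¹ = g * (a * (g⁻¹ * z * g) * a⁻¹) * g⁻¹ := by
        group
      rw [h1, hginvz z hz, ha1 _ (Z.pow_mem hz m)]
      rw [← conj_pow, hgz z hz, ← pow_mul, hlm z (hZp z hz)]
    · obtain ⟨t, ht⟩ : ∃ t, t = a * x * a⁻¹ * x⁻¹ := ⟨_, rfl⟩
      rw [← ht] at ha2
      have hax : a * x * a⁻¹ = t * x := by rw [ht]; group
      have htx : Commute t x := (h.hZc t ha2 x hx).symm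
      have h1 : g * a * g⁻¹ * x * (g * a * g⁻¹)⁻¹ * x⁻¹ =
          g * (a * (g⁻¹ * x * g) * a⁻¹) * g⁻¹ * x⁻¹ := by group
      rw [h1, hginvx, ← conj_pow, hax, htx.mul_pow]
      have h2 : g * (t ^ l * x ^ l) * g⁻¹ * x⁻¹ = g * t ^ l * g⁻¹ * (g * x ^ l * g⁻¹) * x⁻¹ := by
        group
      have h3 : g * x ^ l * g⁻¹ = x := by
        rw [← conj_pow, hgx, ← pow_mul, mul_comm, hlm x hxp]
      rw [h2, h3, mul_assoc, mul_inv_cancel, mul_one, hgz _ (Z.pow_mem ha2 l)]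
      exact Z.pow_mem (Z.pow_mem ha2 l) l
  -- the conjugate of P
  obtain ⟨E, hE⟩ : ∃ E : Subgroup G, E = (P : Subgroup G).map (MulAut.conj g).toMonoidHom :=
    ⟨_, rfl⟩
  have hEp : IsPGroup p E := by
    rw [hE]
    exact P.isPGroup'.map _
  have hEX : E ≤ stab Z x := by
    rw [hE]
    rintro _ ⟨u, hu, rfl⟩
    exact hgX u (hPX hu)
  obtain ⟨c, hc, hcE⟩ := sylow_conj_in P (stab Z x) hPX E hEp hEX
  obtain ⟨hc1, hc2⟩ := hc
  refine ⟨c * g, ?_, ?_, ?_⟩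
  · apply mem_normalizer_of_conj_le
    intro u hu
    have h1 : c * g * u * (c * g)⁻¹ = c * (g * u * g⁻¹) * c⁻¹ := by group
    rw [h1]
    apply hcE
    rw [hE]
    exact ⟨u, hu, rfl⟩
  · intro z hz
    have h1 : c * g * z * (c * g)⁻¹ = c * (g * z * g⁻¹) * c⁻¹ := by group
    rw [h1, hgz z hz, hc1 _ (Z.pow_mem hz l)]
  · obtain ⟨t, ht⟩ : ∃ t, t = c * x * c⁻¹ * x⁻¹ := ⟨_, rfl⟩
    rw [← ht] at hc2
    have hcx : c * x * c⁻¹ = t * x := by rw [ht]; group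
    have htx : Commute t x := (h.hZc t hc2 x hx).symm
    have h1 : c * g * x * (c * g)⁻¹ = c * (g * x * g⁻¹) * c⁻¹ := by group
    rw [h1, hgx, ← conj_pow, hcx, htx.mul_pow, mul_assoc, mul_inv_cancel, mul_one]
    exact Z.pow_mem hc2 m

end Cfsg.Agent.Lib.Helper59.XS
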