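import Cfsg.Agent.Lib.Helper59.XS0
import Cfsg.Agent.Lib.Helper59.XSGDc
import Cfsg.Agent.Lib.Helper59.XSGC
import Cfsg.Agent.Lib.Helper62.XSBF
import Cfsg.Agent.Lib.Helper75.XST
import Cfsg.Agent.Lib.Helper79.XSZLE
import Cfsg.Agent.Lib.Helper8.XSAUT
import Cfsg.Agent.Lib.Helper90.XSGDab
import Cfsg.Agent.Lib.Helper90.XSGA
import Cfsg.Agent.Lib.Helper92.XSL
import Cfsg.Agent.Lib.Helper94.XSGB
import Cfsg.Agent.Lib.Helper13.XSM
import Cfsg.Prelude.Def_Transfer

/-!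
# Assembly for S3054 / S3055 (helper59)
-/

set_option autoImplicit false

namespace Cfsg.Agent.Lib.Helper59.XS

open scoped commutatorElement

variable {G : Type*} [Group G]

/-- the `Setup` of an extraspecial Sylow subgroup of order `p³` and exponent `p` -/
theorem setup_of_extraspecial {p : ℕ} [Fact p.Prime] (P : Sylow p G)
    (hE : Cfsg.IsExtraspecial p ↥P) (hcard : Nat.card P = p ^ 3)
    (hexp : Monoid.exponent ↥P = p) :
    Setup p (P : Subgroup G) ((Subgroup.center ↥P).map (P : Subgroup G).subtype) := by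
  obtain ⟨⟨_, _, hcm⟩, hZc⟩ := hE
  refine ⟨Subgroup.map_subtype_le _, ?_, ?_, ?_, ?_, ?_, hcard⟩
  · rintro z ⟨z', hz', rfl⟩ a ha
    have h := (Subgroup.mem_center_iff.mp hz') ⟨a, ha⟩
    exact congrArg Subtype.val h
  · rw [Subgroup.card_map_of_injective (Subgroup.subtype_injective _)]
    exact hZc
  · intro a ha b hb
    have h1 : ⁅(⟨a, ha⟩ : P), ⟨b, hb⟩⁆ ∈ commutator P := by
      rw [commutator_def]
      exact Subgroup.commutator_mem_commutator (Subgroup.mem_top _) (Subgroup.mem_top _)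
    exact ⟨_, hcm.le h1, rfl⟩
  · intro z hz h
    refine ⟨⟨z, hz⟩, Subgroup.mem_center_iff.mpr ?_, rfl⟩
    intro a
    exact Subtype.ext (h a a.2)
  · intro u hu
    have h1 := Monoid.pow_exponent_eq_one (⟨u, hu⟩ : P)
    rw [hexp] at h1
    exact congrArg Subtype.val h1

section basics

variable {p : ℕ} [Fact p.Prime] {P Z : Subgroup G} [Finite G]

theorem Setup.pow_eq_one_of_mem_Z (h : Setup p P Z) {z : G} (hz : z ∈ Z) : z ^ p = 1 :=
  h.hexp z (h.hZP hz)

/-- a nontrivial element of `Z` generates `Z` -/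
theorem Setup.exists_pow_eq (h : Setup p P Z) {z : G} (hz : z ∈ Z) (hz1 : z ≠ 1) {z' : G}
    (hz' : z' ∈ Z) : ∃ n : ℕ, z ^ n = z' := by
  have hpp : p.Prime := Fact.out
  have hle : Subgroup.zpowers z ≤ Z := (Subgroup.zpowers_le).mpr hz
  have hcardz : Nat.card (Subgroup.zpowers z) = p := by
    have hdvd : Nat.card (Subgroup.zpowers z) ∣ p := h.hZcard ▸ Subgroup.card_dvd_of_le hle
    rcases (Nat.dvd_prime hpp).mp hdvd with h1 | h1
    · exfalso
      rw [Nat.card_zpowers, orderOf_eq_one_iff] at h1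
      exact hz1 h1
    · exact h1
  have : Finite Z := Nat.finite_of_card_ne_zero (by rw [h.hZcard]; exact hpp.ne_zero)
  have heq : Subgroup.zpowers z = Z :=
    Subgroup.eq_of_le_of_card_ge hle (by rw [hcardz, h.hZcard])
  have h1 : z' ∈ Subgroup.zpowers z := heq ▸ hz'
  have h2 : z' ∈ Submonoid.powers z := (mem_powers_iff_mem_zpowers).mpr h1
  exact h2

theorem Setup.exists_ne_one (h : Setup p P Z) : ∃ z ∈ Z, z ≠ 1 := by
  have hpp : p.Prime := Fact.out
  by_contra hcon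
  push Not at hcon
  have h1 : Z = ⊥ := by
    rw [eq_bot_iff]
    intro z hz
    exact Subgroup.mem_bot.mpr (hcon z hz)
  have h2 := h.hZcard
  rw [h1, Subgroup.card_bot] at h2
  exact hpp.one_lt.ne h2

end basics

/-- pieces GDab + GDc: from a shear to a torus element in `N_G(P)` -/
theorem exists_torus {p : ℕ} [Fact p.Prime] [Finite G] (P : Sylow p G) {Z : Subgroup G}
    (h : Setup p (P : Subgroup G) Z) {x hh z : G} (hx : x ∈ (P : Subgroup G)) (hxZ : x ∉ Z)
    (hz : z ∈ Z) {j : ℕ} (hj : x ^ j ≠ 1) (hhx : hh * x * hh⁻¹ = x)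
    (hhz : hh * z * hh⁻¹ = z * x ^ j) (lam : (ZMod p)ˣ) :
    ∃ n ∈ Subgroup.normalizer ((P : Subgroup G) : Set G),
      (∀ z ∈ Z, n * z * n⁻¹ = z ^ (lam : ZMod p).val) ∧
      n * x * n⁻¹ * (x ^ ((lam⁻¹ : (ZMod p)ˣ) : ZMod p).val)⁻¹ ∈ Z := by
  have hpp : p.Prime := Fact.out
  have hz1 : z ≠ 1 := by
    rintro rfl
    apply hj
    simpa using hhz.symm
  have hzp : z ^ p = 1 := h.pow_eq_one_of_mem_Z hz
  have hxp : x ^ p = 1 := h.hexp x hx
  have hzx : z * x = x * z := (h.hZc z hz x hx).symm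
  obtain ⟨u, hu, hux⟩ : ∃ u ∈ (P : Subgroup G), u * x ≠ x * u := by
    by_contra hcon
    push Not at hcon
    exact hxZ (h.hZmem x hx hcon)
  have ht : ⁅u, x⁆ ∈ Z := h.hcomm u hu x hx
  have ht1 : ⁅u, x⁆ ≠ 1 := by
    intro h1
    rw [commutatorElement_eq_one_iff_mul_comm] at h1
    exact hux h1
  obtain ⟨b, hb⟩ := h.exists_pow_eq hz hz1 ht
  have hbp : ¬ p ∣ b := by
    rintro ⟨c, rfl⟩
    rw [pow_mul, hzp, one_pow] at hb
    exact ht1 hb.symm
  have hjp : ¬ p ∣ j := by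
    rintro ⟨c, rfl⟩
    rw [pow_mul, hxp, one_pow] at hj
    exact hj rfl
  have huz : u * z * u⁻¹ = z := by
    rw [h.hZc z hz u hu]; group
  have hux' : u * x * u⁻¹ = x * z ^ b := by
    have h1 : u * x * u⁻¹ = ⁅u, x⁆ * x := by rw [commutatorElement_def]; group
    rw [h1, ← hb]
    have h2 : z ^ b * x = x * z ^ b := by
      have := h.hZc (z ^ b) (Z.pow_mem hz b) x hx
      exact this.symm
    exact h2
  obtain ⟨g, -, hgz, hgx⟩ := exists_torus_word hzx hzp hxp hbp hjp huz hux' hhx hhz lam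
  have hgZ : ∀ z' ∈ Z, g * z' * g⁻¹ = z' ^ (lam : ZMod p).val := by
    intro z' hz'
    obtain ⟨i, rfl⟩ := h.exists_pow_eq hz hz1 hz'
    have h1 : g * z ^ i * g⁻¹ = (g * z * g⁻¹) ^ i := by
      rw [conj_pow]
    rw [h1, hgz, ← pow_mul, ← pow_mul, mul_comm]
  exact sylow_adjust P h hx lam hgZ hgx

/-- the common final argument -/
theorem prime_bound {p : ℕ} [Fact p.Prime] [Finite G] (P : Sylow p G) {Z : Subgroup G}
    (h : Setup p (P : Subgroup G) Z)
    (κ : ↥(P : Subgroup G) →* Multiplicative (Fin 2 → ZMod p)) (hκs : Function.Surjective κ)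
    (hκk : ∀ u : ↥(P : Subgroup G), κ u = 1 ↔ (u : G) ∈ Z)
    {k : ℕ} (x : Fin k → ↥(P : Subgroup G))
    (hx : ∀ i j, i ≠ j → ∀ c : ZMod p,
      Multiplicative.toAdd (κ (x i)) ≠ c • Multiplicative.toAdd (κ (x j)))
    (hxZ : ∀ i, ((x i : ↥(P : Subgroup G)) : G) ∉ Z)
    (htor : ∀ i, ∀ lam : (ZMod p)ˣ, ∃ n ∈ Subgroup.normalizer ((P : Subgroup G) : Set G),
      (∀ z ∈ Z, n * z * n⁻¹ = z ^ (lam : ZMod p).val) ∧
      n * (x i : G) * n⁻¹ * ((x i : G) ^ ((lam⁻¹ : (ZMod p)ˣ) : ZMod p).val)⁻¹ ∈ Z) :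
    ((p = 11 ∨ 17 ≤ p) → k ≤ 2) ∧ (p = 13 → k ≤ 12) := by
  have hpp : p.Prime := Fact.out
  obtain ⟨ρ, hρ, hW⟩ := exists_rep P h κ hκs hκk
  -- a primitive root
  obtain ⟨lam, hlam⟩ : ∃ lam : (ZMod p)ˣ, orderOf lam = p - 1 := by
    obtain ⟨g, hg⟩ := IsCyclic.exists_generator (α := (ZMod p)ˣ)
    refine ⟨g, ?_⟩
    rw [orderOf_eq_card_of_forall_mem_zpowers hg, Nat.card_eq_fintype_card, ZMod.card_units]
  choose n hnN hnZ hnx using fun i => htor i lam
  refine core_matrix ρ.range hW lam hlam (fun i => Multiplicative.toAdd (κ (x i)))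
    (fun i => ρ ⟨n i, hnN i⟩) ?_ hx ?_ ?_ ?_
  · intro i h0
    apply hxZ i
    rw [← hκk]
    exact h0
  · intro i
    exact ⟨_, rfl⟩
  · intro i
    rw [← hρ]
    have h1 : κ (Subgroup.normalizerMonoidHom (P : Subgroup G) ⟨n i, hnN i⟩ (x i)) =
        κ (x i ^ ((lam⁻¹ : (ZMod p)ˣ) : ZMod p).val) := by
      have h2 : κ (Subgroup.normalizerMonoidHom (P : Subgroup G) ⟨n i, hnN i⟩ (x i) *
          (x i ^ ((lam⁻¹ : (ZMod p)ˣ) : ZMod p).val)⁻¹) = 1 := by
        rw [hκk]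
        exact hnx i
      rw [map_mul, map_inv, mul_inv_eq_one] at h2
      exact h2
    rw [h1, map_pow, toAdd_pow, ← Nat.cast_smul_eq_nsmul (ZMod p), ZMod.natCast_zmod_val]
  · intro i
    exact det_rep P h κ hκs hκk ρ hρ ⟨n i, hnN i⟩ (lam : ZMod p) (hnZ i)


/-- two subgroups of order `p²` sharing a non-central element coincide -/
theorem eq_of_common {p : ℕ} [Fact p.Prime] [Finite G] {P Z : Subgroup G} (h : Setup p P Z)
    {A A' : Subgroup G} (hA : Nat.card A = p ^ 2) (hA' : Nat.card A' = p ^ 2)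
    (hZA : Z ≤ A) (hZA' : Z ≤ A') {x : G} (hx : x ∈ A) (hx' : x ∈ A') (hxZ : x ∉ Z) :
    A = A' := by
  have hpp : p.Prime := Fact.out
  have hZB : Z ≤ A ⊓ A' := le_inf hZA hZA'
  have hxB : x ∈ A ⊓ A' := ⟨hx, hx'⟩
  have hdvd : Nat.card ↥(A ⊓ A') ∣ p ^ 2 := hA ▸ Subgroup.card_dvd_of_le inf_le_left
  obtain ⟨m, hm, hcard⟩ := (Nat.dvd_prime_pow hpp).mp hdvd
  have hpd : p ∣ Nat.card ↥(A ⊓ A') := h.hZcard ▸ Subgroup.card_dvd_of_le hZB
  have hm2 : m = 2 := by
    interval_cases m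
    · rw [hcard, pow_zero] at hpd
      exact absurd (Nat.le_of_dvd one_pos hpd) (by have := hpp.two_le; omega)
    · exfalso
      apply hxZ
      have heq : Z = A ⊓ A' :=
        Subgroup.eq_of_le_of_card_ge hZB (by rw [hcard, h.hZcard, pow_one])
      rw [heq]; exact hxB
    · rfl
  rw [hm2] at hcard
  have h1 : A ⊓ A' = A := Subgroup.eq_of_le_of_card_ge inf_le_left (by rw [hcard, hA])
  have h2 : A ⊓ A' = A' := Subgroup.eq_of_le_of_card_ge inf_le_right (by rw [hcard, hA'])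
  rw [← h1, h2]

/-- the core of `S3054` -/
theorem s3054_core {p : ℕ} [Fact p.Prime] [Finite G] (P : Sylow p G) {Z : Subgroup G}
    (h : Setup p (P : Subgroup G) Z)
    (A : Fin 3 → Subgroup G) (hA : Function.Injective A) (hAP : ∀ i, A i ≤ (P : Subgroup G))
    (hAcard : ∀ i, Nat.card ↥(A i) = p ^ 2)
    (hSL : ∀ i, ∀ φ : MulAut ↥(A i), orderOf φ = p →
      ∃ g : G, ∀ a : ↥(A i), (φ a : G) = g * (a : G) * g⁻¹) :
    p ≤ 13 := by
  have hpp : p.Prime := Fact.out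
  by_contra hcon
  push Not at hcon
  have h17 : 17 ≤ p := by
    by_contra h17
    push Not at h17
    interval_cases p <;> exact absurd hpp (by norm_num)
  obtain ⟨κ, hκs, hκk⟩ := exists_coord h
  obtain ⟨z0, hz0, hz01⟩ := h.exists_ne_one
  have hZA : ∀ i, Z ≤ A i := fun i => Z_le_of_card h (hAP i) (hAcard i)
  have hxi : ∀ i, ∃ x ∈ A i, x ∉ Z := by
    intro i
    by_contra hc
    push Not at hc
    have hle : A i ≤ Z := hc
    have hd := Subgroup.card_dvd_of_le hle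
    rw [hAcard i, h.hZcard] at hd
    have := Nat.le_of_dvd hpp.pos hd
    have h2 := hpp.two_le
    nlinarith
  have key : ∀ i, ∃ x : ↥(P : Subgroup G), (x : G) ∈ A i ∧ (x : G) ∉ Z ∧
      ∀ lam : (ZMod p)ˣ, ∃ n ∈ Subgroup.normalizer ((P : Subgroup G) : Set G),
        (∀ z ∈ Z, n * z * n⁻¹ = z ^ (lam : ZMod p).val) ∧
        n * (x : G) * n⁻¹ * ((x : G) ^ ((lam⁻¹ : (ZMod p)ˣ) : ZMod p).val)⁻¹ ∈ Z := by
    intro i
    obtain ⟨x, hxA, hxZ⟩ := hxi i
    have hexpA : ∀ a : ↥(A i), a ^ p = 1 := fun a => Subtype.ext (h.hexp a (hAP i a.2))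
    have hzne : (⟨z0, hZA i hz0⟩ : ↥(A i)) ≠ 1 := fun h1 => hz01 (congrArg Subtype.val h1)
    have hxnot : (⟨x, hxA⟩ : ↥(A i)) ∉ Subgroup.zpowers (⟨z0, hZA i hz0⟩ : ↥(A i)) := by
      rintro ⟨m, hm⟩
      apply hxZ
      have h1 : z0 ^ m = x := by
        have := congrArg Subtype.val hm
        simpa using this
      rw [← h1]; exact Z.zpow_mem hz0 m
    obtain ⟨φ, hφo, hφx, hφz⟩ := exists_shear (hAcard i) hexpA hzne hxnot
    obtain ⟨g, hg⟩ := hSL i φ hφo
    have hgx : g * x * g⁻¹ = x := by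
      have := hg ⟨x, hxA⟩
      rw [hφx] at this
      exact this.symm
    have hgz : g * z0 * g⁻¹ = z0 * x ^ 1 := by
      have := hg ⟨z0, hZA i hz0⟩
      rw [hφz] at this
      rw [pow_one]; exact this.symm
    have hx1 : x ^ 1 ≠ 1 := by
      rw [pow_one]; rintro rfl; exact hxZ Z.one_mem
    exact ⟨⟨x, hAP i hxA⟩, hxA, hxZ,
      fun lam => exists_torus P h (hAP i hxA) hxZ hz0 hx1 hgx hgz lam⟩
  choose x hxA hxZ htor using key
  have hb := prime_bound P h κ hκs hκk x ?_ hxZ htor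
  · have := hb.1 (Or.inr h17); omega
  · intro i j hij c hc
    apply hij
    apply hA
    have h1 : κ (x i) = κ (x j ^ c.val) := by
      apply Multiplicative.toAdd.injective
      rw [hc, map_pow, toAdd_pow, ← Nat.cast_smul_eq_nsmul (ZMod p), ZMod.natCast_zmod_val]
    have h2 : κ (x i * (x j ^ c.val)⁻¹) = 1 := by
      rw [map_mul, map_inv, h1, mul_inv_cancel]
    rw [hκk] at h2
    have h3 : (x i : G) ∈ A j := by
      have h4 : ((x i * (x j ^ c.val)⁻¹ : ↥(P : Subgroup G)) : G) ∈ A j := hZA j h2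
      have h5 : (x i : G) = ((x i * (x j ^ c.val)⁻¹ : ↥(P : Subgroup G)) : G) * (x j : G) ^ c.val := by
        simp
      rw [h5]
      exact (A j).mul_mem h4 ((A j).pow_mem (hxA j) _)
    exact eq_of_common h (hAcard i) (hAcard j) (hZA i) (hZA j) (hxA i) h3 (hxZ i)

/-- the core of `S3055` -/
theorem s3055_core {p : ℕ} [Fact p.Prime] [Finite G] (P : Sylow p G) {Z : Subgroup G}
    (h : Setup p (P : Subgroup G) Z)
    (hconj : ∀ x y : ↥(P : Subgroup G), x ≠ 1 → y ≠ 1 → ∃ g : G, g * (x : G) * g⁻¹ = (y : G)) :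
    p ≤ 7 := by
  have hpp : p.Prime := Fact.out
  by_contra hcon
  push Not at hcon
  obtain ⟨κ, hκs, hκk⟩ := exists_coord h
  obtain ⟨vv, hvv⟩ : ∃ vv : Fin (p + 1) → (Fin 2 → ZMod p),
      vv = fun i : Fin (p + 1) => if (i : ℕ) = p then ![1, 0] else ![((i : ℕ) : ZMod p), 1] :=
    ⟨_, rfl⟩
  have hvv0 : ∀ i, vv i ≠ 0 := by
    intro i h0
    rw [hvv] at h0
    by_cases hi : (i : ℕ) = p
    · simp only [hi, if_true] at h0
      have := congrFun h0 0
      simp at this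
    · simp only [hi, if_false] at h0
      have := congrFun h0 1
      simp at this
  have hvvne : ∀ i j, i ≠ j → ∀ c : ZMod p, vv i ≠ c • vv j := by
    intro i j hij c hc
    rw [hvv] at hc
    by_cases hi : (i : ℕ) = p <;> by_cases hj : (j : ℕ) = p
    · exact hij (Fin.ext (hi.trans hj.symm))
    · simp only [hi, hj, if_true, if_false] at hc
      have h1 := congrFun hc 1
      have h0 := congrFun hc 0
      simp at h1 h0
      rw [← h1] at h0
      simp at h0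
    · simp only [hi, hj, if_true, if_false] at hc
      have h1 := congrFun hc 1
      simp at h1
    · simp only [hi, hj, if_false] at hc
      have h1 := congrFun hc 1
      have h0 := congrFun hc 0
      simp at h1 h0
      rw [← h1, one_mul] at h0
      apply hij
      apply Fin.ext
      have h2 := (ZMod.natCast_eq_natCast_iff' _ _ _).mp h0
      have hi' : (i : ℕ) < p := lt_of_le_of_ne (Nat.lt_succ_iff.mp i.2) hi
      have hj' : (j : ℕ) < p := lt_of_le_of_ne (Nat.lt_succ_iff.mp j.2) hj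
      rwa [Nat.mod_eq_of_lt hi', Nat.mod_eq_of_lt hj'] at h2
  obtain ⟨x, hxdef⟩ : ∃ x : Fin (p + 1) → ↥(P : Subgroup G),
      ∀ i, κ (x i) = Multiplicative.ofAdd (vv i) :=
    ⟨fun i => Function.surjInv hκs (Multiplicative.ofAdd (vv i)),
      fun i => Function.surjInv_eq hκs _⟩
  have hxv : ∀ i, Multiplicative.toAdd (κ (x i)) = vv i := by
    intro i; rw [hxdef i]; rfl
  have hxZ : ∀ i, ((x i : ↥(P : Subgroup G)) : G) ∉ Z := by
    intro i hZ
    rw [← hκk] at hZ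
    apply hvv0 i
    rw [← hxv i, hZ]; rfl
  have htor : ∀ i, ∀ lam : (ZMod p)ˣ, ∃ n ∈ Subgroup.normalizer ((P : Subgroup G) : Set G),
      (∀ z ∈ Z, n * z * n⁻¹ = z ^ (lam : ZMod p).val) ∧
      n * (x i : G) * n⁻¹ * ((x i : G) ^ ((lam⁻¹ : (ZMod p)ˣ) : ZMod p).val)⁻¹ ∈ Z := by
    intro i lam
    obtain ⟨hh, z, j, hz, hj, hhx, hhz⟩ := exists_shear_of_conj P h hconj (x i).2 (hxZ i)
    exact exists_torus P h (x i).2 (hxZ i) hz hj hhx hhz lam
  have hb := prime_bound P h κ hκs hκk x ?_ hxZ htor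
  · by_cases h13 : p = 13
    · have := hb.2 h13; omega
    · have h1 : p = 11 ∨ 17 ≤ p := by
        by_contra hc
        push Not at hc
        obtain ⟨hc1, hc2⟩ := hc
        interval_cases p <;> first | omega | exact absurd hpp (by norm_num)
      have := hb.1 h1
      have := hpp.two_le
      omega
  · intro i j hij c
    rw [hxv i, hxv j]
    exact hvvne i j hij c

end Cfsg.Agent.Lib.Helper59.XS
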